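import Mathlib
import Cfsg.Agent.Base
import Cfsg.Agent.Lib.Lin35.Prod
import Cfsg.Agent.Lib.Lin35.GalDeg
import Cfsg.Agent.Lib.Char.Clifford
import Cfsg.Agent.Lib.Core.MinNormal

/-! Solvable groups embed in central quotients of groups of central type (Gagola). -/

set_option autoImplicit false
set_option linter.style.haveILetI false

namespace H35L
open Cfsg

universe u

theorem exists_inj_lift {L A B : Type*} [Group L] [Group A] [Group B] (s : L →* A)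
    (hs : Function.Surjective s) (j : L →* B) (h : ∀ x, s x = 1 ↔ j x = 1) :
    ∃ e : A →* B, Function.Injective e ∧ ∀ x, e (s x) = j x := by
  have he : ∀ x, s.liftOfSurjective hs ⟨j, fun x hx => (h x).1 hx⟩ (s x) = j x := fun x =>
    s.liftOfRightInverse_comp_apply _ _ _ x
  refine ⟨_, (injective_iff_map_eq_one _).2 fun a ha => ?_, he⟩
  obtain ⟨x, rfl⟩ := hs a
  exact (h x).2 ((he x).symm.trans ha)

/-- `Λ` is an invariant linear character of `Z` with no good class outside `Z` -/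
structure CT {H : Type*} [Group H] (Z : Subgroup H) (Λ : H → ℂˣ) : Prop where
  normal : Z.Normal
  mul : ∀ a ∈ Z, ∀ b ∈ Z, Λ (a * b) = Λ a * Λ b
  conj : ∀ h, ∀ z ∈ Z, Λ (h * z * h⁻¹) = Λ z
  bad : ∀ x ∉ Z, ∃ y, ∃ z ∈ Z, Λ z ≠ 1 ∧ y * x * y⁻¹ = z * x

theorem exists_irr_central_type {H : Type u} [Group H] [Finite H]
    (lam : Subgroup.center H →* ℂˣ) (hl : Function.Injective lam)
    (h : ∀ x ∉ Subgroup.center H, ∃ y, ∃ z ∈ Subgroup.center H, z ≠ 1 ∧ y * x * y⁻¹ = z * x) :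
    ∃ χ : IrrCharacter H, (∀ h : H, (χ : H → ℂ) h = (χ : H → ℂ) 1 → h = 1) ∧
      charDegree (χ : H → ℂ) ^ 2 = (Subgroup.center H).index := by
  letI := Fintype.ofFinite H
  letI := Fintype.ofFinite (Subgroup.center H)
  obtain ⟨χ, hχ, h1⟩ := H7.exists_irr_over (Subgroup.center H) (θ := fun z => (lam z : ℂ)) (by simp)
  obtain ⟨μ, hμ⟩ := exists_central_hom hχ
  have h2 : (fun z => (μ.toHomUnits z : ℂ)) = fun z => (lam z : ℂ) :=
    H6.irr_eq_of_inner_ne_zero (H6.isIrrCharacter_hom _) (H6.isIrrCharacter_hom _) fun h0 => h1 (by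
      rw [← mul_zero (χ 1), ← h0, ← H6.classInner_smul_left]
      congr 1
      funext z
      simp [hμ, mul_comm])
  have h0 := H6.irr_one_ne_zero hχ
  have h3 : ∀ z ∈ Subgroup.center H, χ z = χ 1 → z = 1 := fun z hz e => by
    have := hμ ⟨z, hz⟩
    rw [e, eq_comm, mul_eq_right₀ h0] at this
    have h4 := congrFun h2 ⟨z, hz⟩
    simp only [MonoidHom.coe_toHomUnits, this] at h4
    exact congrArg Subtype.val ((injective_iff_map_eq_one _).1 hl _ (Units.val_eq_one.1 h4.symm))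
  have h4 : ∀ x ∉ Subgroup.center H, χ x = 0 := fun x hx => by
    obtain ⟨y, z, hz, h1, e⟩ := h x hx
    obtain ⟨ω, hω⟩ := H87.exists_mul_of_mem_center hχ hz
    have h2 := hω x
    rw [← e, H6.char_isClassFunction (H6.irr_isCharacter hχ)] at h2
    by_contra h0
    refine h1 (h3 z hz ?_)
    have := hω 1
    rwa [mul_one, (mul_eq_right₀ h0).1 h2.symm, one_mul] at this
  refine ⟨⟨χ, hχ⟩, fun x hx => ?_,
    H87.deg_sq_eq_index hχ (fun z hz => H87.norm_eq_of_mem_center hχ hz) h4⟩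
  by_cases h5 : x ∈ Subgroup.center H
  · exact h3 x h5 hx
  · exact absurd ((h4 x h5).symm.trans hx).symm h0

theorem CT.quot {H : Type u} [Group H] {Z : Subgroup H} {Λ : H → ℂˣ} (h : CT Z Λ) :
    ∃ (K : Type u) (_ : Group K) (π : H →* K) (lam : Subgroup.center K →* ℂˣ),
      Function.Surjective π ∧ Function.Injective lam ∧ (∀ x, π x ∈ Subgroup.center K ↔ x ∈ Z) ∧
      (∀ z (hz : π z ∈ Subgroup.center K), lam ⟨_, hz⟩ = Λ z) ∧
      ∀ x ∉ Subgroup.center K, ∃ y, ∃ z ∈ Subgroup.center K, z ≠ 1 ∧ y * x * y⁻¹ = z * x := by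
  let l : Z →* ℂˣ := MonoidHom.mk' (fun z => Λ z) fun a b => h.mul _ a.2 _ b.2
  let N := l.ker.map Z.subtype
  have hN : ∀ x, x ∈ N ↔ x ∈ Z ∧ Λ x = 1 := fun x =>
    ⟨fun ⟨z, hz, e⟩ => e ▸ ⟨z.2, hz⟩, fun ⟨h1, h2⟩ => ⟨⟨x, h1⟩, h2, rfl⟩⟩
  haveI : N.Normal := ⟨fun x hx g => by
    rw [hN] at hx ⊢
    exact ⟨h.normal.conj_mem _ hx.1 g, (h.conj g x hx.1).trans hx.2⟩⟩
  have h1 : ∀ x, QuotientGroup.mk' N x = 1 ↔ x ∈ Z ∧ Λ x = 1 := fun x =>
    (QuotientGroup.eq_one_iff x).trans (hN x)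
  have h2 : ∀ x, QuotientGroup.mk' N x ∈ Subgroup.center (H ⧸ N) ↔ x ∈ Z := fun x => by
    constructor
    · intro hx
      by_contra h3
      obtain ⟨y, z, hz, h4, e⟩ := h.bad x h3
      have := congrArg (QuotientGroup.mk' N) e
      rw [map_mul, map_mul, map_mul, Subgroup.mem_center_iff.1 hx, map_inv, mul_inv_cancel_right,
        eq_comm, mul_eq_right, h1] at this
      exact h4 this.2
    · refine fun hx => Subgroup.mem_center_iff.2 fun g => ?_
      obtain ⟨g, rfl⟩ := QuotientGroup.mk'_surjective N g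
      have h3 := h.normal.conj_mem _ hx g
      have h4 : QuotientGroup.mk' N (g * x * g⁻¹ * x⁻¹) = 1 := (h1 _).2 ⟨mul_mem h3 (inv_mem hx), by
        rw [h.mul _ h3 _ (inv_mem hx), h.conj g x hx, ← h.mul _ hx _ (inv_mem hx), mul_inv_cancel]
        exact map_one l⟩
      simpa only [map_mul, map_inv, mul_inv_eq_iff_eq_mul, one_mul] using h4
  obtain ⟨lam, h3, h4⟩ := exists_inj_lift (((QuotientGroup.mk' N).comp Z.subtype).codRestrict _
    fun z => (h2 z).2 z.2) (fun z => by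
      obtain ⟨x, hx⟩ := QuotientGroup.mk'_surjective N z
      exact ⟨⟨x, (h2 x).1 (hx ▸ z.2)⟩, Subtype.ext hx⟩) l
    fun z => (Subtype.ext_iff.trans (h1 z)).trans (and_iff_right z.2)
  refine ⟨H ⧸ N, inferInstance, QuotientGroup.mk' N, lam, QuotientGroup.mk'_surjective N, h3, h2,
    fun z hz => h4 ⟨z, (h2 z).1 hz⟩, fun x hx => ?_⟩
  obtain ⟨x, rfl⟩ := QuotientGroup.mk'_surjective N x
  obtain ⟨y, z, hz, h5, e⟩ := h.bad x (mt (h2 x).2 hx)
  exact ⟨QuotientGroup.mk' N y, _, (h2 z).2 hz, fun h6 => h5 ((h1 z).1 h6).2, by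
    rw [← map_inv, ← map_mul, ← map_mul, e, map_mul]⟩

section wreath
variable {K Q C : Type u} [Group K] [CommGroup Q] [Fintype Q] [CommGroup C]

/-- the new central subgroup -/
def wrZ (Z : Subgroup K) (Q C : Type u) [CommGroup Q] [Fintype Q] [CommGroup C] :
    Subgroup ((K × C) ≀ᵣ Q) where
  carrier := {w | w.right = 1 ∧ (∀ q, (w.left q).1 ∈ Z) ∧ ∏ q, (w.left q).2 = 1}
  mul_mem' := fun {a b} ha hb => ⟨by simp [ha.1, hb.1], fun q => mul_mem (ha.2.1 q) (hb.2.1 _), by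
    simp [ha.1, Finset.prod_mul_distrib, ha.2.2, hb.2.2]⟩
  one_mem' := ⟨rfl, fun _ => one_mem _, by simp⟩
  inv_mem' := fun {a} ha => ⟨by simp [ha.1], fun q => inv_mem (ha.2.1 _), by simp [ha.1, ha.2.2]⟩

/-- the new linear character -/
def wrL (Λ : K → ℂˣ) (β : C →* Q →* ℂˣ) (w : (K × C) ≀ᵣ Q) : ℂˣ :=
  ∏ q, Λ (w.left q).1 * β (w.left q).2 q

theorem prod_shift {M : Type*} [CommMonoid M] (t : Q) (f : Q → M) : ∏ q, f (t * q) = ∏ q, f q :=
  Equiv.prod_comp (Equiv.mulLeft t) f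

omit [Fintype Q] in
theorem wr_conj {D : Type*} [Group D] (h z : D ≀ᵣ Q) (hz : z.right = 1) (q : Q) :
    (h * z * h⁻¹).left q = h.left q * z.left (h.right⁻¹ * q) * (h.left q)⁻¹ := by
  simp [hz]

theorem CT.one {Z : Subgroup K} {Λ : K → ℂˣ} (h : CT Z Λ) : Λ 1 = 1 := by
  simpa using h.mul 1 (one_mem _) 1 (one_mem _)

open Classical in
/-- an element of the base supported at one coordinate -/
noncomputable def sg {D : Type*} [Group D] (i : Q) (d : D) : D ≀ᵣ Q :=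
  ⟨fun q => if q = i then d else 1, 1⟩

variable {Z : Subgroup K} {Λ : K → ℂˣ} {β : C →* Q →* ℂˣ}

theorem wrL_sg (h : CT Z Λ) (z : K) (c : C) (i : Q) : wrL Λ β (sg i (z, c)) = Λ z * β c i := by
  rw [wrL, Finset.prod_eq_single i (fun q _ hq => by simp [sg, hq, h.one]) (by simp)]
  simp [sg]

theorem prod_sg (z : K) (c : C) (i : Q) : ∏ q, ((sg i (z, c)).left q).2 = c := by
  rw [Finset.prod_eq_single i (fun q _ hq => by simp [sg, hq]) (by simp)]
  simp [sg]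

omit [Fintype Q] in
theorem sg_fst {z : K} (hz : z ∈ Z) (c : C) (i q : Q) : ((sg i (z, c)).left q).1 ∈ Z := by
  by_cases hq : q = i <;> simp [sg, hq, hz]

theorem sg_mem_wrZ {z : K} (hz : z ∈ Z) (i : Q) : sg i (z, 1) ∈ wrZ Z Q C :=
  ⟨rfl, sg_fst hz 1 i, prod_sg _ _ _⟩

theorem wrL_mul (h : CT Z Λ) {a b : (K × C) ≀ᵣ Q} (h1 : a.right = 1) (h2 : ∀ q, (a.left q).1 ∈ Z)
    (h3 : ∀ q, (b.left q).1 ∈ Z) : wrL Λ β (a * b) = wrL Λ β a * wrL Λ β b := by
  simp [wrL, h1, h.mul _ (h2 _) _ (h3 _), Finset.prod_mul_distrib, mul_mul_mul_comm]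

theorem exists_mem_wrZ (h : CT Z Λ) (c : C) (t : Q) : sg 1 (1, c) * sg t (1, c⁻¹) ∈ wrZ Z Q C ∧
    wrL Λ β (sg 1 (1, c) * sg t (1, c⁻¹)) = (β c t)⁻¹ := by
  refine ⟨⟨one_mul _, fun q => mul_mem (sg_fst (one_mem _) _ _ _) (sg_fst (one_mem _) _ _ _), ?_⟩,
    ?_⟩
  · simp [Finset.prod_mul_distrib, prod_sg, show (sg (1 : Q) ((1 : K), c)).right = 1 from rfl]
  · rw [wrL_mul h rfl (sg_fst (one_mem _) _ _) (sg_fst (one_mem _) _ _)]
    simp [wrL_sg h, h.one]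

theorem CT.wreath (h : CT Z Λ) (hβ : Function.Injective β) (hβ' : ∀ t ≠ 1, ∃ c, β c t ≠ 1) :
    CT (wrZ Z Q C) (wrL Λ β) := by
  classical
  have hn : (wrZ Z Q C).Normal := ⟨fun z hz g => ⟨by simp [hz.1], fun q => by
      rw [wr_conj _ _ hz.1]
      exact h.normal.conj_mem _ (hz.2.1 _) _, by
      simp only [wr_conj _ _ hz.1, Prod.snd_mul, Prod.snd_inv, mul_inv_cancel_comm]
      exact (prod_shift _ fun q => (z.left q).2).trans hz.2.2⟩⟩
  have hs : ∀ g z : (K × C) ≀ᵣ Q, z.right = 1 → (∀ q, (z.left q).1 ∈ Z) →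
      wrL Λ β (g * z * g⁻¹) = wrL Λ β z * β (∏ q, (z.left q).2) g.right := fun g z h1 h2 => by
    simp only [wrL, wr_conj _ _ h1, Prod.snd_mul, Prod.snd_inv, mul_inv_cancel_comm, Prod.fst_mul,
      Prod.fst_inv, h.conj _ _ (h2 _)]
    rw [← prod_shift g.right]
    simp [Finset.prod_mul_distrib, mul_assoc, mul_comm]
  refine ⟨hn, fun a ha b hb => wrL_mul h ha.1 ha.2.1 hb.2.1, fun g z hz => by
    simp [hs g z hz.1 hz.2.1, hz.2.2], fun x hx => ?_⟩
  by_cases h1 : x.right = 1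
  swap
  · obtain ⟨c, hc⟩ := hβ' _ h1
    obtain ⟨h2, h3⟩ := exists_mem_wrZ (β := β) h c x.right
    refine ⟨sg 1 (1, c), _, h2, by simpa [h3] using hc, RegularWreathProduct.ext
      (funext fun q => Prod.ext ?_ ?_) (by simp [sg])⟩
    · simp [sg, apply_ite Prod.fst]
    · by_cases h4 : q = x.right <;> simp [sg, apply_ite Prod.snd, h4, h1, mul_inv_eq_one, eq_comm,
        mul_comm, mul_left_comm]
  by_cases h2 : ∀ q, (x.left q).1 ∈ Z
  · have h3 : ∏ q, (x.left q).2 ≠ 1 := fun h3 => hx ⟨h1, h2, h3⟩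
    obtain ⟨t, ht⟩ := DFunLike.ne_iff.1 (mt ((injective_iff_map_eq_one β).1 hβ _) h3)
    have h4 : ∀ q, ((RegularWreathProduct.inl t * x * (RegularWreathProduct.inl t)⁻¹).left q).1
      ∈ Z := fun q => by simp [h1, h2]
    refine ⟨RegularWreathProduct.inl t, _ * x⁻¹, ⟨by simp [h1], fun q => mul_mem (h4 q)
      (inv_mem (h2 _)), ?_⟩, fun h5 => ht ?_, (inv_mul_cancel_right _ x).symm⟩
    · simp [h1, Finset.prod_mul_distrib, prod_shift t⁻¹ fun q => (x.left q).2]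
    · have := wrL_mul (β := β) h
        (a := RegularWreathProduct.inl t * x * (RegularWreathProduct.inl t)⁻¹ * x⁻¹) (b := x)
        (by simp) (fun q => mul_mem (h4 q) (inv_mem (h2 _))) h2
      rw [h5, inv_mul_cancel_right, hs _ _ h1 h2, one_mul, mul_eq_left] at this
      exact this
  · obtain ⟨i, hi⟩ := not_forall.1 h2
    obtain ⟨y, z, hz, h3, e⟩ := h.bad _ hi
    refine ⟨sg i (y, 1), _, sg_mem_wrZ hz i, by simpa [wrL_sg h] using h3, RegularWreathProduct.ext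
      (funext fun q => Prod.ext ?_ ?_) (by simp [sg])⟩ <;>
    by_cases hq : q = i <;> simp [sg, h1, hq, e]

theorem exists_wr_embed (Z : Subgroup K) [Z.Normal] [(wrZ Z Q C).Normal] :
    ∃ e : (K ⧸ Z) ≀ᵣ Q →* ((K × C) ≀ᵣ Q) ⧸ wrZ Z Q C, Function.Injective e := by
  let s : K ≀ᵣ Q →* (K ⧸ Z) ≀ᵣ Q := MonoidHom.mk' (fun w => ⟨fun q => w.left q, w.right⟩)
    fun a b => rfl
  let j : K ≀ᵣ Q →* (K × C) ≀ᵣ Q := MonoidHom.mk' (fun w => ⟨fun q => (w.left q, 1), w.right⟩)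
    fun a b => RegularWreathProduct.ext (funext fun q => by simp) rfl
  obtain ⟨e, he, -⟩ := exists_inj_lift s (fun w => ⟨⟨fun q => (w.left q).out, w.right⟩,
    RegularWreathProduct.ext (funext fun q => QuotientGroup.out_eq' _) rfl⟩)
    ((QuotientGroup.mk' (wrZ Z Q C)).comp j) fun x => by
      refine RegularWreathProduct.ext_iff.trans (Iff.trans ?_ (QuotientGroup.eq_one_iff _).symm)
      change (fun q => (x.left q : K ⧸ Z)) = 1 ∧ x.right = 1 ↔ _
      simp [j, wrZ, funext_iff, and_comm]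
  exact ⟨e, he⟩

end wreath

theorem exists_wreath_embed {G M : Type u} [Group G] [Group M] (N : Subgroup G) [N.Normal]
    (f : N →* M) (hf : Function.Injective f) :
    ∃ e : G →* M ≀ᵣ (G ⧸ N), Function.Injective e := by
  have h1 : ∀ (g : G) (x : G ⧸ N), x.out⁻¹ * g * ((g : G ⧸ N)⁻¹ * x).out ∈ N := fun g x => by
    rw [← QuotientGroup.eq_one_iff]
    simp
  refine ⟨MonoidHom.mk' (fun g => ⟨fun x => f ⟨_, h1 g x⟩, g⟩) fun a b => ?_,
    (injective_iff_map_eq_one _).2 fun g h => ?_⟩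
  · refine RegularWreathProduct.ext (funext fun x => ?_) rfl
    refine (congrArg f (Subtype.ext ?_)).trans (map_mul f _ _)
    simp [mul_assoc]
  · have h2 : (g : G ⧸ N) = 1 := congrArg RegularWreathProduct.right h
    have h3 := congrArg Subtype.val ((injective_iff_map_eq_one f).1 hf _
      (congrFun (congrArg RegularWreathProduct.left h) 1))
    simpa [h2, mul_assoc, inv_mul_eq_one] using h3

theorem exists_CT (n : ℕ) : ∀ (G : Type u) [Group G] [Finite G], Nat.card G = n →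
    Group.IsSolvable G → ∃ (H : Type u) (_ : Group H) (_ : Finite H) (Z : Subgroup H)
      (_ : Z.Normal) (Λ : H → ℂˣ), CT Z Λ ∧ (∃ f : G →* H ⧸ Z, Function.Injective f) ∧
      (∀ q, q.Prime → q ∣ Nat.card H → q ∣ n) ∧ (∀ z ∈ Z, Λ z ^ ∏ q ∈ n.primeFactors, q = 1) ∧
      ∀ q, q.Prime → q ∣ n → ∃ z ∈ Z, Λ z ≠ 1 ∧ Λ z ^ q = 1 := by
  induction n using Nat.strong_induction_on with
  | _ n ih =>
  intro G _ _ hn hG
  subst hn
  rcases subsingleton_or_nontrivial G with h | h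
  · exact ⟨G, inferInstance, inferInstance, ⊤, inferInstance, 1, ⟨inferInstance, by simp, by simp,
      by simp⟩, ⟨1, Function.injective_of_subsingleton _⟩, fun _ _ => id, by simp,
      fun q hq h1 => absurd (Nat.card_of_subsingleton (1 : G) ▸ h1) hq.not_dvd_one⟩
  obtain ⟨N, _, hp⟩ := H3.exists_normal_prime_index G
  have hc := N.card_mul_index
  obtain ⟨K, _, _, Z, _, Λ, h1, ⟨f, hf⟩, h2, h3, h4⟩ := ih _ (hc ▸ (Nat.lt_mul_iff_one_lt_right
    Nat.card_pos).2 hp.one_lt) N rfl inferInstance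
  haveI := Fact.mk hp
  haveI : IsCyclic (G ⧸ N) := isCyclic_of_prime_card (p := N.index) rfl
  letI : CommGroup (G ⧸ N) := IsCyclic.commGroup
  letI := Fintype.ofFinite (G ⧸ N)
  have hβ : ∀ t : G ⧸ N, t ≠ 1 → ∃ c : G ⧸ N →* ℂˣ, c t ≠ 1 := fun t ht =>
    CommGroup.exists_apply_ne_one_of_hasEnoughRootsOfUnity _ ℂ ht
  have hC : Nat.card (G ⧸ N →* ℂˣ) = N.index :=
    CommGroup.card_monoidHom_of_hasEnoughRootsOfUnity _ ℂ
  haveI : Finite (G ⧸ N →* ℂˣ) := Nat.finite_of_card_ne_zero (hC ▸ hp.ne_zero)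
  have h5 := h1.wreath (β := MonoidHom.id (G ⧸ N →* ℂˣ)) (fun _ _ => id) hβ
  haveI := h5.normal
  obtain ⟨e, he⟩ := exists_wr_embed (Q := G ⧸ N) (C := G ⧸ N →* ℂˣ) Z
  obtain ⟨e', he'⟩ := exists_wreath_embed N f hf
  have h6 : ∀ (c : G ⧸ N →* ℂˣ) t, c t ^ N.index = 1 := fun c t => by
    rw [← map_pow, N.index_eq_card, pow_card_eq_one', map_one]
  have h0 : Nat.card G ≠ 0 := Nat.card_pos.ne'
  refine ⟨_, inferInstance, inferInstance, _, inferInstance, _, h5, ⟨e.comp e', he.comp he'⟩,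
    fun q hq h7 => ?_, fun z hz => ?_, fun q hq h7 => ?_⟩
  · rw [RegularWreathProduct.card, Nat.card_prod, hC, hq.dvd_mul, ← N.index_eq_card] at h7
    rw [← hc, hq.dvd_mul]
    exact h7.elim (fun h8 => (hq.dvd_mul.1 (hq.dvd_of_dvd_pow h8)).imp_left (h2 q hq)) Or.inr
  · obtain ⟨a, ha⟩ := Finset.prod_dvd_prod_of_subset _ _ id
      (Nat.primeFactors_mono N.card_subgroup_dvd_card h0)
    obtain ⟨b, hb⟩ := Finset.dvd_prod_of_mem id (Nat.mem_primeFactors.2 ⟨hp, N.index_dvd_card, h0⟩)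
    simp only [id] at ha hb
    rw [wrL, ← Finset.prod_pow]
    refine Finset.prod_eq_one fun q _ => ?_
    rw [mul_pow]
    nth_rw 2 [hb]
    rw [ha, pow_mul, pow_mul, h3 _ (hz.2.1 q), MonoidHom.id_apply, h6, one_pow, one_pow, one_mul]
  · rw [← hc, hq.dvd_mul] at h7
    rcases h7 with h7 | h7
    · obtain ⟨z, hz, h8⟩ := h4 q hq h7
      exact ⟨_, sg_mem_wrZ hz 1, by simpa [wrL_sg h1] using h8⟩
    · haveI := Finite.one_lt_card_iff_nontrivial.1 (N.index_eq_card ▸ hp.one_lt)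
      obtain ⟨t, ht⟩ := exists_ne (1 : G ⧸ N)
      obtain ⟨c, hc⟩ := hβ t ht
      obtain ⟨h8, h9⟩ := exists_mem_wrZ (β := MonoidHom.id (G ⧸ N →* ℂˣ)) h1 c t
      exact ⟨_, h8, by simpa [h9] using hc, by
        rw [h9, (Nat.prime_dvd_prime_iff_eq hq hp).1 h7, inv_pow, MonoidHom.id_apply, h6, inv_one]⟩

end H35L
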