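import Mathlib
import Cfsg.Agent.Base
import Cfsg.Agent.Lib.Lin35.PCl
import Cfsg.Agent.Lib.Deg.Gagola
import Cfsg.Agent.Lib.FrobC.Huppert
import Cfsg.Agent.Lib.FGS.HHGroup

/-! Solvable groups with a Gagola character. -/

set_option autoImplicit false
set_option linter.style.haveILetI false

namespace H35L
open Cfsg H82 Module Subgroup

variable {G : Type*} [Group G] [Finite G]

theorem not_dvd_commutator {q : ℕ} [hq : Fact q.Prime] {V : Type*} [AddCommGroup V]
    [Module (ZMod q) V] [Finite V] [Nontrivial V] {ρ : G →* End (ZMod q) V} (h : TrRep ρ)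
    [Group.IsSolvable G] {k : ℕ} (hk : Nat.card G = (q ^ finrank (ZMod q) V - 1) * q ^ k) :
    ¬ q ∣ Nat.card (commutator G) := by
  have key : ∀ (D : Subgroup G) [D.Normal], IsCyclic (G ⧸ D) → ¬ q ∣ Nat.card D →
      ¬ q ∣ Nat.card (commutator G) := fun D _ h1 h2 h3 => h2 (h3.trans (card_dvd_of_le
    (Normal.quotient_commutative_iff_commutator_le.1 h1.isMulCommutative)))
  by_cases hΓ : Gam ρ
  · obtain ⟨A, _, hA, hI⟩ := hΓ
    obtain ⟨-, -, -, -, -, h1, -⟩ := h.exists_deg A hA.isMulCommutative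
    obtain ⟨j, hj, -, h2, -⟩ := h.exists_deg _ (h.comm_centralizer hA.isMulCommutative hI)
    refine key _ h1 fun h3 => hq.out.one_lt.ne' (Nat.dvd_one.1 ?_)
    have hj0 : j ≠ 0 := by rintro rfl; exact (finrank_V_pos (q := q) (V := V)).ne' (by simpa using hj)
    exact (Nat.dvd_sub_iff_right (Nat.one_le_pow _ _ hq.out.pos) (dvd_pow_self q hj0)).1
      (h3.trans h2)
  rcases h.huppert hΓ with ⟨hn, hq'⟩ | ⟨hn, rfl, h32⟩
  swap
  · rw [hk, hn] at h32
    exact absurd ((Nat.Coprime.pow_right k (by norm_num)).dvd_of_dvd_mul_right h32) (by norm_num)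
  obtain ⟨h1, h2, h3, h4, E, hE, h5, h6⟩ := h.dim_two hΓ hn
  obtain ⟨f, hf⟩ := hE.exists_perm h2 h5 h6
  have h7 : Nat.card f.ker = 4 * Nat.card (center G) := by
    rw [← h5, ← relIndex_sup_right, ← hf, mul_comm, ← relIndex_bot_left, ← relIndex_bot_left,
      relIndex_mul_relIndex _ _ _ bot_le (hf ▸ le_sup_right)]
  have h8 : f.ker.index ∣ 6 := by
    rw [index_ker]
    exact (card_subgroup_dvd_card _).trans (by simp [Fintype.card_perm, Nat.factorial])
  have h9 : ¬ q ∣ Nat.card f.ker := by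
    rw [h7, hq.out.dvd_mul]
    rintro (e | e)
    · rcases hq' with rfl | rfl | rfl | rfl | rfl <;> norm_num at e
    · have := hq.out.two_le
      exact absurd (Nat.le_of_dvd (by omega) (e.trans h3)) (by omega)
  have h10 := f.ker.index_mul_card
  by_cases h3q : q = 3
  · subst h3q
    refine key f.ker (isCyclic_of_card_dvd_prime (p := 3) ?_) h9
    have h11 : Nat.card (center G) = 2 := by
      refine ((Nat.dvd_prime Nat.prime_two).1 h3).resolve_left fun e => ?_
      rw [relIndex_eq_one.2 (h1 E hE.normal ⟨⟨fun a b => Subtype.ext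
        (commutatorElement_eq_one_iff_mul_comm.1 (mem_bot.1 (card_eq_one.1 e ▸ h6 ▸
          hE.comm a a.2 b b.2)))⟩⟩)] at h5
      omega
    rw [hk, hn, h7, h11, mul_comm] at h10
    have : f.ker.index = 3 ^ k := Nat.eq_of_mul_eq_mul_left (by norm_num) h10
    change f.ker.index ∣ 3
    exact (this ▸ Nat.Coprime.pow_left k (by norm_num) : f.ker.index.Coprime 2
      ).dvd_of_dvd_mul_left h8
  · intro e
    rcases hq.out.dvd_mul.1 (h10 ▸ e.trans (card_subgroup_dvd_card _)) with e | e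
    · replace e := e.trans h8
      rcases hq' with rfl | rfl | rfl | rfl | rfl <;> omega
    · exact h9 e

theorem npc_of_not_dvd_commutator {p : ℕ} [hp : Fact p.Prime] (h : ¬ p ∣ Nat.card (commutator G)) :
    HasNormalPComplement p G ∧ ∀ Q : Sylow p G, IsMulCommutative (Q : Subgroup G) :=
  ⟨H4.hasNormalPComplement_of_quotient_coprime h (@H4.hasNormalPComplement_of_isNilpotent _ _ _ _ _
    (inferInstance : Group.IsNilpotent (Abelianization G))), fun Q => ⟨⟨fun a b => Subtype.ext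
      (commutatorElement_eq_one_iff_mul_comm.1 ((PE.of_mem Q.isPGroup' (mul_mem (mul_mem
        (mul_mem a.2 b.2) (inv_mem a.2)) (inv_mem b.2))).eq_one_of_mem
          ((Nat.Prime.coprime_iff_not_dvd hp.out).2 h).symm
          (commutator_mem_commutator (mem_top _) (mem_top _))))⟩⟩⟩

theorem gag_quotient [Group.IsSolvable G] {χ : G → ℂ} {N : Subgroup G} (h : H87.Gag χ N) {p : ℕ}
    [hp : Fact p.Prime] (hp' : ∀ x ∈ N, x ^ p = 1) :
    ¬ p ∣ Nat.card (commutator (G ⧸ pCore p G)) := by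
  haveI := h.normal
  have hN : IsPGroup p N := fun x => ⟨1, Subtype.ext (by simpa using hp' x x.2)⟩
  have hV : IsMulCommutative N ∧ ∀ x : N, x ^ p = 1 :=
    ⟨⟨⟨fun a b => Subtype.ext (h.comm a a.2 b b.2)⟩⟩, fun x => Subtype.ext (hp' x x.2)⟩
  have hC : centralizer (N : Set G) = pCore p G := le_antisymm (h.centralizer_le_pCore hN)
    fun g hg x hx => by
      by_cases hx1 : x = 1
      · simp [hx1]
      obtain ⟨P, hP⟩ := h.exists_sylow hN hx hx1
      exact (mem_centralizer_singleton_iff.1 (hP ▸ H1.pCore_le_sylow P hg)).symm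
  obtain ⟨ρ, h1, h2⟩ := H76.exists_faithful_rep N hV (QuotientGroup.mk'_surjective (pCore p G))
    ((QuotientGroup.ker_mk' _).trans hC.symm)
  haveI := (nontrivial_iff_ne_bot N).2 h.ne_bot
  haveI : Nontrivial (H46.EA p N hV) := (H46.EA.of hV).symm.nontrivial
  obtain ⟨x, hx, hx1⟩ := h.exists_mem
  obtain ⟨P, hP⟩ := h.exists_sylow hN hx hx1
  obtain ⟨k, hk⟩ : ∃ k, (pCore p G).relIndex P = p ^ k :=
    (P.isPGroup'.to_quotient _).exists_card_eq
  refine not_dvd_commutator (ρ := ρ) ⟨h1, fun v w hv hw => ?_⟩ (k := k) ?_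
  · obtain ⟨v, rfl⟩ := (H46.EA.of hV).surjective v
    obtain ⟨w, rfl⟩ := (H46.EA.of hV).surjective w
    obtain ⟨g, hg⟩ := isConj_iff.1 (h.cj v v.2 w w.2
      (fun e => hv ((H46.EA.of_eq_zero hV).2 (Subtype.ext e)))
      fun e => hw ((H46.EA.of_eq_zero hV).2 (Subtype.ext e)))
    exact ⟨_, by rw [h2 g, H76.conjRep_of]; exact congrArg _ (Subtype.ext hg)⟩
  · rw [← H46.EA.card_eq_pow_finrank, ← h.index_centralizer hx hx1, hP, Nat.add_sub_cancel, ← hk,
      mul_comm, relIndex_mul_index (H1.pCore_le_sylow P)]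
    rfl

end H35L
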