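import Mathlib
import Cfsg.Agent.Base
import Cfsg.Agent.Lib.Core.GrpBasic

/-!
Replacement arguments for an abelian subgroup of largest order acting on a class two group, in the
language of the Baer module.
-/

set_option autoImplicit false
set_option linter.unusedSectionVars false

namespace H35L.JT

variable {A M : Type*} [CommGroup A] [AddCommGroup M] [DistribMulAction A M]

/-- the operator `a - 1` -/
def xx (a : A) : M →+ M := DistribSMul.toAddMonoidHom M a - AddMonoidHom.id M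

theorem xx_apply (a : A) (m : M) : xx a m = a • m - m := rfl

theorem smul_eq (a : A) (m : M) : a • m = m + xx a m := by rw [xx_apply]; abel

theorem xx_smul (a b : A) (m : M) : xx a (b • m) = b • xx a m := by
  rw [xx_apply, xx_apply, smul_sub, smul_comm]

theorem xx_comm (a b : A) (m : M) : xx a (xx b m) = xx b (xx a m) := by
  simp only [xx_apply, smul_sub, smul_comm a b m]
  abel

theorem xx_mul (a b : A) (m : M) : xx (a * b) m = xx a m + xx b m + xx a (xx b m) := by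
  simp only [xx_apply, smul_sub, mul_smul]
  abel

theorem xx_one (m : M) : xx (1 : A) m = 0 := by simp [xx_apply]

theorem xx_inv (a : A) (m : M) : xx a⁻¹ m = -(a⁻¹ • xx a m) := by
  simp [xx_apply, smul_sub]

theorem xx_inv_mul (a b : A) (m : M) : xx (a⁻¹ * b) m = -(a⁻¹ • (xx a m - xx b m)) := by
  simp [xx_apply, smul_sub, mul_smul]

variable (A) in
/-- invariant subgroups -/
def Inv (N : AddSubgroup M) : Prop := ∀ a : A, ∀ m ∈ N, xx a m ∈ N

theorem Inv.smul {N : AddSubgroup M} (h : Inv A N) (a : A) {m : M} (hm : m ∈ N) : a • m ∈ N := by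
  rw [smul_eq]
  exact N.add_mem hm (h a m hm)

theorem Inv.sup {N N' : AddSubgroup M} (h : Inv A N) (h' : Inv A N') : Inv A (N ⊔ N') := by
  intro a m hm
  obtain ⟨y, hy, z, hz, rfl⟩ := AddSubgroup.mem_sup.mp hm
  rw [map_add]
  exact AddSubgroup.add_mem_sup (h a y hy) (h' a z hz)

variable (A) in
/-- the commutator `[N, A]` -/
def com (N : AddSubgroup M) : AddSubgroup M :=
  AddSubgroup.closure {y | ∃ a : A, ∃ m ∈ N, y = xx a m}

theorem xx_mem_com {N : AddSubgroup M} (a : A) {m : M} (hm : m ∈ N) : xx a m ∈ com A N :=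
  AddSubgroup.subset_closure ⟨a, m, hm, rfl⟩

theorem com_le {N Y : AddSubgroup M} (h : ∀ a : A, ∀ m ∈ N, xx a m ∈ Y) : com A N ≤ Y := by
  rw [com, AddSubgroup.closure_le]
  rintro _ ⟨a, m, hm, rfl⟩
  exact h a m hm

theorem com_mono {N N' : AddSubgroup M} (h : N ≤ N') : com A N ≤ com A N' :=
  com_le fun a _ hm => xx_mem_com a (h hm)

theorem Inv.com_le {N : AddSubgroup M} (h : Inv A N) : com A N ≤ N := JT.com_le h

theorem Inv.com {N : AddSubgroup M} (h : Inv A N) : Inv A (com A N) :=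
  fun a _ hm => xx_mem_com a (h.com_le hm)

variable (A) in
/-- the commutator `[t, A]` -/
def dd (t : M) : AddSubgroup M := AddSubgroup.closure (Set.range fun a : A => xx a t)

theorem xx_mem_dd (a : A) (t : M) : xx a t ∈ dd A t := AddSubgroup.subset_closure ⟨a, rfl⟩

theorem dd_le {t : M} {Y : AddSubgroup M} (h : ∀ a : A, xx a t ∈ Y) : dd A t ≤ Y := by
  rw [dd, AddSubgroup.closure_le]
  rintro _ ⟨a, rfl⟩
  exact h a

theorem inv_dd (t : M) : Inv A (dd A t) := by
  intro a m hm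
  refine (dd_le (Y := (dd A t).comap (xx a)) fun b => ?_) hm
  have : xx a (xx b t) = xx (a * b) t - xx a t - xx b t := by rw [xx_mul]; abel
  rw [AddSubgroup.mem_comap, this]
  exact sub_mem (sub_mem (xx_mem_dd _ _) (xx_mem_dd _ _)) (xx_mem_dd _ _)

theorem com_dd_le {t : M} {Y : AddSubgroup M} (h : ∀ a b : A, xx a (xx b t) ∈ Y) :
    com A (dd A t) ≤ Y :=
  com_le fun a _ hm => (dd_le (Y := Y.comap (xx a)) fun b => h a b) hm

variable (A M) in
/-- the fixed points -/
def fix : AddSubgroup M where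
  carrier := {m | ∀ a : A, xx a m = 0}
  zero_mem' a := map_zero _
  add_mem' h h' a := by rw [map_add, h a, h' a, add_zero]
  neg_mem' h a := by rw [map_neg, h a, neg_zero]

theorem mem_fix {m : M} : m ∈ fix A M ↔ ∀ a : A, xx a m = 0 := Iff.rfl

theorem inv_fix : Inv A (fix A M) := fun a m hm => by rw [hm a]; exact zero_mem _

/-- the elements moving `t` inside `F` -/
def bof (t : M) {F : AddSubgroup M} (hF : Inv A F) : Subgroup A where
  carrier := {a | xx a t ∈ F}
  one_mem' := by rw [Set.mem_ofPred_eq, xx_one]; exact zero_mem _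
  mul_mem' {a b} ha hb := by
    rw [Set.mem_ofPred_eq, xx_mul]
    exact add_mem (add_mem ha hb) (hF a _ hb)
  inv_mem' {a} ha := by
    rw [Set.mem_ofPred_eq, xx_inv]
    exact neg_mem (hF.smul _ ha)

theorem mem_bof {t : M} {F : AddSubgroup M} {hF : Inv A F} {a : A} :
    a ∈ bof t hF ↔ xx a t ∈ F := Iff.rfl

theorem inv_mul_mem_bof {t : M} {F : AddSubgroup M} (hF : Inv A F) {a b : A}
    (h : xx a t - xx b t ∈ F) : a⁻¹ * b ∈ bof t hF := by
  rw [mem_bof, xx_inv_mul]
  exact neg_mem (hF.smul _ h)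

variable (A) in
/-- the centraliser -/
def ann (N : AddSubgroup M) : Subgroup A where
  carrier := {a | ∀ n ∈ N, xx a n = 0}
  one_mem' n _ := xx_one n
  mul_mem' {a b} ha hb n hn := by rw [xx_mul, hb n hn, ha n hn, map_zero]; simp
  inv_mem' {a} ha n hn := by rw [xx_inv, ha n hn]; simp

theorem mem_ann {N : AddSubgroup M} {a : A} : a ∈ ann A N ↔ ∀ n ∈ N, xx a n = 0 := Iff.rfl

theorem ann_anti {N N' : AddSubgroup M} (h : N ≤ N') : ann A N' ≤ ann A N :=
  fun _ ha n hn => ha n (h hn)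

theorem ann_sup (N N' : AddSubgroup M) : ann A (N ⊔ N') = ann A N ⊓ ann A N' := by
  refine le_antisymm (le_inf (ann_anti le_sup_left) (ann_anti le_sup_right)) fun a ha n hn => ?_
  obtain ⟨y, hy, z, hz, rfl⟩ := AddSubgroup.mem_sup.mp hn
  rw [map_add, ha.1 y hy, ha.2 z hz, add_zero]

theorem mem_ann_of_le_ker {N : AddSubgroup M} {a : A} (h : N ≤ (xx a : M →+ M).ker) :
    a ∈ ann A N := fun _ hn => h hn

section count

variable [Finite A] [Finite M]

theorem add_card_mul_relIndex {F W : AddSubgroup M} (h : F ≤ W) :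
    Nat.card F * F.relIndex W = Nat.card W := by
  rw [AddSubgroup.relIndex, ← AddSubgroup.card_mul_index (F.addSubgroupOf W)]
  congr 1
  exact (Nat.card_congr (AddSubgroup.addSubgroupOfEquivOfLe h).toEquiv).symm

theorem add_card_sup_mul (N N' : AddSubgroup M) :
    Nat.card (N ⊔ N' : AddSubgroup M) * Nat.card (N ⊓ N' : AddSubgroup M) =
      Nat.card N * Nat.card N' := by
  rw [← add_card_mul_relIndex (le_sup_right : N' ≤ N ⊔ N'), AddSubgroup.relIndex_sup_right,
    ← add_card_mul_relIndex (inf_le_left : N ⊓ N' ≤ N), inf_comm N N',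
    AddSubgroup.inf_relIndex_right]
  ring

theorem cnt_aux {B K : Subgroup A} {F W : AddSubgroup M} (g : A → M) (hg : ∀ k ∈ K, g k ∈ W)
    (hi : ∀ k ∈ K, ∀ k' ∈ K, g k - g k' ∈ F → k⁻¹ * k' ∈ B) :
    ∃ ψ : K ⧸ B.subgroupOf K → W ⧸ F.addSubgroupOf W, Function.Injective ψ ∧
      ∀ q, ∃ k : K, ψ q = QuotientAddGroup.mk ⟨g k, hg k k.2⟩ := by
  refine ⟨fun q => QuotientAddGroup.mk ⟨g q.out, hg _ q.out.2⟩, fun q q' h => ?_, fun q => ⟨_, rfl⟩⟩
  rw [← q.out_eq, ← q'.out_eq]
  refine QuotientGroup.eq.mpr (hi _ q.out.2 _ q'.out.2 ?_)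
  have h1 := QuotientAddGroup.eq.mp h
  rw [AddSubgroup.mem_addSubgroupOf] at h1
  have := neg_mem h1
  simpa [sub_eq_add_neg, add_comm] using this

theorem cnt {B K : Subgroup A} {F W : AddSubgroup M} (hBK : B ≤ K) (hFW : F ≤ W) (g : A → M)
    (hg : ∀ k ∈ K, g k ∈ W) (hi : ∀ k ∈ K, ∀ k' ∈ K, g k - g k' ∈ F → k⁻¹ * k' ∈ B) :
    Nat.card K * Nat.card F ≤ Nat.card B * Nat.card W := by
  obtain ⟨ψ, hψ, -⟩ := cnt_aux g hg hi
  have h : B.relIndex K ≤ F.relIndex W := Nat.card_le_card_of_injective ψ hψ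
  rw [← H1.card_mul_relIndex_of_le hBK, ← add_card_mul_relIndex hFW]
  calc _ = Nat.card B * Nat.card F * B.relIndex K := by ring
    _ ≤ Nat.card B * Nat.card F * F.relIndex W := Nat.mul_le_mul_left _ h
    _ = _ := by ring

theorem cnt_surj {B K : Subgroup A} {F W : AddSubgroup M} (hBK : B ≤ K) (hFW : F ≤ W) (g : A → M)
    (hg : ∀ k ∈ K, g k ∈ W) (hi : ∀ k ∈ K, ∀ k' ∈ K, g k - g k' ∈ F → k⁻¹ * k' ∈ B)
    (hc : Nat.card B * Nat.card W ≤ Nat.card K * Nat.card F) :
    ∀ w ∈ W, ∃ k ∈ K, w - g k ∈ F := by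
  obtain ⟨ψ, hψ, hq⟩ := cnt_aux g hg hi
  have h : F.relIndex W ≤ B.relIndex K := by
    rw [← H1.card_mul_relIndex_of_le hBK, ← add_card_mul_relIndex hFW] at hc
    refine Nat.le_of_mul_le_mul_left (c := Nat.card B * Nat.card F) ?_
      (Nat.mul_pos Nat.card_pos Nat.card_pos)
    calc _ = Nat.card B * (Nat.card F * F.relIndex W) := by ring
      _ ≤ _ := hc
      _ = _ := by ring
  have hb := hψ.bijective_of_nat_card_le h
  intro w hw
  obtain ⟨q, hq'⟩ := hb.2 (QuotientAddGroup.mk ⟨w, hw⟩)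
  obtain ⟨k, hk⟩ := hq q
  refine ⟨k, k.2, ?_⟩
  have h1 := QuotientAddGroup.eq.mp (hk.symm.trans hq')
  rw [AddSubgroup.mem_addSubgroupOf] at h1
  simpa [sub_eq_add_neg, add_comm] using h1

theorem cnt_rev {B H : Subgroup A} {F W : AddSubgroup M} (hBH : B ≤ H) (hFW : F ≤ W) (g : A → M)
    (hs : ∀ w ∈ W, ∃ h ∈ H, w - g h ∈ F) (hi : ∀ h ∈ H, ∀ b ∈ B, g (h * b) - g h ∈ F) :
    Nat.card B * Nat.card W ≤ Nat.card H * Nat.card F := by
  choose! s hsH hsF using hs
  let ψ : W ⧸ F.addSubgroupOf W → H ⧸ B.subgroupOf H := fun q =>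
    QuotientGroup.mk ⟨s q.out, hsH _ q.out.2⟩
  have hψ : Function.Injective ψ := fun q q' h => by
    rw [← q.out_eq, ← q'.out_eq]
    refine QuotientAddGroup.eq.mpr ?_
    have h1 := QuotientGroup.eq.mp h
    rw [Subgroup.mem_subgroupOf] at h1
    have h2 := hi _ (hsH _ q.out.2) _ h1
    simp only [Subgroup.coe_mul, Subgroup.coe_inv, mul_inv_cancel_left] at h2
    rw [AddSubgroup.mem_addSubgroupOf]
    have h3 := add_mem (sub_mem (hsF _ q'.out.2) (hsF _ q.out.2)) h2
    convert h3 using 1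
    simp only [AddSubgroup.coe_add, AddSubgroup.coe_neg]
    abel
  have h : F.relIndex W ≤ B.relIndex H := Nat.card_le_card_of_injective ψ hψ
  rw [← H1.card_mul_relIndex_of_le hBH, ← add_card_mul_relIndex hFW]
  calc _ = Nat.card B * Nat.card F * F.relIndex W := by ring
    _ ≤ Nat.card B * Nat.card F * B.relIndex H := Nat.mul_le_mul_left _ h
    _ = _ := by ring

end count

/-- data describing an abelian subgroup of the ambient group -/
structure Sys (AC : Subgroup A) (β : M →+ M →+ M) (B : Subgroup A) (N : AddSubgroup M)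
    (μ : A → M) : Prop where
  le : AC ≤ B
  iso : ∀ n ∈ N, ∀ n' ∈ N, β n n' = 0
  s2 : ∀ b ∈ B, ∀ n ∈ N, xx b n = β (μ b) n ∧ β (μ b) (xx b n) = 0
  s3 : ∀ b ∈ B, ∀ b' ∈ B, xx b (μ b') - xx b' (μ b) = β (μ b) (μ b') ∧ β (μ b) (xx b (μ b')) = 0

theorem sys_zero {AC : Subgroup A} {β : M →+ M →+ M} {B : Subgroup A} {N : AddSubgroup M}
    (h1 : AC ≤ B) (h2 : ∀ n ∈ N, ∀ n' ∈ N, β n n' = 0) (h3 : B ≤ ann A N) :
    Sys AC β B N (fun _ => 0) :=
  ⟨h1, h2, fun b hb n hn => by simp [h3 hb n hn], fun b _ b' _ => by simp⟩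

/-- the abstract setting -/
structure Ctx (AT AC : Subgroup A) (β : M →+ M →+ M) : Prop where
  alt : ∀ m, β m m = 0
  eqv : ∀ (a : A) (m m' : M), β (a • m) (a • m') = a • β m m'
  cen : ∀ m m' m'', β (β m m') m'' = 0
  two : ∀ m : M, m + m = 0 → m = 0
  nil : ∀ N Y : AddSubgroup M, Inv A N → Inv A Y → N ≤ com A N ⊔ Y → N ≤ Y
  inn : ∀ a ∈ AC, ∃ c ∈ fix A M, ∀ m, xx a m = β c m
  cc : ∀ c ∈ fix A M, ∀ c' ∈ fix A M, β c c' = 0
  max : ∀ B N μ, Sys AC β B N μ → Nat.card B * Nat.card N ≤ Nat.card A * Nat.card (fix A M)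
  min : ∀ B N μ, Sys AC β B N μ → Nat.card A * Nat.card (fix A M) ≤ Nat.card B * Nat.card N →
    B ≤ AT ∨ B ⊔ AT = ⊤

namespace Ctx

variable {AT AC : Subgroup A} {β : M →+ M →+ M} (h : Ctx AT AC β)
include h

theorem anti (m m' : M) : β m' m = -β m m' := by
  have := h.alt (m + m')
  simp only [map_add, AddMonoidHom.add_apply, h.alt, zero_add, add_zero] at this
  exact eq_neg_of_add_eq_zero_left this

theorem cen' (m m' m'' : M) : β m'' (β m m') = 0 := by rw [h.anti, h.cen, neg_zero]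

theorem xx_beta (a : A) (m m' : M) :
    xx a (β m m') = β (xx a m) m' + β m (xx a m') + β (xx a m) (xx a m') := by
  rw [xx_apply, ← h.eqv, smul_eq, smul_eq a m']
  simp only [map_add, AddMonoidHom.add_apply]
  abel

theorem beta_fix {c : M} (hc : c ∈ fix A M) (a : A) (m : M) : β c (xx a m) = xx a (β c m) := by
  rw [h.xx_beta, hc a]
  simp

theorem mem_fix_of_two {u : M} (hu : u + u ∈ fix A M) : u ∈ fix A M := fun a =>
  h.two _ (by rw [← map_add]; exact hu a)

variable [Finite A] [Finite M]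

theorem best {V N : AddSubgroup M} (hV : ∀ n ∈ V, ∀ n' ∈ V, β n n' = 0) (hCV : fix A M ≤ V)
    (hN : N ≤ V) : Sys AC β (ann A N) N (fun _ => 0) := by
  refine sys_zero (fun a ha n hn => ?_) (fun n hn n' hn' => hV n (hN hn) n' (hN hn')) le_rfl
  obtain ⟨c, hc, hm⟩ := h.inn a ha
  rw [hm, hV c (hCV hc) n (hN hn)]

theorem good_sup {V N N' : AddSubgroup M} (hV : ∀ n ∈ V, ∀ n' ∈ V, β n n' = 0)
    (hCV : fix A M ≤ V) (hN : N ≤ V)
    (h1 : Nat.card A * Nat.card (fix A M) ≤ Nat.card (ann A N) * Nat.card N)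
    (h2 : Nat.card A * Nat.card (fix A M) ≤ Nat.card (ann A N') * Nat.card N') :
    Nat.card A * Nat.card (fix A M) ≤
      Nat.card (ann A (N ⊔ N')) * Nat.card (N ⊔ N' : AddSubgroup M) := by
  have h3 := h.max _ _ _ (h.best hV hCV (inf_le_left.trans hN : N ⊓ N' ≤ V))
  have h4 : Nat.card (ann A N ⊔ ann A N' : Subgroup A) ≤ Nat.card (ann A (N ⊓ N')) :=
    Subgroup.card_le_of_le (sup_le (ann_anti inf_le_left) (ann_anti inf_le_right))
  have h5 := H1.card_sup_mul_card_inf_of_normal (ann A N) (ann A N')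
  have h6 := add_card_sup_mul N N'
  rw [ann_sup]
  set e := Nat.card A * Nat.card (fix A M)
  have he : 0 < e := Nat.mul_pos Nat.card_pos Nat.card_pos
  refine Nat.le_of_mul_le_mul_left (c := e) ?_ he
  calc e * e ≤ (Nat.card (ann A N) * Nat.card N) * (Nat.card (ann A N') * Nat.card N') :=
        Nat.mul_le_mul h1 h2
    _ = (Nat.card (ann A N) * Nat.card (ann A N')) * (Nat.card N * Nat.card N') := by ring
    _ = (Nat.card (ann A N ⊔ ann A N' : Subgroup A) * Nat.card (N ⊓ N' : AddSubgroup M)) *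
        (Nat.card (ann A N ⊓ ann A N' : Subgroup A) * Nat.card (N ⊔ N' : AddSubgroup M)) := by
        rw [← h5, ← h6]; ring
    _ ≤ _ := Nat.mul_le_mul_right _ ((Nat.mul_le_mul_right _ h4).trans h3)

omit h in
theorem bof_le_ann (v : M) : bof v (inv_fix (A := A)) ≤ ann A (dd A v ⊔ fix A M) := by
  intro b hb
  refine mem_ann_of_le_ker (sup_le (dd_le fun a => ?_) fun c hc => hc b)
  rw [AddMonoidHom.mem_ker, xx_comm]
  exact hb a

omit h in
theorem good_dd (v : M) : Nat.card A * Nat.card (fix A M) ≤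
    Nat.card (bof v (inv_fix (A := A))) * Nat.card (dd A v ⊔ fix A M : AddSubgroup M) := by
  have := cnt (B := bof v (inv_fix (A := A))) (K := ⊤) (F := fix A M) (W := dd A v ⊔ fix A M) le_top
    le_sup_right (fun a => xx a v) (fun k _ => AddSubgroup.mem_sup_left (xx_mem_dd k v))
    (fun k _ k' _ hk => inv_mul_mem_bof _ hk)
  rwa [Subgroup.card_top] at this

theorem good_com {t : M}
    (hV : ∀ n ∈ com A (dd A t) ⊔ fix A M, ∀ n' ∈ com A (dd A t) ⊔ fix A M, β n n' = 0) :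
    Nat.card A * Nat.card (fix A M) ≤ Nat.card (ann A (com A (dd A t) ⊔ fix A M)) *
      Nat.card (com A (dd A t) ⊔ fix A M : AddSubgroup M) := by
  obtain ⟨N, ⟨hN1, hN2, hN3⟩, hmax⟩ := (wellFounded_gt (α := AddSubgroup M)).has_min
    {N | fix A M ≤ N ∧ N ≤ com A (dd A t) ⊔ fix A M ∧
      Nat.card A * Nat.card (fix A M) ≤ Nat.card (ann A N) * Nat.card N}
    ⟨fix A M, le_rfl, le_sup_right, Nat.mul_le_mul_right _ (by
      rw [← Subgroup.card_top (G := A)]
      exact Subgroup.card_le_of_le fun a _ n hn => hn a)⟩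
  suffices he : N = com A (dd A t) ⊔ fix A M by rwa [he] at hN3
  refine le_antisymm hN2 (sup_le (com_dd_le fun a b => ?_) hN1)
  have h1 : dd A (xx b t) ⊔ fix A M ≤ com A (dd A t) ⊔ fix A M :=
    sup_le_sup_right (dd_le fun c => xx_mem_com c (xx_mem_dd b t)) _
  have h2 := h.good_sup hV le_sup_right hN2 hN3 ((good_dd (xx b t)).trans
    (Nat.mul_le_mul_right _ (Subgroup.card_le_of_le (bof_le_ann _))))
  by_contra hn
  exact hmax _ ⟨hN1.trans le_sup_left, sup_le hN2 h1, h2⟩ (lt_of_le_of_ne le_sup_left fun he =>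
    hn (he ▸ AddSubgroup.mem_sup_right (AddSubgroup.mem_sup_left (xx_mem_dd a _))))

theorem le_of_good {N V : AddSubgroup M} {B : Subgroup A} (hNV : N ≤ V)
    (h1 : Nat.card A * Nat.card (fix A M) ≤ Nat.card B * Nat.card N)
    (h2 : Sys AC β B V (fun _ => 0)) : V ≤ N := by
  have h3 := h1.trans' (h.max _ _ _ h2)
  exact (AddSubgroup.eq_of_le_of_card_ge hNV (Nat.le_of_mul_le_mul_left h3 Nat.card_pos)).ge

/-- quadratic action on the elements centralised by `T` -/
theorem quad {u : M} (hu : ∀ m, β u m = 0) (hT : ∀ b ∈ AT, xx b u = 0) (a : A) :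
    xx a u ∈ fix A M := by
  let R : AddSubgroup M := β.ker
  have hR : Inv A R := fun a m hm => by
    have hm' : ∀ m', β m m' = 0 := fun m' => by rw [AddMonoidHom.mem_ker.mp hm]; rfl
    refine AddMonoidHom.mem_ker.mpr (AddMonoidHom.ext fun m' => ?_)
    rw [xx_apply, map_sub, AddMonoidHom.sub_apply, hm', ← smul_inv_smul a m', h.eqv, hm']
    simp
  have huR : u ∈ R := AddMonoidHom.mem_ker.mpr (AddMonoidHom.ext hu)
  have hV : ∀ n ∈ R ⊔ fix A M, ∀ n' ∈ R ⊔ fix A M, β n n' = 0 := by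
    intro n hn n' hn'
    obtain ⟨y, hy, z, hz, rfl⟩ := AddSubgroup.mem_sup.mp hn
    obtain ⟨y', hy', z', hz', rfl⟩ := AddSubgroup.mem_sup.mp hn'
    rw [map_add β, AddMonoidHom.mem_ker.mp hy, zero_add, map_add, h.cc z hz z' hz', h.anti,
      AddMonoidHom.mem_ker.mp hy']
    simp
  have hdR : dd A u ≤ R := dd_le fun a => hR a u huR
  have hAC : AC ≤ bof u (inv_fix (A := A)) := fun b hb => by
    obtain ⟨c, -, hm⟩ := h.inn b hb
    rw [mem_bof, hm, h.anti, hu, neg_zero]
    exact zero_mem _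
  have hATB : AT ≤ bof u (inv_fix (A := A)) := fun b hb => by
    rw [mem_bof, hT b hb]
    exact zero_mem _
  have hle : dd A u ⊔ fix A M ≤ R ⊔ fix A M := sup_le_sup_right hdR _
  rcases h.min _ _ _ (sys_zero hAC (fun n hn n' hn' => hV n (hle hn) n' (hle hn')) (bof_le_ann u))
    (good_dd u) with h1 | h1
  · have hle' : AddSubgroup.zmultiples u ⊔ (dd A u ⊔ fix A M) ≤ R ⊔ fix A M :=
      sup_le ((AddSubgroup.zmultiples_le.mpr huR).trans le_sup_left) hle
    have h2 := h.le_of_good (V := AddSubgroup.zmultiples u ⊔ (dd A u ⊔ fix A M)) le_sup_right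
      (good_dd u) (sys_zero hAC (fun n hn n' hn' => hV n (hle' hn) n' (hle' hn')) (by
        rw [ann_sup]
        exact le_inf (fun b hb => mem_ann_of_le_ker (AddSubgroup.zmultiples_le.mpr (hT b (h1 hb))))
          (bof_le_ann u)))
    obtain ⟨y, hy, z, hz, hyz⟩ := AddSubgroup.mem_sup.mp
      (h2 (AddSubgroup.mem_sup_left (AddSubgroup.mem_zmultiples u)))
    have h3 : dd A u ≤ ⊥ := h.nil _ _ (inv_dd u) (fun a m hm => by
      rw [AddSubgroup.mem_bot.mp hm, map_zero]; exact zero_mem _) (dd_le fun b => by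
      rw [← hyz, map_add, hz b, add_zero, hyz]
      exact AddSubgroup.mem_sup_left (xx_mem_com b hy))
    rw [AddSubgroup.mem_bot.mp (h3 (xx_mem_dd a u))]
    exact zero_mem _
  · rw [sup_of_le_left hATB] at h1
    exact (show a ∈ bof u (inv_fix (A := A)) from h1 ▸ Subgroup.mem_top a)

/-- **The main replacement lemma.** -/
theorem cubic {t : M} {Y : AddSubgroup M} (hY : Inv A Y)
    (hq : ∀ (a : A) (m m' : M), xx a (β m m') ∈ fix A M)
    (hT : ∀ b ∈ AT, ∀ m m', xx b (β m m') = 0)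
    (hUY : ∀ (a : A) (m m' : M), xx a (β m m') ∈ Y)
    (h3 : ∀ v ∈ com A (dd A t), ∀ w ∈ dd A t, β v w = 0)
    (h2 : ∀ v ∈ com A (dd A t), β v t ∈ fix A M)
    (h4 : ∀ c ∈ fix A M, β c t ∈ fix A M)
    (hTZ : ∀ b ∈ AT, ∀ m, β (xx b t) m = 0) (hTY : ∀ b ∈ AT, xx b t ∈ Y) :
    com A (com A (dd A t)) ≤ Y := by
  classical
  set C := fix A M with hC
  set D := dd A t with hD
  set E := com A D with hE
  have hDi : Inv A D := inv_dd t
  have hEi : Inv A E := hDi.com
  have hED : E ≤ D := hDi.com_le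
  have hxE : ∀ a b : A, xx a (xx b t) ∈ E := fun a b => xx_mem_com a (xx_mem_dd b t)
  let f : A → M := fun a => β (xx a t) t
  have hcD : ∀ c ∈ C, ∀ w ∈ D, β c w = 0 := fun c hc w hw =>
    (dd_le (Y := (β c).ker) fun a => by
      rw [AddMonoidHom.mem_ker, h.beta_fix hc]
      exact h4 c hc a) hw
  have hom : ∀ a b : A, xx b (f a) - xx a (f b) = β (xx a t) (xx b t) + β (xx a t) (xx b t) := by
    intro a b
    simp only [f]
    rw [h.xx_beta, h.xx_beta, h3 _ (hxE _ _) _ (xx_mem_dd _ _), h3 _ (hxE _ _) _ (xx_mem_dd _ _),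
      xx_comm b a, h.anti (xx a t) (xx b t)]
    abel
  have hfm : ∀ a b : A, f (a * b) - f a - f b ∈ C := fun a b => by
    have : f (a * b) - f a - f b = β (xx a (xx b t)) t := by
      simp only [f, xx_mul, map_add, AddMonoidHom.add_apply]
      abel
    rw [this]
    exact h2 _ (hxE a b)
  have hf1 : f 1 = 0 := by simp [f, xx_one]
  have hfi : ∀ a : A, f a⁻¹ + f a ∈ C := fun a => by
    have := neg_mem (hfm a⁻¹ a)
    rw [inv_mul_cancel, hf1] at this
    convert this using 1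
    abel
  let F : AddSubgroup M :=
    { carrier := {m | ∃ a : A, m - f a ∈ C}
      zero_mem' := ⟨1, by rw [hf1, sub_zero]; exact zero_mem _⟩
      add_mem' := by
        rintro m m' ⟨a, ha⟩ ⟨b, hb⟩
        refine ⟨a * b, ?_⟩
        convert sub_mem (add_mem ha hb) (hfm a b) using 1
        abel
      neg_mem' := by
        rintro m ⟨a, ha⟩
        refine ⟨a⁻¹, ?_⟩
        convert neg_mem (add_mem ha (hfi a)) using 1
        abel }
  have hCF : C ≤ F := fun c hc => ⟨1, by rwa [hf1, sub_zero]⟩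
  have hfF : ∀ a, f a ∈ F := fun a => ⟨a, by rw [sub_self]; exact zero_mem _⟩
  have hFle : ∀ Z : AddSubgroup M, C ≤ Z → (∀ a, f a ∈ Z) → F ≤ Z := by
    rintro Z h1 h2 m ⟨a, ha⟩
    simpa using add_mem (h1 ha) (h2 a)
  have hxF : ∀ (a : A), ∀ m ∈ F, xx a m ∈ C := fun a => hFle (C.comap (xx a))
    (fun c hc => inv_fix a c hc) fun b => hq a _ _
  have hFi : Inv A F := fun a m hm => hCF (hxF a m hm)
  have hFD : ∀ u ∈ F, ∀ w ∈ D ⊔ C, β u w = 0 := by
    intro u hu w hw
    refine (hFle (β.flip w).ker (fun c hc => ?_) fun a => h.cen _ _ _) hu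
    exact (sup_le (fun w hw => hcD c hc w hw) (fun w hw => h.cc c hc w hw) :
      D ⊔ C ≤ (β c).ker) hw
  have hFF : ∀ u ∈ F, ∀ w ∈ F, β u w = 0 := fun u hu =>
    hFle (β u).ker (fun c hc => hFD u hu c (AddSubgroup.mem_sup_right hc)) fun a => h.cen' _ _ _
  -- elements `b` with `β (xx b t) D = 0` and `f b ∈ C` centralise `F`
  have hcF : ∀ b : A, f b ∈ C → (∀ w ∈ D, β (xx b t) w = 0) → b ∈ ann A F := by
    intro b hb hb'
    refine mem_ann_of_le_ker (hFle _ (fun c hc => hc b) fun y => ?_)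
    have := hom b y
    rw [hb y, hb' _ (xx_mem_dd y t)] at this
    simpa using this
  let K : Subgroup A :=
    { carrier := {a | f a ∈ C}
      one_mem' := by rw [Set.mem_ofPred_eq, hf1]; exact zero_mem _
      mul_mem' := fun {a b} ha hb => by
        simpa using add_mem (add_mem (hfm a b) hb) ha
      inv_mem' := fun {a} ha => by simpa using sub_mem (hfi a) ha }
  have hKF : Nat.card A * Nat.card C ≤ Nat.card K * Nat.card F := by
    have := cnt (B := K) (K := ⊤) (F := C) (W := F)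
      le_top hCF f (fun k _ => hfF k) (fun k _ k' _ hk => by
        have := sub_mem (add_mem (hfm k⁻¹ k') (hfi k)) hk
        change f (k⁻¹ * k') ∈ C
        convert this using 1
        abel)
    rwa [Subgroup.card_top] at this
  let B₁ : Subgroup A := bof t hFi
  have hFt : ∀ u ∈ F, β u t ∈ C := hFle (C.comap (β.flip t)) h4 fun a => by
    rw [AddSubgroup.mem_comap, AddMonoidHom.flip_apply, h.cen]
    exact zero_mem _
  have hB₁K : B₁ ≤ K := fun b hb => hFt _ hb
  have hACt : ∀ a ∈ AC, xx a t ∈ C := fun a ha => by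
    obtain ⟨c, hc, hm⟩ := h.inn a ha
    rw [hm]
    exact h4 c hc
  have hB₁E : B₁ ≤ ann A E := fun b hb => mem_ann_of_le_ker (com_dd_le fun a a' => by
    rw [AddMonoidHom.mem_ker, xx_comm b a, xx_comm b a']
    exact hxF a' _ hb a)
  have hB₁F : B₁ ≤ ann A F := fun b hb =>
    hcF b (hB₁K hb) fun w hw => hFD _ hb w (AddSubgroup.mem_sup_left hw)
  -- the twisted abelian subgroup
  have hsurj : ∀ v ∈ E, ∃ k ∈ K, v - xx k t ∈ F := by
    have hy : ∀ b ∈ B₁, ∃ y : A, xx b t - f y ∈ C := fun b hb => hb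
    choose! y hy using hy
    have hxy : ∀ b ∈ B₁, ∀ a : A, xx b (xx a t) = xx a (f (y b)) := fun b hb a => by
      have := hy b hb a
      rw [map_sub, sub_eq_zero] at this
      rw [xx_comm, this]
    let DK : AddSubgroup M := AddSubgroup.closure ((fun a : A => xx a t) '' K)
    have hDKle : ∀ Z : AddSubgroup M, (∀ k ∈ K, xx k t ∈ Z) → DK ≤ Z := fun Z hZ => by
      rw [AddSubgroup.closure_le]
      rintro _ ⟨k, hk, rfl⟩
      exact hZ k hk
    have hDK : DK ≤ D := hDKle D fun k _ => xx_mem_dd k t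
    have hWD : DK ⊔ E ≤ D := sup_le hDK hED
    have hsys : Sys AC β B₁ (DK ⊔ E ⊔ F) (fun b => xx (y b) t + xx (y b) t) := by
      refine ⟨fun a ha => hCF (hACt a ha), ?_, fun b hb n hn => ?_, fun b hb b' hb' => ⟨?_, ?_⟩⟩
      · have h1 : ∀ n ∈ DK ⊔ E, ∀ n' ∈ DK ⊔ E, β n n' = 0 := by
          intro n hn n' hn'
          refine (sup_le (hDKle (β.flip n').ker fun k hk => ?_) fun v hv => h3 v hv n' (hWD hn') :
            DK ⊔ E ≤ (β.flip n').ker) hn
          refine (sup_le (hDKle (β (xx k t)).ker fun k' hk' => h.two _ ?_) fun v hv => ?_ :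
            DK ⊔ E ≤ (β (xx k t)).ker) hn'
          · rw [← hom, (show f k ∈ C from hk) k', (show f k' ∈ C from hk') k, sub_self]
          · rw [AddMonoidHom.mem_ker, h.anti, h3 v hv _ (xx_mem_dd k t), neg_zero]
        intro n hn n' hn'
        obtain ⟨w, hw, u, hu, rfl⟩ := AddSubgroup.mem_sup.mp hn
        obtain ⟨w', hw', u', hu', rfl⟩ := AddSubgroup.mem_sup.mp hn'
        simp only [map_add, AddMonoidHom.add_apply]
        rw [h1 w hw w' hw', hFF u hu u' hu', hFD u hu w' (AddSubgroup.mem_sup_left (hWD hw')),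
          h.anti u' w, hFD u' hu' w (AddSubgroup.mem_sup_left (hWD hw))]
        simp
      · obtain ⟨w, hw, u, hu, rfl⟩ := AddSubgroup.mem_sup.mp hn
        have hμ : xx (y b) t + xx (y b) t ∈ D := add_mem (xx_mem_dd _ _) (xx_mem_dd _ _)
        rw [map_add, hB₁F hb u hu, add_zero, map_add, h.anti u,
          hFD u hu _ (AddSubgroup.mem_sup_left hμ), neg_zero, add_zero, h.anti (xx b w),
          h3 _ (xx_mem_com b (hWD hw)) _ hμ, neg_zero]
        refine ⟨?_, rfl⟩
        rw [← sub_eq_zero]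
        refine (sup_le (hDKle (xx b - β (xx (y b) t + xx (y b) t)).ker fun k hk => ?_)
          fun v hv => ?_ : DK ⊔ E ≤ (xx b - β (xx (y b) t + xx (y b) t)).ker) hw
        · rw [AddMonoidHom.mem_ker, AddMonoidHom.sub_apply, hxy b hb, map_add,
            AddMonoidHom.add_apply, ← hom, (show f k ∈ C from hk) (y b)]
          simp
        · rw [AddMonoidHom.mem_ker, AddMonoidHom.sub_apply, hB₁E hb v hv, h.anti v, h3 v hv _ hμ]
          simp
      · simp only [map_add, AddMonoidHom.add_apply, hxy b hb, hxy b' hb']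
        rw [← hom]
        abel
      · rw [h.anti, h3 _ (xx_mem_com b (add_mem (xx_mem_dd _ _) (xx_mem_dd _ _))) _
          (add_mem (xx_mem_dd _ _) (xx_mem_dd _ _)), neg_zero]
    intro v hv
    exact cnt_surj hB₁K (le_sup_right : F ≤ DK ⊔ E ⊔ F) (fun a => xx a t)
      (fun k hk => AddSubgroup.mem_sup_left (AddSubgroup.mem_sup_left
        (AddSubgroup.subset_closure ⟨k, hk, rfl⟩)))
      (fun k _ k' _ hk => inv_mul_mem_bof hFi hk) ((h.max _ _ _ hsys).trans hKF) v
      (AddSubgroup.mem_sup_left (AddSubgroup.mem_sup_right hv))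
  -- the centraliser of `E`
  have hEF : ∀ n ∈ E ⊔ F, ∀ n' ∈ E ⊔ F, β n n' = 0 := by
    intro n hn n' hn'
    obtain ⟨w, hw, u, hu, rfl⟩ := AddSubgroup.mem_sup.mp hn
    obtain ⟨w', hw', u', hu', rfl⟩ := AddSubgroup.mem_sup.mp hn'
    simp only [map_add, AddMonoidHom.add_apply]
    rw [h3 w hw w' (hED hw'), hFF u hu u' hu', hFD u hu w' (AddSubgroup.mem_sup_left (hED hw')),
      h.anti u' w, hFD u' hu' w (AddSubgroup.mem_sup_left (hED hw))]
    simp
  have hECF : E ⊔ C ≤ E ⊔ F := sup_le_sup_left hCF _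
  have hEC : ∀ n ∈ E ⊔ C, ∀ n' ∈ E ⊔ C, β n n' = 0 := fun n hn n' hn' =>
    hEF n (hECF hn) n' (hECF hn')
  have hgood := h.good_com hEC
  have hsys' := h.best hEC le_sup_right le_rfl
  set B' := ann A (E ⊔ C) with hB'
  have hTE : ∀ b ∈ AT, ∀ v ∈ E, xx b v ∈ Y := fun b hb v hv =>
    (com_dd_le (Y := Y.comap (xx b)) fun a a' => by
      rw [AddSubgroup.mem_comap, xx_comm b a, xx_comm b a']
      exact hY _ _ (hY _ _ (hTY b hb))) hv
  have hdec : ∀ B : Subgroup A, B ⊔ AT = ⊤ → ∀ a : A, ∃ b ∈ B, ∃ τ ∈ AT, b * τ = a :=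
    fun B hB a => Subgroup.mem_sup.mp (hB ▸ Subgroup.mem_top a)
  rcases h.min _ _ _ hsys' hgood with hB'T | hB'T
  swap
  · refine com_le fun a v hv => ?_
    obtain ⟨b, hb, τ, hτ, rfl⟩ := hdec _ hB'T a
    rw [xx_mul, hb v (AddSubgroup.mem_sup_left hv), zero_add]
    exact add_mem (hTE τ hτ v hv) (hY _ _ (hTE τ hτ v hv))
  have hB'F : B' ≤ ann A F := fun b hb => mem_ann_of_le_ker
    (hFle _ (fun c hc => hc b) fun a => hT b (hB'T hb) _ _)
  have hFEC : E ⊔ F ≤ E ⊔ C := h.le_of_good hECF hgood (sys_zero hsys'.le hEF (by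
    rw [ann_sup]
    exact le_inf (ann_anti le_sup_left) hB'F))
  have hFEC' : F ≤ E ⊔ C := le_sup_right.trans hFEC
  have hECi : Inv A (E ⊔ C) := hEi.sup inv_fix
  let H : Subgroup A := bof t hECi
  have hB₁H : B₁ ≤ H := fun b hb => hFEC' hb
  have hsurj' : ∀ v ∈ E ⊔ C, ∃ k ∈ H, v - xx k t ∈ F := by
    intro v hv
    obtain ⟨w, hw, c, hc, rfl⟩ := AddSubgroup.mem_sup.mp hv
    obtain ⟨k, -, hk⟩ := hsurj w hw
    refine ⟨k, ?_, by convert add_mem hk (hCF hc) using 1; abel⟩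
    have := sub_mem (AddSubgroup.mem_sup_left hw : w ∈ E ⊔ C) (hFEC' hk)
    rwa [sub_sub_cancel] at this
  have hc1 := cnt_rev hB₁H hFEC' (fun a => xx a t) hsurj' (fun k _ b hb => by
    have : xx (k * b) t - xx k t = k • xx b t := by rw [xx_mul, smul_eq]; abel
    rw [this]
    exact hFi.smul k hb)
  let DB : AddSubgroup M := AddSubgroup.closure ((fun a : A => xx a t) '' B')
  have hDBle : ∀ Z : AddSubgroup M, (∀ k ∈ B', xx k t ∈ Z) → DB ≤ Z := fun Z hZ => by
    rw [AddSubgroup.closure_le]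
    rintro _ ⟨k, hk, rfl⟩
    exact hZ k hk
  have hB₁B' : B₁ ≤ B' := by
    rw [hB', ann_sup]
    exact le_inf hB₁E fun b _ c hc => hc b
  have hc2 := cnt hB₁B' (le_sup_right : F ≤ DB ⊔ F) (fun a => xx a t)
    (fun k hk => AddSubgroup.mem_sup_left (AddSubgroup.subset_closure ⟨k, hk, rfl⟩))
    (fun k _ k' _ hk => inv_mul_mem_bof hFi hk)
  have hsysH : Sys AC β H (DB ⊔ F) (fun _ => 0) := by
    refine sys_zero (fun a ha => AddSubgroup.mem_sup_right (hACt a ha)) ?_ ?_
    · have h1 : ∀ w ∈ DB, ∀ m, β w m = 0 := fun w hw m =>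
        hDBle (β.flip m).ker (fun k hk => hTZ k (hB'T hk) m) hw
      intro n hn n' hn'
      obtain ⟨w, hw, u, hu, rfl⟩ := AddSubgroup.mem_sup.mp hn
      obtain ⟨w', hw', u', hu', rfl⟩ := AddSubgroup.mem_sup.mp hn'
      rw [map_add β, AddMonoidHom.add_apply, h1 w hw, zero_add, map_add, hFF u hu u' hu', h.anti,
        h1 w' hw']
      simp
    · rw [ann_sup]
      refine le_inf (fun k hk => mem_ann_of_le_ker (hDBle _ fun b hb => ?_)) fun k hk => ?_
      · rw [AddMonoidHom.mem_ker, xx_comm]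
        exact hb _ hk
      · refine hcF k ((sup_le (fun v hv => h2 v hv) h4 : E ⊔ C ≤ C.comap (β.flip t)) hk)
          fun w hw => ?_
        exact (sup_le (fun v hv => h3 v hv w hw) fun c hc => hcD c hc w hw :
          E ⊔ C ≤ (β.flip w).ker) hk
  have hc3 : Nat.card A * Nat.card C ≤ Nat.card H * Nat.card (DB ⊔ F : AddSubgroup M) := by
    refine hgood.trans (Nat.le_of_mul_le_mul_left (c := Nat.card B₁ * Nat.card F) ?_
      (Nat.mul_pos Nat.card_pos Nat.card_pos))
    calc _ = (Nat.card B₁ * Nat.card (E ⊔ C : AddSubgroup M)) * (Nat.card B' * Nat.card F) := by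
          ring
      _ ≤ _ := Nat.mul_le_mul hc1 hc2
      _ = _ := by ring
  rcases h.min _ _ _ hsysH hc3 with hHT | hHT
  · refine com_le fun a v hv => ?_
    obtain ⟨k, hk, hkF⟩ := hsurj' v (AddSubgroup.mem_sup_left hv)
    have h1 : xx a (v - xx k t) ∈ Y := hFle (Y.comap (xx a)) (fun c hc => by
      rw [AddSubgroup.mem_comap, hc a]; exact zero_mem _) (fun b => hUY a _ _) hkF
    simpa using add_mem h1 (hY a _ (hTY k (hHT hk)))
  · refine hEi.com_le.trans (h.nil E Y hEi hY (com_dd_le fun a' a => ?_))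
    obtain ⟨k, hk, τ, hτ, rfl⟩ := hdec _ hHT a
    obtain ⟨w, hw, c, hc, hwc⟩ := AddSubgroup.mem_sup.mp (show xx k t ∈ E ⊔ C from hk)
    rw [xx_mul, add_assoc, map_add, ← hwc, map_add, hc a', add_zero]
    exact AddSubgroup.add_mem_sup (xx_mem_com a' hw)
      (hY _ _ (add_mem (hTY τ hτ) (hY _ _ (hTY τ hτ))))

omit [Finite A] [Finite M] in
theorem inv_ker : Inv A β.ker := fun a m hm => by
  have hm' : ∀ m', β m m' = 0 := fun m' => by rw [AddMonoidHom.mem_ker.mp hm]; rfl
  refine AddMonoidHom.mem_ker.mpr (AddMonoidHom.ext fun m' => ?_)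
  rw [xx_apply, map_sub, AddMonoidHom.sub_apply, hm', ← smul_inv_smul a m', h.eqv, hm']
  simp

omit [Finite A] [Finite M] in
theorem shift_eq (a : A) (n m : M) :
    β (xx a n) m = xx a (β n (a⁻¹ • m)) + β n (xx a⁻¹ m) := by
  rw [xx_apply, xx_apply, xx_apply, ← h.eqv, smul_inv_smul]
  simp only [map_sub, AddMonoidHom.sub_apply]
  abel

theorem quartic_key (hTZ : ∀ b ∈ AT, ∀ m m', β (xx b m) m' = 0) {t : M}
    (h5 : com A (com A (com A (com A (dd A t)))) ≤ β.ker) :
    com A (com A (com A (dd A t))) ≤ β.ker := by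
  have hT : ∀ b ∈ AT, ∀ m m', xx b (β m m') = 0 := fun b hb m m' => by
    rw [h.xx_beta, hTZ b hb, hTZ b hb, h.anti (xx b m') m, hTZ b hb]
    simp
  have hq : ∀ (a : A) (m m' : M), xx a (β m m') ∈ fix A M := fun a m m' =>
    h.quad (h.cen m m') (fun b hb => hT b hb m m') a
  set C := fix A M
  let Rel : AddSubgroup M → AddSubgroup M → Prop := fun N N' => ∀ m ∈ N, ∀ m' ∈ N', β m m' ∈ C
  let Zer : AddSubgroup M → AddSubgroup M → Prop := fun N N' => ∀ m ∈ N, ∀ m' ∈ N', β m m' = 0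
  have symR : ∀ N N', Rel N N' → Rel N' N := fun N N' hr m hm m' hm' => by
    rw [h.anti]; exact neg_mem (hr m' hm' m hm)
  have shiftR : ∀ N N', Rel N (com A N') → Rel (com A N) N' := fun N N' hr m hm m' hm' =>
    (com_le (Y := C.comap (β.flip m')) fun a n hn => by
      rw [AddSubgroup.mem_comap, AddMonoidHom.flip_apply, h.shift_eq]
      exact add_mem (hq _ _ _) (hr n hn _ (xx_mem_com _ hm'))) hm
  have shiftZ : ∀ N N', Inv A N' → Rel N N' → Zer N (com A N') → Zer (com A N) N' :=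
    fun N N' hi hr hz m hm m' hm' =>
    (com_le (Y := (β.flip m').ker) fun a n hn => by
      rw [AddMonoidHom.mem_ker, AddMonoidHom.flip_apply, h.shift_eq, hr n hn _ (hi.smul _ hm') a,
        hz n hn _ (xx_mem_com _ hm'), add_zero]) hm
  set N0 := AddSubgroup.zmultiples t ⊔ dd A t with hN0
  set N1 := dd A t with hN1
  set N2 := com A N1
  set N3 := com A N2
  set N4 := com A N3
  set N5 := com A N4
  have ht0 : t ∈ N0 := AddSubgroup.mem_sup_left (AddSubgroup.mem_zmultiples t)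
  have i1 : Inv A N1 := inv_dd t
  have i2 : Inv A N2 := i1.com
  have i3 : Inv A N3 := i2.com
  have i4 : Inv A N4 := i3.com
  have e1 : com A N0 = N1 := le_antisymm (com_le fun a m hm =>
    (sup_le (AddSubgroup.zmultiples_le.mpr (xx_mem_dd a t)) (fun w hw => i1 a w hw) :
      N0 ≤ N1.comap (xx a)) hm) (dd_le fun a => xx_mem_com a ht0)
  have z05 : Zer N0 N5 := fun m _ m' hm' => by
    rw [h.anti, AddMonoidHom.mem_ker.mp (h5 hm')]
    simp
  have r05 : Rel N0 N5 := fun m hm m' hm' => by rw [z05 m hm m' hm']; exact zero_mem _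
  have r14 : Rel N1 N4 := e1 ▸ shiftR _ _ r05
  have step : ∀ N N', Rel N (com A (com A N')) → ∀ (a : A), ∀ n ∈ N, ∀ m ∈ N',
      β (xx a n) m + β n (xx a m) ∈ C := fun N N' hr a n hn m hm => by
    have e : xx a⁻¹ m = -xx a m - xx a (xx a⁻¹ m) := by
      have := xx_mul a a⁻¹ m
      rw [mul_inv_cancel, xx_one] at this
      rw [eq_sub_iff_add_eq, eq_neg_iff_add_eq_zero, this]
      abel
    rw [h.shift_eq, e, map_sub, map_neg]
    convert sub_mem (hq a n (a⁻¹ • m)) (hr n hn _ (xx_mem_com a (xx_mem_com a⁻¹ hm))) using 1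
    abel
  have r22 : Rel N2 N2 := by
    have hq4 : ∀ a b c d : A, β (xx a (xx b t)) (xx c (xx d t)) -
        β t (xx b (xx a (xx c (xx d t)))) ∈ C := fun a b c d => by
      have e1 := step N1 N2 r14 a _ (xx_mem_dd b t) _ (xx_mem_com c (xx_mem_dd d t))
      have e2 := step N0 N3 r05 b _ ht0 _ (xx_mem_com a (xx_mem_com c (xx_mem_dd d t)))
      convert sub_mem e1 e2 using 1
      abel
    intro m hm m' hm'
    refine (com_dd_le (Y := C.comap (β.flip m')) fun a b => ?_) hm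
    refine (com_dd_le (Y := C.comap (β (xx a (xx b t)))) fun c d => h.mem_fix_of_two ?_) hm'
    have e3 := sub_mem (hq4 a b c d) (hq4 c d a b)
    rw [h.anti (xx a (xx b t)) (xx c (xx d t)), xx_comm c a, xx_comm d a, xx_comm c b, xx_comm d b,
      xx_comm d c, xx_comm a b (xx c _)] at e3
    convert e3 using 1
    abel
  have r31 : Rel N3 N1 := shiftR _ _ r22
  have r40 : Rel N4 N0 := shiftR _ _ (e1.symm ▸ r31)
  have z14 : Zer N1 N4 := e1 ▸ shiftZ _ _ i4 (symR _ _ r40) z05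
  have z23 : Zer N2 N3 := shiftZ _ _ i3 (symR _ _ r31) z14
  have key : ∀ a : A, com A (com A (dd A (xx a t))) ≤ β.ker := fun a => by
    have hD : dd A (xx a t) ≤ N2 := dd_le fun b => xx_mem_com b (xx_mem_dd a t)
    refine h.cubic h.inv_ker hq hT (fun a m m' => h.inv_ker a _ (AddMonoidHom.mem_ker.mpr
      (AddMonoidHom.ext (h.cen m m')))) (fun v hv w hw => ?_)
      (fun v hv => r31 v (com_mono hD hv) _ (xx_mem_dd a t)) (fun c hc => ?_)
      (fun b hb m => hTZ b hb _ m) (fun b hb => AddMonoidHom.mem_ker.mpr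
        (AddMonoidHom.ext (hTZ b hb _)))
    · rw [h.anti, z23 w (hD hw) v (com_mono hD hv), neg_zero]
    · rw [h.beta_fix hc]
      exact hq _ _ _
  refine com_le fun a m hm => ?_
  refine (com_le (Y := β.ker.comap (xx a)) fun b m hm => ?_) hm
  refine (com_dd_le (Y := (β.ker.comap (xx a)).comap (xx b)) fun c d => ?_) hm
  exact key d (xx_mem_com a (xx_mem_com b (xx_mem_dd c _)))

theorem quartic (hTZ : ∀ b ∈ AT, ∀ m m', β (xx b m) m' = 0) (a b c d : A) (m : M) :
    xx a (xx b (xx c (xx d m))) ∈ β.ker := by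
  let pre : AddSubgroup M → AddSubgroup M := fun Y => ⨅ a : A, Y.comap (xx a)
  have hpre : ∀ Y m, m ∈ pre Y ↔ ∀ a : A, xx a m ∈ Y := fun Y m => AddSubgroup.mem_iInf
  have hgc : ∀ N Y, com A N ≤ Y ↔ N ≤ pre Y := fun N Y =>
    ⟨fun h1 m hm => (hpre _ _).mpr fun a => h1 (xx_mem_com a hm),
      fun h1 => com_le fun a m hm => (hpre _ _).mp (h1 hm) a⟩
  have hgcn : ∀ (n : ℕ) N Y, (com A)^[n] N ≤ Y → N ≤ pre^[n] Y := by
    intro n
    induction n with
    | zero => exact fun _ _ h => h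
    | succ n ih =>
      intro N Y h1
      rw [Function.iterate_succ_apply] at h1
      rw [Function.iterate_succ_apply']
      exact (hgc _ _).mp (ih _ _ h1)
  have hkey : pre^[5] β.ker ≤ pre^[4] β.ker := fun t ht => by
    have h1 : dd A t ≤ pre^[4] β.ker := dd_le ((hpre _ _).mp ht)
    have h2 := h.quartic_key hTZ (t := t) ((hgc _ _).mpr ((hgc _ _).mpr ((hgc _ _).mpr
      ((hgc _ _).mpr h1))))
    exact (hpre _ _).mpr fun a => ((hgc _ _).mp ((hgc _ _).mp ((hgc _ _).mp h2))) (xx_mem_dd a t)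
  have hall : ∀ n : ℕ, pre^[n] β.ker ≤ pre^[4] β.ker := by
    have hmono : ∀ Y Y', Y ≤ Y' → pre Y ≤ pre Y' := fun Y Y' h1 m hm =>
      (hpre _ _).mpr fun a => h1 ((hpre _ _).mp hm a)
    intro n
    induction n with
    | zero =>
      have h1 : β.ker ≤ pre β.ker := fun m hm => (hpre _ _).mpr fun a => h.inv_ker a m hm
      exact h1.trans ((hmono _ _ h1).trans ((hmono _ _ (hmono _ _ h1)).trans
        (hmono _ _ (hmono _ _ (hmono _ _ h1)))))
    | succ n ih =>
      rw [Function.iterate_succ_apply']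
      exact (hmono _ _ ih).trans hkey
  have hinv : ∀ n : ℕ, Inv A ((com A)^[n] (⊤ : AddSubgroup M)) := by
    intro n
    induction n with
    | zero => exact fun _ _ _ => AddSubgroup.mem_top _
    | succ n ih => rw [Function.iterate_succ_apply']; exact ih.com
  obtain ⟨_, ⟨n, rfl⟩, hmin⟩ := (wellFounded_lt (α := AddSubgroup M)).has_min
    (Set.range fun n : ℕ => (com A)^[n] (⊤ : AddSubgroup M)) ⟨_, 0, rfl⟩
  have h1 : (com A)^[n] (⊤ : AddSubgroup M) ≤ β.ker := by
    refine h.nil _ _ (hinv n) h.inv_ker (le_sup_left.trans' ?_)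
    by_contra hn
    exact hmin _ ⟨n + 1, Function.iterate_succ_apply' _ _ _⟩
      (lt_of_le_of_ne (hinv n).com_le fun he => hn he.ge)
  have h2 := hall n (hgcn n _ _ h1 (AddSubgroup.mem_top m))
  exact (hpre _ _).mp ((hpre _ _).mp ((hpre _ _).mp ((hpre _ _).mp h2 d) c) b) a

theorem cubic_ab (hβ : ∀ m m', β m m' = 0) {t : M} {Y : AddSubgroup M} (hY : Inv A Y)
    (hTY : ∀ b ∈ AT, xx b t ∈ Y) (a b c : A) : xx a (xx b (xx c t)) ∈ Y :=
  h.cubic hY (fun a m m' => by rw [hβ, map_zero]; exact zero_mem _)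
    (fun a _ m m' => by rw [hβ, map_zero]) (fun a m m' => by rw [hβ, map_zero]; exact zero_mem _)
    (fun _ _ _ _ => hβ _ _) (fun _ _ => by rw [hβ]; exact zero_mem _)
    (fun _ _ => by rw [hβ]; exact zero_mem _) (fun _ _ _ => hβ _ _) hTY
    (xx_mem_com a (xx_mem_com b (xx_mem_dd c t)))

end Ctx

end H35L.JT
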