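import Mathlib
import Cfsg.Agent.Base
import Cfsg.Agent.Lib.Lin35.JMod
import Cfsg.Agent.Lib.Glaub.Baer
import Cfsg.Agent.Lib.Thompson.Basic

/-!
Bounds on the degree of the action of an abelian subgroup of largest order on class two subgroups
(Glauberman, Prime-power factor groups of finite groups).
-/

set_option autoImplicit false
set_option linter.unusedSectionVars false

namespace H35L.JT

open Subgroup Cfsg
open scoped commutatorElement IsMulCommutative

variable {G : Type*} [Group G] [Finite G]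

/-- the group theoretic setting -/
structure St (A T Q : Subgroup G) : Prop where
  odd : Odd (Nat.card Q)
  nilp : Group.IsNilpotent (A ⊔ T : Subgroup G)
  nT : A ≤ normalizer (T : Set G)
  nQ : A ≤ normalizer (Q : Set G)
  QT : Q ≤ T
  c2 : ∀ x y : Q, ⁅x, y⁆ ∈ center Q
  max : ∀ W : Subgroup G, W ≤ A ⊔ T → IsMulCommutative W → Nat.card W ≤ Nat.card A
  min : ∀ W : Subgroup G, W ≤ A ⊔ T → IsMulCommutative W → Nat.card A ≤ Nat.card W →
    W ≤ T ∨ A ≤ W ⊔ T

namespace St

variable {A T Q : Subgroup G} (s : St A T Q)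

/-- the Baer module -/
def M (_ : St A T Q) : Type _ := Q

variable (Q) in
/-- one half -/
noncomputable def hf : ℕ := (Nat.card Q + 1) / 2

include s in
theorem hh (x : Q) : x ^ (2 * hf Q) = x := by
  obtain ⟨k, hk⟩ := s.odd
  have : 2 * hf Q = Nat.card Q + 1 := by rw [hf]; omega
  rw [this, pow_succ, pow_card_eq_one', one_mul]

instance : Finite s.M := inferInstanceAs (Finite Q)

/-- from the group to the module -/
def md (x : Q) : s.M := x

/-- from the module to the group -/
def un (x : s.M) : Q := x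

noncomputable instance : Add s.M := ⟨fun x y => s.md (H88.bmul s.c2 (hf Q) (s.un x) (s.un y))⟩

instance : Zero s.M := ⟨s.md 1⟩

instance : Neg s.M := ⟨fun x => s.md (s.un x)⁻¹⟩

noncomputable instance : AddCommGroup s.M where
  add_assoc := (H88.baer s.c2 (hf Q) s.hh).mul_assoc
  zero_add := (H88.baer s.c2 (hf Q) s.hh).one_mul
  add_zero := (H88.baer s.c2 (hf Q) s.hh).mul_one
  add_comm := (H88.baer s.c2 (hf Q) s.hh).mul_comm
  nsmul n x := s.md (s.un x ^ n)
  nsmul_zero := (H88.baer s.c2 (hf Q) s.hh).npow_zero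
  nsmul_succ := (H88.baer s.c2 (hf Q) s.hh).npow_succ
  zsmul := zsmulRec (fun n x => s.md (s.un x ^ n))
  zsmul_zero' := (H88.baer s.c2 (hf Q) s.hh).npow_zero
  zsmul_succ' := (H88.baer s.c2 (hf Q) s.hh).npow_succ
  neg_add_cancel x := by
    change H88.bmul s.c2 (hf Q) (s.un x)⁻¹ (s.un x) = (1 : Q)
    simp [H88.bmul, H88.ccom_inv_right, H88.ccom_self]

/-- the action -/
def φ : A →* MulAut Q := Q.normalizerMonoidHom.comp (inclusion s.nQ)

theorem φ_coe (a : A) (x : Q) : ((s.φ a x : Q) : G) = a * x * (a : G)⁻¹ := rfl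

noncomputable instance : DistribMulAction A s.M where
  smul a x := s.md (s.φ a (s.un x))
  one_smul x := by
    change s.φ 1 (s.un x) = s.un x
    rw [map_one]; rfl
  mul_smul a b x := by
    change s.φ (a * b) (s.un x) = s.φ a (s.φ b (s.un x))
    rw [map_mul]; rfl
  smul_zero a := map_one (s.φ a)
  smul_add a x y := H88.map_bmul s.c2 (hf Q) (s.φ a).toMonoidHom x y

theorem un_smul (a : A) (x : s.M) : s.un (a • x) = s.φ a (s.un x) := rfl

theorem un_add (x y : s.M) : s.un (x + y) = H88.bmul s.c2 (hf Q) (s.un x) (s.un y) := rfl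

theorem un_neg (x : s.M) : s.un (-x) = (s.un x)⁻¹ := rfl

theorem un_zero : s.un 0 = 1 := rfl

theorem un_nsmul (n : ℕ) (x : s.M) : s.un (n • x) = s.un x ^ n := rfl

theorem un_inj {x y : s.M} (h : s.un x = s.un y) : x = y := h

theorem half (x : s.M) : hf Q • x + hf Q • x = x := by
  rw [← add_nsmul, ← two_mul]
  exact s.hh x

/-- the commutator form -/
noncomputable def β : s.M →+ s.M →+ s.M :=
  AddMonoidHom.mk' (fun x => AddMonoidHom.mk' (fun y => s.md ⁅s.un x, s.un y⁆) fun y z => by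
      apply s.un_inj
      change ((H88.ccom s.c2 (s.un x) (s.un (y + z)) : center Q) : Q) = H88.bmul s.c2 (hf Q)
        (H88.ccom s.c2 (s.un x) (s.un y)) (H88.ccom s.c2 (s.un x) (s.un z))
      rw [H88.bmul_center_right, un_add, H88.bmul, H88.ccom_mul_right, H88.ccom_mul_right,
        H88.ccom_center_right, mul_one, Subgroup.coe_mul])
    fun x y => AddMonoidHom.ext fun z => by
      apply s.un_inj
      change ((H88.ccom s.c2 (s.un (x + y)) (s.un z) : center Q) : Q) = H88.bmul s.c2 (hf Q)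
        (H88.ccom s.c2 (s.un x) (s.un z)) (H88.ccom s.c2 (s.un y) (s.un z))
      rw [H88.bmul_center_right, un_add, H88.bmul, H88.ccom_mul_left, H88.ccom_mul_left,
        H88.ccom_center_left, mul_one, Subgroup.coe_mul]

theorem un_β (x y : s.M) : s.un (s.β x y) = ⁅s.un x, s.un y⁆ := rfl

theorem add_center (x y : s.M) (hy : s.un y ∈ center Q) : s.un (x + y) = s.un x * s.un y :=
  H88.bmul_center_right s.c2 (hf Q) (s.un x) ⟨_, hy⟩

theorem un_mul (x y : s.M) : s.un x * s.un y = s.un (x + y + hf Q • s.β x y) := by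
  rw [s.add_center (x + y) (hf Q • s.β x y) (pow_mem (s.c2 _ _) _), un_add, H88.bmul, un_nsmul, un_β, mul_assoc,
    H88.ccom_inv s.c2 (s.un x)]
  simp [H88.ccom]

theorem β_eq_zero_iff (x y : s.M) : s.β x y = 0 ↔ Commute (s.un x : G) (s.un y : G) := by
  constructor
  · intro h
    have : ⁅s.un x, s.un y⁆ = 1 := congrArg s.un h
    exact congrArg Subtype.val (commutatorElement_eq_one_iff_mul_comm.mp this)
  · intro h
    exact s.un_inj (commutatorElement_eq_one_iff_mul_comm.mpr (Subtype.ext h))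

/-- a subgroup of the group as a subgroup of the module -/
def ofSub (X : Subgroup G) : AddSubgroup s.M where
  carrier := {m | (s.un m : G) ∈ X}
  zero_mem' := X.one_mem
  add_mem' {x y} hx hy := by
    change ((s.un x : G) * s.un y * ⁅(s.un y : G), (s.un x : G)⁆ ^ hf Q) ∈ X
    exact X.mul_mem (X.mul_mem hx hy) (X.pow_mem (X.mul_mem (X.mul_mem (X.mul_mem hy hx)
      (X.inv_mem hy)) (X.inv_mem hx)) _)
  neg_mem' hx := X.inv_mem hx

/-- a subgroup of the module containing the commutators as a subgroup of the group -/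
def toSub (P : AddSubgroup s.M) (hP : ∀ x y, s.β x y ∈ P) : Subgroup G where
  carrier := {g | ∃ m ∈ P, (s.un m : G) = g}
  one_mem' := ⟨0, P.zero_mem, rfl⟩
  mul_mem' := by
    rintro _ _ ⟨x, hx, rfl⟩ ⟨y, hy, rfl⟩
    exact ⟨_, add_mem (add_mem hx hy) (nsmul_mem (hP x y) (hf Q)), by
      rw [← s.un_mul]; rfl⟩
  inv_mem' := by
    rintro _ ⟨x, hx, rfl⟩
    exact ⟨-x, neg_mem hx, rfl⟩

variable [IsMulCommutative A]

theorem commutator_toSub {P P' : AddSubgroup s.M} (hP : ∀ x y, s.β x y ∈ P)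
    (hP' : ∀ x y, s.β x y ∈ P') (h : ∀ (a : A), ∀ m ∈ P, xx a m ∈ P') :
    ⁅s.toSub P hP, A⁆ ≤ s.toSub P' hP' := by
  rw [commutator_le]
  rintro _ ⟨m, hm, rfl⟩ a ha
  refine ⟨m + (⟨a, ha⟩ : A) • (-m) + hf Q • s.β m ((⟨a, ha⟩ : A) • (-m)),
    add_mem ?_ (nsmul_mem (hP' _ _) _), ?_⟩
  · have : m + (⟨a, ha⟩ : A) • (-m) = -xx (⟨a, ha⟩ : A) m := by
      rw [xx_apply, smul_neg]; abel
    rw [this]
    exact neg_mem (h _ m hm)
  · rw [← s.un_mul, Subgroup.coe_mul, un_smul, φ_coe, un_neg, commutatorElement_def]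
    simp [mul_assoc]

theorem xx_mem_ofSub {X Y : Subgroup G} (hQ : Q ≤ normalizer (Y : Set G)) {a : A}
    (h : ∀ x ∈ X, ⁅(a : G), x⁆ ∈ Y) {m : s.M} (hm : m ∈ s.ofSub X) : xx a m ∈ s.ofSub Y := by
  set x : G := ((s.un m : Q) : G) with hx
  have h1 : ⁅(a : G), x⁆ ∈ Y := h _ hm
  rw [xx_apply, sub_eq_add_neg]
  change ((a * x * (a : G)⁻¹) * x⁻¹ * ⁅x⁻¹, a * x * (a : G)⁻¹⁆ ^ hf Q) ∈ Y
  refine Y.mul_mem h1 (Y.pow_mem ?_ _)
  have e : ⁅x⁻¹, a * x * (a : G)⁻¹⁆ = (x⁻¹ * ⁅(a : G), x⁆ * x⁻¹⁻¹) * ⁅(a : G), x⁆⁻¹ := by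
    simp only [commutatorElement_def]; group
  rw [e]
  exact Y.mul_mem ((mem_normalizer_iff.mp (hQ (Q.inv_mem (s.un m).2)) _).mp h1) (Y.inv_mem h1)

theorem mem_fix_iff {m : s.M} : m ∈ fix A s.M ↔ (s.un m : G) ∈ A := by
  constructor
  · intro hm
    have hc : ∀ a ∈ A, a * (s.un m : G) = s.un m * a := fun a ha => by
      have h1 : (⟨a, ha⟩ : A) • m = m := by rw [smul_eq, hm, add_zero]
      have h2 : a * (s.un m : G) * a⁻¹ = s.un m := congrArg (fun y => (s.un y : G)) h1
      exact mul_inv_eq_iff_eq_mul.mp h2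
    have hW : IsMulCommutative (A ⊔ zpowers (s.un m : G) : Subgroup G) :=
      H24.isMulCommutative_sup inferInstance inferInstance (fun a ha x hx => by
        obtain ⟨k, rfl⟩ := hx
        exact ((show Commute a (s.un m : G) from hc a ha).zpow_right k).eq.symm)
    have := eq_of_le_of_card_ge (le_sup_left : A ≤ A ⊔ zpowers (s.un m : G))
      (s.max _ (sup_le_sup_left (zpowers_le.mpr (s.QT (s.un m).2)) _) hW)
    exact this.ge (mem_sup_right (mem_zpowers _))
  · intro hm a
    rw [xx_apply, sub_eq_zero]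
    apply s.un_inj
    apply Subtype.ext
    rw [un_smul, φ_coe, mul_inv_eq_iff_eq_mul]
    exact setLike_mul_comm a.2 hm

theorem card_fix : Nat.card (fix A s.M) = Nat.card (Q.subgroupOf A) :=
  Nat.card_congr
    { toFun := fun m => ⟨⟨s.un m.1, s.mem_fix_iff.mp m.2⟩, (s.un m.1).2⟩
      invFun := fun a => ⟨s.md ⟨a.1, a.2⟩, s.mem_fix_iff.mpr a.1.2⟩
      left_inv := fun _ => rfl
      right_inv := fun _ => rfl }

theorem comm_of {b b' : A} {m m' : s.M}
    (h : m + b • m' + hf Q • s.β m (b • m') = m' + b' • m + hf Q • s.β m' (b' • m)) :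
    ((s.un m : G) * b) * (s.un m' * b') = (s.un m' * b') * (s.un m * b) := by
  have h1 := congrArg (fun y => (s.un y : G)) h
  simp only [← s.un_mul, Subgroup.coe_mul, un_smul, φ_coe] at h1
  have h2 : (b : G) * b' = b' * b := setLike_mul_comm b.2 b'.2
  calc _ = ((s.un m : G) * (b * s.un m' * (b : G)⁻¹)) * (b * b') := by group
    _ = ((s.un m' : G) * (b' * s.un m * (b' : G)⁻¹)) * (b' * b) := by rw [h1, h2]
    _ = _ := by group

theorem exists_ab {B : Subgroup A} {N : AddSubgroup s.M} {μ : A → s.M}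
    (h : Sys (Q.subgroupOf A) s.β B N μ) : ∃ W : Subgroup G, IsMulCommutative W ∧
      W ≤ B.map A.subtype ⊔ T ∧ (∀ b ∈ B, ∃ q ∈ Q, q * b ∈ W) ∧
      Nat.card B * Nat.card N ≤ Nat.card W * Nat.card (fix A s.M) := by
  have anti : ∀ x y, s.β y x = -s.β x y := fun x y => s.un_inj (commutatorElement_inv _ _).symm
  let k : Set G := {g | ∃ n ∈ N, g = s.un n * (1 : A)} ∪ {g | ∃ b ∈ B, g = s.un (-μ b) * b}
  have h12 : ∀ n ∈ N, ∀ b ∈ B, ((s.un (-μ b) : G) * b) * (s.un n * (1 : A)) =
      (s.un n * (1 : A)) * (s.un (-μ b) * b) := fun n hn b hb => s.comm_of (by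
    obtain ⟨e1, e2⟩ := h.s2 b hb n hn
    have := s.half (s.β (μ b) n)
    rw [one_smul, smul_eq b n, map_add, map_neg, AddMonoidHom.neg_apply, AddMonoidHom.neg_apply,
      e2, e1, map_neg, anti (μ b) n, neg_neg, neg_zero, add_zero, smul_neg]
    nth_rewrite 1 [← this]
    abel)
  refine ⟨closure k, isMulCommutative_closure ?_, ?_, fun b hb => ⟨_, (s.un (-μ b)).2,
    subset_closure (Or.inr ⟨b, hb, rfl⟩)⟩, ?_⟩
  · rintro _ (⟨n, hn, rfl⟩ | ⟨b, hb, rfl⟩) _ (⟨n', hn', rfl⟩ | ⟨b', hb', rfl⟩)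
    · exact s.comm_of (by rw [one_smul, one_smul, h.iso n hn n' hn', h.iso n' hn' n hn, add_comm n])
    · exact (h12 n hn b' hb').symm
    · exact h12 n' hn' b hb
    · refine s.comm_of ?_
      obtain ⟨e1, e2⟩ := h.s3 b hb b' hb'
      obtain ⟨-, e3⟩ := h.s3 b' hb' b hb
      have := s.half (s.β (μ b) (μ b'))
      simp only [smul_eq, map_add, map_neg, AddMonoidHom.neg_apply, e2, e3, neg_neg, add_zero,
        neg_zero]
      rw [anti (μ b) (μ b'), smul_neg, eq_add_of_sub_eq e1]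
      nth_rewrite 1 [← this]
      abel
  · rw [closure_le]
    rintro _ (⟨n, -, rfl⟩ | ⟨b, hb, rfl⟩)
    · exact mul_mem (mem_sup_right (s.QT (s.un n).2)) (one_mem _)
    · exact mul_mem (mem_sup_right (s.QT (s.un _).2)) (mem_sup_left ⟨b, hb, rfl⟩)
  · let ψ : (B ⧸ (Q.subgroupOf A).subgroupOf B) × N → closure k := fun x =>
      ⟨(s.un x.2 : G) * (1 : A) * (s.un (-μ x.1.out) * (x.1.out : A)),
        mul_mem (subset_closure (Or.inl ⟨_, x.2.2, rfl⟩))
          (subset_closure (Or.inr ⟨_, x.1.out.2, rfl⟩))⟩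
    have hψ : Function.Injective ψ := by
      rintro ⟨q, n⟩ ⟨q', n'⟩ he
      have he' : (s.un n : G) * (1 : A) * (s.un (-μ q.out) * (q.out : A)) =
        (s.un n' : G) * (1 : A) * (s.un (-μ q'.out) * (q'.out : A)) := congrArg Subtype.val he
      have hq : q = q' := by
        rw [← q.out_eq, ← q'.out_eq]
        refine QuotientGroup.eq.mpr ?_
        rw [mem_subgroupOf, mem_subgroupOf, Subgroup.coe_mul, mul_comm]
        have : ((q'.out : A) : G) * ((q.out : A) : G)⁻¹ = ((s.un (-μ q'.out) : G))⁻¹ *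
            (s.un n' : G)⁻¹ * (s.un n : G) * s.un (-μ q.out) := by
          simp only [OneMemClass.coe_one, mul_one] at he'
          calc _ = ((s.un (-μ q'.out) : G))⁻¹ * (s.un n' : G)⁻¹ * ((s.un n' : G) *
              (s.un (-μ q'.out) * (q'.out : A))) * ((q.out : A) : G)⁻¹ := by group
            _ = _ := by rw [← he']; group
        simp only [Subgroup.coe_mul, Subgroup.coe_inv]
        rw [this]
        exact mul_mem (mul_mem (mul_mem (inv_mem (s.un _).2) (inv_mem (s.un _).2)) (s.un _).2)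
          (s.un _).2
      subst hq
      have := mul_right_cancel (mul_right_cancel he')
      exact Prod.ext rfl (Subtype.ext (s.un_inj (Subtype.ext this)))
    have h1 := Nat.card_le_card_of_injective ψ hψ
    rw [Nat.card_prod] at h1
    rw [card_fix, ← H1.card_mul_relIndex_of_le h.le]
    calc _ = ((Q.subgroupOf A).relIndex B * Nat.card N) * Nat.card (Q.subgroupOf A) := by ring
      _ ≤ _ := Nat.mul_le_mul_right _ h1

theorem ctx : Ctx (T.subgroupOf A) (Q.subgroupOf A) s.β where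
  alt m := s.un_inj (commutatorElement_self _)
  eqv a m m' := s.un_inj (map_commutatorElement (s.φ a) _ _).symm
  cen m m' m'' := s.un_inj (commutatorElement_eq_one_iff_mul_comm.mpr
    (mem_center_iff.mp (s.c2 _ _) _).symm)
  two m hm := by rw [← s.half m, ← smul_add, hm, smul_zero]
  nil N Y _ hY hN := by
    obtain ⟨n, hn⟩ := (isNilpotent_iff_lowerCentralSeries _).mp s.nilp
    have hQ : Q ≤ A ⊔ T := s.QT.trans le_sup_right
    have : ∀ i, N ≤ s.ofSub ((A ⊔ T).lowerCentralSeries i) ⊔ Y := by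
      intro i
      induction i with
      | zero => exact fun m _ => AddSubgroup.mem_sup_left (hQ (s.un m).2)
      | succ i ih =>
        refine hN.trans (sup_le (com_le fun a m hm => ?_) le_sup_right)
        obtain ⟨y, hy, z, hz, rfl⟩ := AddSubgroup.mem_sup.mp (ih hm)
        rw [map_add]
        refine AddSubgroup.add_mem_sup (s.xx_mem_ofSub
          (hQ.trans (self_le_normalizer_lowerCentralSeries _ _)) (fun x hx => ?_) hy) (hY a z hz)
        rw [Subgroup.lowerCentralSeries_succ, commutator_comm]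
        exact commutator_mem_commutator (mem_sup_left a.2) hx
    refine (this n).trans (sup_le (fun m hm => ?_) le_rfl)
    rw [hn] at hm
    rw [show m = 0 from s.un_inj (Subtype.ext (mem_bot.mp hm))]
    exact zero_mem _
  inn a ha := by
    refine ⟨s.md ⟨a, ha⟩, s.mem_fix_iff.mpr a.2, fun m => ?_⟩
    rw [xx_apply, sub_eq_iff_eq_add']
    apply s.un_inj
    rw [s.add_center m (s.β _ m) (s.c2 _ _), un_β, mem_center_iff.mp (s.c2 _ _)]
    apply Subtype.ext
    rw [un_smul, φ_coe]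
    change _ = ⁅(a : G), (s.un m : G)⁆ * s.un m
    simp [commutatorElement_def]
  cc c hc c' hc' := (s.β_eq_zero_iff _ _).mpr
    (setLike_mul_comm (s.mem_fix_iff.mp hc) (s.mem_fix_iff.mp hc'))
  max B N μ h := by
    obtain ⟨W, hW, hle, -, hc⟩ := s.exists_ab h
    exact hc.trans (Nat.mul_le_mul_right _ (s.max W (hle.trans (sup_le_sup_right
      (map_subtype_le B) T)) hW))
  min B N μ h hc' := by
    obtain ⟨W, hW, hle, hq, hc⟩ := s.exists_ab h
    rcases s.min W (hle.trans (sup_le_sup_right (map_subtype_le B) T)) hW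
      (Nat.le_of_mul_le_mul_right (hc'.trans hc) Nat.card_pos) with h1 | h1
    · refine Or.inl fun b hb => ?_
      obtain ⟨q, hq1, hq2⟩ := hq b hb
      exact (T.mul_mem_cancel_left (s.QT hq1)).mp (h1 hq2)
    · refine Or.inr (eq_top_iff.mpr fun a _ => ?_)
      obtain ⟨_, ⟨b, hb, rfl⟩, τ, hτ, he⟩ := (H24.mem_sup_of_le_normalizer
        ((map_subtype_le B).trans s.nT)).mp ((sup_le hle le_sup_right) (h1 a.2))
      have hτA : τ ∈ A := (A.mul_mem_cancel_left b.2).mp (he ▸ a.2)
      rw [show a = b * ⟨τ, hτA⟩ from Subtype.ext he.symm]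
      exact mul_mem (mem_sup_left hb) (mem_sup_right hτ)

theorem iter_le {Y : AddSubgroup s.M} (hY : Inv A Y) (hβ : ∀ x y, s.β x y ∈ Y) (n : ℕ)
    (X : Subgroup G) (hXQ : X ≤ Q) (hX : ∀ m ∈ s.ofSub X, ∀ l : List A, l.length = n →
      l.foldr (fun a y => xx a y) m ∈ Y) : iterCommutator X A n ≤ s.toSub Y hβ := by
  let P : ℕ → AddSubgroup s.M := fun k => ⨅ l : List A, ⨅ _ : l.length = k,
    Y.comap (l.foldr (fun a f => (xx a).comp f) (AddMonoidHom.id _))
  have hl : ∀ (l : List A) (m : s.M), (l.foldr (fun a f => (xx a).comp f) (AddMonoidHom.id _)) m =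
      l.foldr (fun a y => xx a y) m := by
    intro l m
    induction l with
    | nil => rfl
    | cons a l ih => rw [List.foldr_cons, List.foldr_cons, AddMonoidHom.comp_apply, ih]
  have hP : ∀ k m, m ∈ P k ↔ ∀ l : List A, l.length = k → l.foldr (fun a y => xx a y) m ∈ Y := by
    intro k m
    simp only [P, AddSubgroup.mem_iInf, AddSubgroup.mem_comap, hl]
  have hPβ : ∀ k x y, s.β x y ∈ P k := fun k x y => (hP k _).mpr fun l _ => by
    induction l generalizing k with
    | nil => exact hβ x y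
    | cons a l ih => exact hY a _ (ih _ rfl)
  have key : ∀ i k, i + k = n → iterCommutator X A i ≤ s.toSub (P k) (hPβ k) := by
    intro i
    induction i with
    | zero =>
      intro k hk x hx
      exact ⟨s.md ⟨x, hXQ hx⟩, (hP _ _).mpr fun l hl => hX _ hx l (by omega), rfl⟩
    | succ i ih =>
      intro k hk
      refine (commutator_mono (ih (k + 1) (by omega)) le_rfl).trans
        (s.commutator_toSub _ _ fun a m hm => (hP _ _).mpr fun l hl => ?_)
      have := (hP _ _).mp hm (l ++ [a]) (by simp [hl])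
      rwa [List.foldr_append] at this
  rintro _ h
  obtain ⟨m, hm, rfl⟩ := key n 0 rfl h
  exact ⟨m, (hP _ _).mp hm [] rfl, rfl⟩

include s in
theorem quartic (hQT : ⁅T, Q⁆ ≤ centralizer (Q : Set G)) :
    iterCommutator Q A 4 ≤ Q ⊓ centralizer (Q : Set G) := by
  have hk : ∀ m, m ∈ s.β.ker ↔ m ∈ s.ofSub (centralizer (Q : Set G)) := fun m =>
    ⟨fun hm x hx => ((s.β_eq_zero_iff m (s.md ⟨x, hx⟩)).mp (by
      rw [AddMonoidHom.mem_ker.mp hm]; rfl)).symm,
      fun hm => AddMonoidHom.ext fun y => (s.β_eq_zero_iff m y).mpr (hm _ (s.un y).2).symm⟩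
  refine (s.iter_le s.ctx.inv_ker (fun x y => AddMonoidHom.ext (s.ctx.cen x y)) 4 Q le_rfl
    fun m _ l hl => ?_).trans ?_
  · match l, hl with
    | [a, b, c, d], _ =>
      refine s.ctx.quartic (fun b hb m m' => ?_) a b c d m
      have : xx b m ∈ s.β.ker := (hk _).mpr (s.xx_mem_ofSub (X := Q)
        (le_normalizer.trans (H24.normalizer_le_normalizer_centralizer Q))
        (fun x hx => hQT (commutator_mem_commutator hb hx)) (s.un m).2)
      rw [AddMonoidHom.mem_ker.mp this]
      rfl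
  · rintro _ ⟨m, hm, rfl⟩
    exact ⟨(s.un m).2, (hk m).mp hm⟩

include s in
theorem cubic (hQ : Q ≤ centralizer (Q : Set G)) {U V : Subgroup G} (hU : U ≤ Q) [V.Normal]
    (hUV : ⁅T, U⁆ ≤ V) : iterCommutator U A 3 ≤ V := by
  have hβ : ∀ x y, s.β x y = 0 := fun x y =>
    (s.β_eq_zero_iff x y).mpr (hQ (s.un y).2 _ (s.un x).2)
  have hV : Inv A (s.ofSub V) := fun a m hm => s.xx_mem_ofSub le_normalizer_of_normal
    (fun x hx => V.mul_mem (Normal.conj_mem inferInstance x hx a) (V.inv_mem hx)) hm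
  refine (s.iter_le hV (fun x y => by rw [hβ]; exact zero_mem _) 3 U hU fun m hm l hl => ?_).trans ?_
  · match l, hl with
    | [a, b, c], _ =>
      exact s.ctx.cubic_ab hβ hV (fun b hb => s.xx_mem_ofSub le_normalizer_of_normal
        (fun x hx => hUV (commutator_mem_commutator hb hx)) hm) a b c
  · rintro _ ⟨m, hm, rfl⟩
    exact hm

end St

end H35L.JT
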