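import Mathlib
import Cfsg.Agent.Base

/-!
Limits of square zero subspaces of a finite dimensional algebra under a one parameter group
`1 + t y` with `y * y = 0` (after Alperin and Glauberman).
-/

set_option autoImplicit false
set_option linter.unusedSectionVars false

open Polynomial Module

namespace H35L.Lim

variable {F R : Type*} [Field F] [Ring R] [Algebra F R]

/-- polynomials with all coefficients in `A` -/
def PX (A : Submodule F R) : Submodule F R[X] where
  carrier := {q | ∀ i, q.coeff i ∈ A}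
  add_mem' := fun {a b} ha hb i => by rw [coeff_add]; exact A.add_mem (ha i) (hb i)
  zero_mem' := fun i => by rw [coeff_zero]; exact A.zero_mem
  smul_mem' := fun c a ha i => by rw [coeff_smul]; exact A.smul_mem c (ha i)

theorem mem_PX {A : Submodule F R} {q : R[X]} : q ∈ PX A ↔ ∀ i, q.coeff i ∈ A := Iff.rfl

theorem C_mem_PX {A : Submodule F R} {x : R} (hx : x ∈ A) : C x ∈ PX A := by
  intro i
  rw [coeff_C]
  split_ifs
  · exact hx
  · exact A.zero_mem

theorem mul_X_mem_PX {A : Submodule F R} {q : R[X]} (hq : q ∈ PX A) : q * X ∈ PX A := by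
  intro i
  rcases i with _ | i
  · rw [coeff_mul_X_zero]; exact A.zero_mem
  · rw [coeff_mul_X]; exact hq i

/-- conjugation by `1 + t y` -/
noncomputable def TT (y : R) (q : R[X]) : R[X] := (1 + C y * X) * q * (1 - C y * X)

theorem TT_eq (y : R) (q : R[X]) :
    TT y q = q + (C y * q - q * C y) * X - (C y * q * C y) * X * X := by
  have h1 : X * q = q * X := X_mul
  have h2 : X * C y = C y * X := X_mul
  unfold TT
  have e1 : C y * X * q = C y * q * X := by rw [mul_assoc, h1, mul_assoc]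
  have e2 : C y * q * X * (C y * X) = C y * q * C y * X * X := by
    rw [mul_assoc (C y * q) X, ← mul_assoc X, h2]
    simp only [mul_assoc]
  rw [add_mul, one_mul, e1, mul_sub, mul_one, add_mul, e2, sub_mul]
  simp only [mul_assoc]
  abel

theorem TT_add (y : R) (q q' : R[X]) : TT y (q + q') = TT y q + TT y q' := by
  simp only [TT, mul_add, add_mul]

theorem TT_smul (y : R) (c : F) (q : R[X]) : TT y (c • q) = c • TT y q := by
  simp only [TT, mul_smul_comm, smul_mul_assoc]

theorem yX_sq {y : R} (hy : y * y = 0) : C y * X * (C y * X) = (0 : R[X]) := by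
  have h2 : X * C y = C y * X := X_mul
  rw [mul_assoc, ← mul_assoc X, h2, ← mul_assoc, ← mul_assoc, ← C_mul, hy]
  simp

theorem inv1 {y : R} (hy : y * y = 0) : (1 - C y * X) * (1 + C y * X) = (1 : R[X]) := by
  rw [sub_mul, mul_add, mul_add, yX_sq hy]
  simp

theorem inv2 {y : R} (hy : y * y = 0) : (1 + C y * X) * (1 - C y * X) = (1 : R[X]) := by
  rw [add_mul, mul_sub, mul_sub, yX_sq hy]
  simp

theorem TT_mul {y : R} (hy : y * y = 0) (q q' : R[X]) : TT y q * TT y q' = TT y (q * q') := by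
  unfold TT
  have : (1 + C y * X) * q * (1 - C y * X) * ((1 + C y * X) * q' * (1 - C y * X)) =
      (1 + C y * X) * q * ((1 - C y * X) * (1 + C y * X)) * q' * (1 - C y * X) := by
    simp only [mul_assoc]
  rw [this, inv1 hy]
  simp only [mul_assoc, one_mul]

theorem TT_eq_zero {y : R} (hy : y * y = 0) {q : R[X]} (h : TT y q = 0) : q = 0 := by
  have : (1 - C y * X) * TT y q * (1 + C y * X) = q := by
    unfold TT
    have : (1 - C y * X) * ((1 + C y * X) * q * (1 - C y * X)) * (1 + C y * X) =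
        ((1 - C y * X) * (1 + C y * X)) * q * ((1 - C y * X) * (1 + C y * X)) := by
      simp only [mul_assoc]
    rw [this, inv1 hy, one_mul, mul_one]
  rw [← this, h, mul_zero, zero_mul]

theorem natDegree_TT (y : R) (q : R[X]) : (TT y q).natDegree ≤ q.natDegree + 2 := by
  have h1 : (C y * X : R[X]).natDegree ≤ 1 := natDegree_C_mul_le _ _ |>.trans natDegree_X_le
  have h2 : (1 + C y * X : R[X]).natDegree ≤ 1 :=
    (natDegree_add_le _ _).trans (max_le (by simp) h1)
  have h3 : (1 - C y * X : R[X]).natDegree ≤ 1 :=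
    (natDegree_sub_le _ _).trans (max_le (by simp) h1)
  have h4 := natDegree_mul_le (p := (1 + C y * X) * q) (q := (1 - C y * X : R[X]))
  have h5 := natDegree_mul_le (p := (1 + C y * X : R[X])) (q := q)
  unfold TT
  omega

/-- the limit subspace -/
def LL (y : R) (A : Submodule F R) : Submodule F R :=
  Submodule.span F {r | ∃ n, ∃ q ∈ PX A, (TT y q).natDegree ≤ n ∧ (TT y q).coeff n = r}

theorem mem_LL {y : R} {A : Submodule F R} {q : R[X]} (hq : q ∈ PX A) {n : ℕ}
    (hn : (TT y q).natDegree ≤ n) : (TT y q).coeff n ∈ LL y A :=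
  Submodule.subset_span ⟨n, q, hq, hn, rfl⟩

theorem LL_mono (y : R) {A B : Submodule F R} (h : A ≤ B) : LL y A ≤ LL y B := by
  apply Submodule.span_mono
  rintro r ⟨n, q, hq, hn, rfl⟩
  exact ⟨n, q, fun i => h (hq i), hn, rfl⟩

theorem LL_le {y : R} {A S : Submodule F R} (h0 : A ≤ S) (h1 : ∀ x ∈ A, y * x - x * y ∈ S)
    (h2 : ∀ x ∈ A, y * x * y ∈ S) : LL y A ≤ S := by
  rw [LL, Submodule.span_le]
  rintro r ⟨n, q, hq, -, rfl⟩
  have : TT y q ∈ PX S := by
    rw [TT_eq]
    refine (PX S).sub_mem ((PX S).add_mem (fun i => h0 (hq i)) (mul_X_mem_PX fun i => ?_))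
      (mul_X_mem_PX (mul_X_mem_PX fun i => ?_))
    · rw [coeff_sub, coeff_C_mul, coeff_mul_C]; exact h1 _ (hq i)
    · rw [coeff_mul_C, coeff_C_mul]; exact h2 _ (hq i)
  exact this n

theorem LL_mul {y : R} (hy : y * y = 0) {A B : Submodule F R}
    (h : ∀ a ∈ A, ∀ b ∈ B, a * b = 0) : ∀ a ∈ LL y A, ∀ b ∈ LL y B, a * b = 0 := by
  intro a ha b hb
  induction ha using Submodule.span_induction with
  | zero => exact zero_mul _
  | add a a' _ _ h1 h2 => rw [add_mul, h1, h2, add_zero]
  | smul c a _ h1 => rw [smul_mul_assoc, h1, smul_zero]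
  | mem a ha =>
    induction hb using Submodule.span_induction with
    | zero => exact mul_zero _
    | add a a' _ _ h1 h2 => rw [mul_add, h1, h2, add_zero]
    | smul c a _ h1 => rw [mul_smul_comm, h1, smul_zero]
    | mem b hb =>
      obtain ⟨n, q, hq, hn, rfl⟩ := ha
      obtain ⟨n', q', hq', hn', rfl⟩ := hb
      rw [← coeff_mul_add_eq_of_natDegree_le hn hn', TT_mul hy]
      have : q * q' = 0 := by
        ext i
        rw [coeff_mul, coeff_zero]
        exact Finset.sum_eq_zero fun c _ => h _ (hq _) _ (hq' _)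
      rw [this]
      simp [TT]

theorem TT_C (y x : R) :
    TT y (C x) = C x + C (y * x - x * y) * X - C (y * x * y) * X * X := by
  rw [TT_eq]; simp only [map_sub, map_mul]

theorem D2_mem (y : R) {A : Submodule F R} {x : R} (hx : x ∈ A) : y * x * y ∈ LL y A := by
  have h := mem_LL (y := y) (C_mem_PX hx) (n := 2) ((natDegree_TT y _).trans (by simp))
  rw [TT_C] at h
  have e : (C x + C (y * x - x * y) * X - C (y * x * y) * X * X : R[X]).coeff 2 = -(y * x * y) := by
    rw [coeff_sub, coeff_add, coeff_mul_X, coeff_mul_X, coeff_mul_X, coeff_C, coeff_C, coeff_C]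
    simp
  rw [e] at h
  exact (Submodule.neg_mem_iff _).1 h

theorem D1_mem {y : R} (hy : y * y = 0) {A : Submodule F R} {x : R} (hx : x ∈ A)
    (hx2 : y * x * y ∈ A) : y * x - x * y ∈ LL y A := by
  have hq : C x + C (y * x * y) * X * X ∈ PX A :=
    (PX A).add_mem (C_mem_PX hx) (mul_X_mem_PX (mul_X_mem_PX (C_mem_PX hx2)))
  have e : TT y (C x + C (y * x * y) * X * X) = C x + C (y * x - x * y) * X := by
    rw [TT_add, TT_C, TT_eq]
    have h2 : X * C y = C y * X := X_mul
    have e1 : C y * (C (y * x * y) * X * X) = (0 : R[X]) := by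
      rw [← mul_assoc, ← mul_assoc, ← C_mul, ← mul_assoc, ← mul_assoc, hy]; simp
    have e2 : C (y * x * y) * X * X * C y = (0 : R[X]) := by
      rw [mul_assoc, h2, ← mul_assoc, mul_assoc _ X, h2, ← mul_assoc, ← C_mul, mul_assoc _ y y, hy]
      simp
    rw [e1, e2]
    simp
  have hd : (TT y (C x + C (y * x * y) * X * X)).natDegree ≤ 1 := by
    rw [e]
    refine (natDegree_add_le _ _).trans (max_le (by simp) ?_)
    exact natDegree_C_mul_le _ _ |>.trans natDegree_X_le
  have h := mem_LL hq hd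
  rw [e, coeff_add, coeff_mul_X, coeff_C, coeff_C] at h
  simpa using h

universe u in
theorem tri [FiniteDimensional F R] (L : Submodule F R) (n : ℕ) :
    ∀ (V : Type u) [AddCommGroup V] [Module F V] [FiniteDimensional F V] (c : ℕ → V →ₗ[F] R),
      (∀ v, (∀ i < n, c i v = 0) → v = 0) →
      (∀ k < n, ∀ v, (∀ i, k < i → i < n → c i v = 0) → c k v ∈ L) →
      finrank F V ≤ n * finrank F L := by
  induction n with
  | zero =>
    intro V _ _ _ c h0 _
    have : Subsingleton V := subsingleton_of_forall_eq 0 fun v => h0 v (by simp)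
    simp [finrank_zero_of_subsingleton]
  | succ n ih =>
    intro V _ _ _ c h0 h1
    have hr : LinearMap.range (c n) ≤ L := by
      rintro _ ⟨v, rfl⟩
      exact h1 n (by omega) v (fun i h h' => by omega)
    have h2 := LinearMap.finrank_range_add_finrank_ker (c n)
    have h3 := Submodule.finrank_mono hr
    have h4 := ih (LinearMap.ker (c n)) (fun i => (c i).comp (LinearMap.ker (c n)).subtype)
      (fun v hv => Subtype.ext (h0 v.1 fun i hi => by
        rcases Nat.lt_succ_iff_lt_or_eq.1 hi with h | rfl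
        · exact hv i h
        · exact v.2))
      (fun k hk v hv => h1 k (by omega) v.1 fun i h h' => by
        rcases Nat.lt_succ_iff_lt_or_eq.1 h' with h'' | rfl
        · exact hv i h h''
        · exact v.2)
    rw [add_mul, one_mul]
    omega

theorem finrank_le_LL [FiniteDimensional F R] {y : R} (hy : y * y = 0) (A : Submodule F R) :
    finrank F A ≤ finrank F (LL y A) := by
  have key : ∀ m : ℕ, m * finrank F A ≤ (m + 3) * finrank F (LL y A) := by
    intro m
    let emb : (Fin m → A) → R[X] := fun f => ∑ j : Fin m, monomial (j : ℕ) (f j : R)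
    have hco : ∀ f (i : ℕ), (emb f).coeff i = if h : i < m then (f ⟨i, h⟩ : R) else 0 := by
      intro f i
      simp only [emb, finsetSum_coeff, coeff_monomial]
      split_ifs with h
      · rw [Finset.sum_eq_single (⟨i, h⟩ : Fin m)]
        · simp
        · intro b _ hb
          rw [if_neg]
          exact fun e => hb (Fin.ext e)
        · simp
      · refine Finset.sum_eq_zero fun j _ => if_neg fun e : (j : ℕ) = i => h (e ▸ j.2)
    have hP : ∀ f, emb f ∈ PX A := by
      intro f i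
      rw [hco]
      split_ifs
      · exact (f _).2
      · exact A.zero_mem
    have hdeg : ∀ f, (TT y (emb f)).natDegree ≤ m + 2 := by
      intro f
      refine (natDegree_TT y _).trans (Nat.add_le_add_right ?_ 2)
      rw [natDegree_le_iff_coeff_eq_zero]
      intro N hN
      rw [hco, dif_neg (by omega)]
    let c : ℕ → (Fin m → A) →ₗ[F] R := fun i =>
      { toFun := fun f => (TT y (emb f)).coeff i
        map_add' := fun f g => by
          rw [← coeff_add, ← TT_add]
          simp only [emb, Pi.add_apply, Submodule.coe_add, map_add, Finset.sum_add_distrib]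
        map_smul' := fun a f => by
          rw [RingHom.id_apply, ← coeff_smul, ← TT_smul]
          simp only [emb, Pi.smul_apply, Submodule.coe_smul, Finset.smul_sum, smul_monomial] }
    have := tri (LL y A) (m + 3) (Fin m → A) c (fun f hf => ?_) (fun k hk f hf => ?_)
    · rwa [finrank_pi_fintype, Finset.sum_const, Finset.card_univ, Fintype.card_fin,
        smul_eq_mul] at this
    · have h0 : TT y (emb f) = 0 := by
        ext i
        by_cases hi : i < m + 3
        · exact hf i hi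
        · exact coeff_eq_zero_of_natDegree_lt (by have := hdeg f; omega)
      have h1 := TT_eq_zero hy h0
      ext j
      have := hco f j
      rw [h1, dif_pos j.2] at this
      simpa using this.symm
    · refine mem_LL (hP f) ?_
      rw [natDegree_le_iff_coeff_eq_zero]
      intro N hN
      by_cases hi : N < m + 3
      · exact hf N hN hi
      · exact coeff_eq_zero_of_natDegree_lt (by have := hdeg f; omega)
  by_contra hlt
  push Not at hlt
  have := key (3 * finrank F (LL y A) + 1)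
  nlinarith

/-- right annihilator -/
def ann (A : Submodule F R) : Submodule F R where
  carrier := {r | ∀ x ∈ A, x * r = 0}
  add_mem' := fun {a b} ha hb x hx => by rw [mul_add, ha x hx, hb x hx, add_zero]
  zero_mem' := fun x _ => mul_zero x
  smul_mem' := fun c a ha x hx => by rw [mul_smul_comm, ha x hx, smul_zero]

theorem finrank_ann_le [FiniteDimensional F R] {y : R} (hy : y * y = 0) (A : Submodule F R) :
    finrank F (ann A) ≤ finrank F (ann (LL y A)) := by
  refine (finrank_le_LL hy (ann A)).trans (Submodule.finrank_mono ?_)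
  intro r hr x hx
  exact LL_mul hy (A := A) (B := ann A) (fun a ha b hb => hb a ha) x hx r hr

/-- square zero -/
def Sq (A : Submodule F R) : Prop := ∀ x ∈ A, ∀ x' ∈ A, x * x' = 0

/-- `1 + A` normalizes `B` -/
def Nrm (A B : Submodule F R) : Prop := ∀ x ∈ A, ∀ y ∈ B, (1 + x) * y * (1 - x) ∈ B

theorem half_mem (h2 : (2 : F) ≠ 0) {A : Submodule F R} {x : R} (h : x + x ∈ A) : x ∈ A := by
  have : x = (2 : F)⁻¹ • (x + x) := by
    rw [← two_smul F x, smul_smul, inv_mul_cancel₀ h2, one_smul]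
  rw [this]
  exact A.smul_mem _ h

theorem Nrm.comm_mem (h2 : (2 : F) ≠ 0) {A B : Submodule F R} (h : Nrm A B) {x y : R}
    (hx : x ∈ A) (hy : y ∈ B) : x * y - y * x ∈ B := by
  refine half_mem h2 ?_
  have := B.sub_mem (h x hx y hy) (h (-x) (A.neg_mem hx) y hy)
  convert this using 1
  noncomm_ring

theorem sandwich (h2 : (2 : F) ≠ 0) {A B : Submodule F R} (hA : Sq A) (h : Nrm B A) {x x' y : R}
    (hx : x ∈ A) (hx' : x' ∈ A) (hy : y ∈ B) : x * y * x' = 0 := by
  have h1 := hA x hx _ (h.comm_mem h2 hy hx')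
  rw [mul_sub, ← mul_assoc, ← mul_assoc, hA x hx x' hx', zero_mul, sub_zero] at h1
  exact h1

theorem three (h2 : (2 : F) ≠ 0) {A B D : Submodule F R} (S : Submonoid R)
    (hA : Sq A) (hB : Sq B) (hD : Sq D)
    (sA : ∀ x ∈ A, 1 + x ∈ S) (sB : ∀ x ∈ B, 1 + x ∈ S) (sD : ∀ x ∈ D, 1 + x ∈ S)
    (nAB : Nrm A B) (nBA : Nrm B A) (nAD : Nrm A D) (nDA : Nrm D A) (nBD : Nrm B D)
    (nDB : Nrm D B) {z : R} (hz : z ∈ A ⊔ B ⊔ D) (hzz : z * z = 0) : 1 + z ∈ S := by
  obtain ⟨t, ht, w, hw, rfl⟩ := Submodule.mem_sup.1 hz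
  obtain ⟨u, hu, v, hv, rfl⟩ := Submodule.mem_sup.1 ht
  have hh : ∀ {A B : Submodule F R}, Nrm A B → Nrm B A → ∀ x ∈ A, ∀ y ∈ B,
      ∃ a, a ∈ A ∧ a ∈ B ∧ a + a = x * y - y * x := by
    intro A B h h' x hx y hy
    refine ⟨(2 : F)⁻¹ • (x * y - y * x), A.smul_mem _ ?_, B.smul_mem _ (h.comm_mem h2 hx hy), ?_⟩
    · have := A.neg_mem (h'.comm_mem h2 hy hx)
      rwa [neg_sub] at this
    · rw [← two_smul F, smul_smul, mul_inv_cancel₀ h2, one_smul]
  obtain ⟨a, aA, aB, ha⟩ := hh nAB nBA u hu v hv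
  obtain ⟨b, bA, bD, hb⟩ := hh nAD nDA u hu w hw
  obtain ⟨c, cB, cD, hc⟩ := hh nBD nDB v hv w hw
  have uu := hA u hu u hu
  have vv := hB v hv v hv
  have ww := hD w hw w hw
  have uvu := sandwich h2 hA nBA hu hu hv
  have uwu := sandwich h2 hA nDA hu hu hw
  have vuv := sandwich h2 hB nAB hv hv hu
  have vwv := sandwich h2 hB nDB hv hv hw
  have wuw := sandwich h2 hD nAD hw hw hu
  have wvw := sandwich h2 hD nBD hw hw hv
  have hq : u * v + v * u + u * w + w * u + v * w + w * v = 0 := by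
    have : (u + v + w) * (u + v + w) =
        u * u + v * v + w * w + (u * v + v * u + u * w + w * u + v * w + w * v) := by noncomm_ring
    rw [hzz, uu, vv, ww] at this
    simpa using this.symm
  have hs : a + b + c = u * v + u * w + v * w := by
    have h1 : (a + b + c - (u * v + u * w + v * w)) + (a + b + c - (u * v + u * w + v * w)) ∈
        (⊥ : Submodule F R) := by
      rw [Submodule.mem_bot]
      have : (a + b + c - (u * v + u * w + v * w)) + (a + b + c - (u * v + u * w + v * w)) =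
          (a + a) + (b + b) + (c + c) - (u * v + u * w + v * w) - (u * v + u * w + v * w) := by
        abel
      rw [this, ha, hb, hc, ← neg_eq_zero, ← hq]
      abel
    have := half_mem h2 h1
    rwa [Submodule.mem_bot, sub_eq_zero] at this
  have k1 : u * w * v + w * u * v = 0 := by
    have : (u * v + v * u + u * w + w * u + v * w + w * v) * v =
        u * (v * v) + v * u * v + v * w * v + w * (v * v) + (u * w * v + w * u * v) := by
      noncomm_ring
    rw [hq, vv, vuv, vwv] at this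
    simpa using this.symm
  have k2 : u * v * w + v * u * w = 0 := by
    have : (u * v + v * u + u * w + w * u + v * w + w * v) * w =
        u * (w * w) + w * u * w + w * v * w + v * (w * w) + (u * v * w + v * u * w) := by
      noncomm_ring
    rw [hq, ww, wuw, wvw] at this
    simpa using this.symm
  have k3 : u * v * w + u * w * v = 0 := by
    have : u * (u * v + v * u + u * w + w * u + v * w + w * v) =
        u * u * v + u * v * u + u * u * w + u * w * u + (u * v * w + u * w * v) := by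
      noncomm_ring
    rw [hq, uu, uvu, uwu] at this
    simpa using this.symm
  have k4 : v * u * w + w * u * v = 0 := by
    have : v * u * w + w * u * v =
        (u * v * w + v * u * w) + (u * w * v + w * u * v) - (u * v * w + u * w * v) := by abel
    rw [this, k1, k2, k3]; simp
  have e1 : (1 + -a) * (1 + -b) * (1 + -c) = 1 - (a + b + c) := by
    have : (1 + -a) * (1 + -b) * (1 + -c) =
        1 - (a + b + c) + a * b + a * c + b * c - a * b * c := by noncomm_ring
    rw [this, hA a aA b bA, hB a aB c cB, hD b bD c cD]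
    simp
  have e2 : (a + b + c) * (a + b + c) = 0 := by
    simp only [mul_add, add_mul, hA a aA b bA, hB a aB c cB, hD b bD c cD, hA a aA a aA,
      hA b bA b bA, hA b bA a aA, hB c cB a aB, hB c cB c cB, hD c cD b bD, add_zero]
  have e3 : u * v * w * (a + b + c) = 0 := by
    have : u * v * w * (a + b + c) = u * (v * w * a) + u * v * (w * b) + u * v * (w * c) := by
      noncomm_ring
    rw [this, sandwich h2 hB nDB hv aB hw, hD w hw b bD, hD w hw c cD]
    simp
  have e4 : (u + v + w) * (a + b + c) = u * v * w := by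
    have : (u + v + w) * (u * v + u * w + v * w) = u * v * w + (v * u * w + w * u * v) +
        u * u * v + u * u * w + v * u * v + v * v * w + w * u * w + w * v * w := by noncomm_ring
    rw [hs, this, k4, uu, vv, vuv, wuw, wvw]
    simp
  have e5 : (1 + u) * (1 + v) * (1 + w) = 1 + (u + v + w) + (a + b + c) + u * v * w := by
    rw [hs]; noncomm_ring
  have e6 : 1 + (u + v + w) = (1 + u) * (1 + v) * (1 + w) * ((1 + -a) * (1 + -b) * (1 + -c)) := by
    rw [e1, e5, mul_sub, mul_one, add_mul, add_mul, add_mul, e2, e3, e4]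
    simp
  rw [e6]
  exact S.mul_mem (S.mul_mem (S.mul_mem (sA u hu) (sB v hv)) (sD w hw))
    (S.mul_mem (S.mul_mem (sA _ (A.neg_mem aA)) (sA _ (A.neg_mem bA))) (sB _ (B.neg_mem cB)))

/-- rigidity: if the limit does not increase any step of the filtration, the space is stable -/
theorem stable [FiniteDimensional F R] {y : R} (hy : y * y = 0) (A : Submodule F R)
    (Fl : ℕ → Submodule F R) (N : ℕ) (h0 : Fl 0 = ⊤) (hN : Fl N = ⊥)
    (hanti : ∀ k, Fl (k + 1) ≤ Fl k)
    (hl : ∀ k, ∀ r ∈ Fl k, y * r ∈ Fl (k + 1)) (hr : ∀ k, ∀ r ∈ Fl k, r * y ∈ Fl (k + 1))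
    (hsum : ∑ k ∈ Finset.range (N + 1), finrank F (LL y A ⊓ Fl k : Submodule F R) ≤
      ∑ k ∈ Finset.range (N + 1), finrank F (A ⊓ Fl k : Submodule F R)) :
    ∀ x ∈ A, y * x - x * y ∈ A ∧ y * x * y ∈ A := by
  have d1 : ∀ k, ∀ r ∈ Fl k, y * r - r * y ∈ Fl (k + 1) := fun k r h =>
    (Fl (k + 1)).sub_mem (hl k r h) (hr k r h)
  have d2 : ∀ k, ∀ r ∈ Fl k, y * r * y ∈ Fl (k + 1) := fun k r h =>
    hanti _ (hr _ _ (hl k r h))
  have hsub : ∀ k, LL y (A ⊓ Fl k) ≤ LL y A ⊓ Fl k := fun k =>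
    le_inf (LL_mono y inf_le_left) (LL_le inf_le_right (fun x hx => hanti k (d1 k x hx.2))
      (fun x hx => hanti k (d2 k x hx.2)))
  have hle : ∀ k, finrank F (A ⊓ Fl k : Submodule F R) ≤
      finrank F (LL y A ⊓ Fl k : Submodule F R) := fun k =>
    (finrank_le_LL hy _).trans (Submodule.finrank_mono (hsub k))
  have heq : ∀ k ≤ N, finrank F (A ⊓ Fl k : Submodule F R) =
      finrank F (LL y A ⊓ Fl k : Submodule F R) := by
    intro k hk
    have := (Finset.sum_eq_sum_iff_of_le (s := Finset.range (N + 1)) (fun k _ => hle k)).1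
      (le_antisymm (Finset.sum_le_sum fun k _ => hle k) hsum)
    exact this k (Finset.mem_range.2 (by omega))
  have key : ∀ k ≤ N, ∀ x ∈ A ⊓ Fl k, y * x - x * y ∈ A ∧ y * x * y ∈ A := by
    intro k hk
    induction hk using Nat.decreasingInduction with
    | self =>
      intro x hx
      have h5 : x ∈ Fl N := hx.2
      have : x = 0 := by rwa [hN, Submodule.mem_bot] at h5
      simp [this]
    | of_succ k hk ih =>
      have h1 : LL y (A ⊓ Fl (k + 1)) ≤ A ⊓ Fl (k + 1) :=
        LL_le le_rfl (fun x hx => ⟨(ih x hx).1, hanti _ (d1 _ x hx.2)⟩)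
          (fun x hx => ⟨(ih x hx).2, hanti _ (d2 _ x hx.2)⟩)
      have h2 : LL y (A ⊓ Fl (k + 1)) = A ⊓ Fl (k + 1) :=
        Submodule.eq_of_le_of_finrank_le h1 (finrank_le_LL hy _)
      have h3 : A ⊓ Fl (k + 1) = LL y A ⊓ Fl (k + 1) :=
        Submodule.eq_of_le_of_finrank_le (h2 ▸ hsub (k + 1)) (heq (k + 1) hk).ge
      intro x hx
      have h4 : y * x * y ∈ A := by
        have : y * x * y ∈ A ⊓ Fl (k + 1) := by
          rw [h3]; exact ⟨D2_mem y hx.1, d2 k x hx.2⟩
        exact this.1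
      refine ⟨?_, h4⟩
      have : y * x - x * y ∈ A ⊓ Fl (k + 1) := by
        rw [h3]; exact ⟨D1_mem hy hx.1 h4, d1 k x hx.2⟩
      exact this.1
  intro x hx
  exact key 0 (Nat.zero_le _) x ⟨hx, by rw [h0]; trivial⟩

theorem chain {G : Type*} [Group G] [Finite G] [Group.IsNilpotent G] (A : Subgroup G)
    (h : ∀ d : G, (∃ g, ∃ a ∈ A, d = g * a * g⁻¹) →
      (∀ n : ℤ, ∀ a ∈ A, d ^ n * a * (d ^ n)⁻¹ ∈ Subgroup.normalizer (A : Set G)) →
      d ∈ Subgroup.normalizer (A : Set G)) :
    ∀ g, ∀ a ∈ A, g * a * g⁻¹ ∈ Subgroup.normalizer (A : Set G) := by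
  let P : Set (Subgroup G) := {J | A ≤ J ∧ ∀ d ∈ J, (∃ g, ∃ a ∈ A, d = g * a * g⁻¹) →
    d ∈ Subgroup.normalizer (A : Set G)}
  have hA : A ∈ P := ⟨le_rfl, fun d hd _ => Subgroup.le_normalizer hd⟩
  obtain ⟨M, hM, hmax⟩ := Set.exists_max_image P (fun J => Nat.card J) (Set.toFinite _) ⟨A, hA⟩
  have hN : Subgroup.normalizer (M : Set G) ∈ P := by
    refine ⟨hM.1.trans Subgroup.le_normalizer, fun d hd hc => h d hc fun n a ha => ?_⟩
    refine hM.2 _ ?_ ⟨_, a, ha, rfl⟩
    exact (Subgroup.mem_normalizer_iff.1 (Subgroup.zpow_mem _ hd n) a).1 (hM.1 ha)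
  have hMN : M = Subgroup.normalizer (M : Set G) :=
    Subgroup.eq_of_le_of_card_ge Subgroup.le_normalizer (hmax _ hN)
  have htop : M = ⊤ := by
    by_contra hne
    have := Group.normalizerCondition_of_isNilpotent (G := G) M (lt_top_iff_ne_top.2 hne)
    exact this.ne hMN
  intro g a ha
  exact hM.2 _ (htop ▸ Subgroup.mem_top _) ⟨g, a, ha, rfl⟩

section Grp

variable {G : Type*} [Group G] (ρ : G →* R)

theorem rho_inv {g : G} {x : R} (hx : x * x = 0) (h : ρ g = 1 + x) : ρ g⁻¹ = 1 - x := by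
  have h1 : ρ g⁻¹ * ρ g = 1 := by rw [← map_mul, inv_mul_cancel, map_one]
  have h2 : ρ g * (1 - x) = 1 := by rw [h, add_mul, mul_sub, mul_sub, hx]; simp
  calc ρ g⁻¹ = ρ g⁻¹ * (ρ g * (1 - x)) := by rw [h2, mul_one]
    _ = 1 - x := by rw [← mul_assoc, h1, one_mul]

/-- the subgroup `1 + A` -/
def grp (A : Submodule F R) (hA : Sq A) : Subgroup G where
  carrier := {g | ρ g - 1 ∈ A}
  one_mem' := by simp
  mul_mem' := fun {a b} ha hb => by
    have h := hA _ ha _ hb
    have : ρ (a * b) - 1 = (ρ a - 1) + (ρ b - 1) + (ρ a - 1) * (ρ b - 1) := by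
      rw [map_mul]; noncomm_ring
    show ρ (a * b) - 1 ∈ A
    rw [this, h, add_zero]
    exact A.add_mem ha hb
  inv_mem' := fun {a} ha => by
    show ρ a⁻¹ - 1 ∈ A
    rw [rho_inv ρ (hA _ ha _ ha) (g := a) (by simp)]
    simpa using A.neg_mem ha

theorem mem_grp {A : Submodule F R} {hA : Sq A} {g : G} : g ∈ grp ρ A hA ↔ ρ g - 1 ∈ A := Iff.rfl

/-- conjugation -/
def cj (g : G) : R →ₗ[F] R where
  toFun r := ρ g * r * ρ g⁻¹
  map_add' a b := by rw [mul_add, add_mul]
  map_smul' c a := by rw [mul_smul_comm, smul_mul_assoc, RingHom.id_apply]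

theorem cj_apply (g : G) (r : R) : cj (F := F) ρ g r = ρ g * r * ρ g⁻¹ := rfl

theorem cj_rho (g a : G) : cj (F := F) ρ g (ρ a - 1) = ρ (g * a * g⁻¹) - 1 := by
  rw [cj_apply, mul_sub, sub_mul, mul_one, ← map_mul, ← map_mul, ← map_mul, mul_inv_cancel,
    map_one]

theorem cj_mul (g : G) (r s : R) :
    cj (F := F) ρ g r * cj (F := F) ρ g s = cj (F := F) ρ g (r * s) := by
  simp only [cj_apply]
  have : ρ g * r * ρ g⁻¹ * (ρ g * s * ρ g⁻¹) = ρ g * r * (ρ g⁻¹ * ρ g) * s * ρ g⁻¹ := by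
    simp only [mul_assoc]
  rw [this, ← map_mul, inv_mul_cancel, map_one]
  simp only [mul_one, mul_assoc]

/-- the subspaces under consideration -/
structure Good (a b : ℕ) (A : Submodule F R) : Prop where
  sq : Sq A
  mem : ∀ x ∈ A, ∃ g, ρ g = 1 + x
  dim : a ≤ finrank F A
  codim : b ≤ finrank F (ann A)

theorem nrm_map {A : Submodule F R} (hA : Sq A) (hm : ∀ x ∈ A, ∃ g, ρ g = 1 + x) (g h : G)
    (hn : ∀ a ∈ grp ρ A hA, (h⁻¹ * g) * a * (h⁻¹ * g)⁻¹ ∈
      Subgroup.normalizer (grp ρ A hA : Set G)) :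
    Nrm (A.map (cj ρ g)) (A.map (cj ρ h)) := by
  rintro _ ⟨x, hx, rfl⟩ _ ⟨y, hy, rfl⟩
  obtain ⟨a, ha⟩ := hm x hx
  obtain ⟨b, hb⟩ := hm y hy
  have ex : x = ρ a - 1 := by rw [ha]; simp
  have ey : y = ρ b - 1 := by rw [hb]; simp
  have ha' : a ∈ grp ρ A hA := by rw [mem_grp, ← ex]; exact hx
  have hb' : b ∈ grp ρ A hA := by rw [mem_grp, ← ey]; exact hy
  have h1 := (Subgroup.mem_normalizer_iff.1 (hn a ha') b).1 hb'
  refine ⟨_, h1, ?_⟩
  have e1 : ρ (g * a * g⁻¹) = 1 + cj (F := F) ρ g x := by rw [ex, cj_rho]; simp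
  have e2 : ρ (g * a * g⁻¹)⁻¹ = 1 - cj (F := F) ρ g x :=
    rho_inv ρ (by rw [cj_mul, hA x hx x hx, map_zero]) e1
  rw [← e1, ← e2, ey, cj_rho, cj_rho, ← cj_apply (F := F), cj_rho]
  congr 2
  group

theorem good_LL [FiniteDimensional F R] (h2 : (2 : F) ≠ 0) {a b : ℕ} {A : Submodule F R}
    (hA : Good ρ a b A) {d : G} {y : R} (hy : y * y = 0) (hd : ρ d = 1 + y)
    (hn : ∀ n : ℤ, ∀ a ∈ grp ρ A hA.sq, d ^ n * a * (d ^ n)⁻¹ ∈
      Subgroup.normalizer (grp ρ A hA.sq : Set G)) : Good ρ a b (LL y A) := by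
  have hsq : Sq (LL y A) := LL_mul hy hA.sq
  refine ⟨hsq, fun z hz => ?_, hA.dim.trans (finrank_le_LL hy A),
    hA.codim.trans (finrank_ann_le hy A)⟩
  have hd' := rho_inv ρ hy hd
  have sq : ∀ g : G, Sq (A.map (cj ρ g)) := by
    rintro g _ ⟨x, hx, rfl⟩ _ ⟨x', hx', rfl⟩
    rw [cj_mul, hA.sq x hx x' hx', map_zero]
  have mem : ∀ g : G, ∀ x ∈ A.map (cj ρ g), 1 + x ∈ MonoidHom.mrange ρ := by
    rintro g _ ⟨x, hx, rfl⟩
    obtain ⟨a, ha⟩ := hA.mem x hx
    have ex : x = ρ a - 1 := by rw [ha]; simp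
    exact ⟨g * a * g⁻¹, by rw [ex, cj_rho]; simp⟩
  have nr : ∀ i k : ℤ, Nrm (A.map (cj ρ (d ^ i))) (A.map (cj ρ (d ^ k))) := by
    intro i k
    refine nrm_map ρ hA.sq hA.mem _ _ fun a ha => ?_
    have := hn (-k + i) a ha
    rwa [zpow_add, zpow_neg] at this
  have hle : LL y A ≤ A.map (cj ρ (d ^ (0 : ℤ))) ⊔ A.map (cj ρ (d ^ (1 : ℤ))) ⊔
      A.map (cj ρ (d ^ (-1 : ℤ))) := by
    set S := A.map (cj ρ (d ^ (0 : ℤ))) ⊔ A.map (cj ρ (d ^ (1 : ℤ))) ⊔
      A.map (cj ρ (d ^ (-1 : ℤ))) with hS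
    have m0 : ∀ x ∈ A, x ∈ S := fun x hx =>
      Submodule.mem_sup_left (Submodule.mem_sup_left ⟨x, hx, by simp [cj_apply]⟩)
    have m1 : ∀ x ∈ A, (1 + y) * x * (1 - y) ∈ S := fun x hx =>
      Submodule.mem_sup_left (Submodule.mem_sup_right ⟨x, hx, by
        rw [cj_apply, zpow_one, hd, hd']⟩)
    have m2 : ∀ x ∈ A, (1 - y) * x * (1 + y) ∈ S := fun x hx =>
      Submodule.mem_sup_right ⟨x, hx, by
        rw [cj_apply, zpow_neg_one, inv_inv, hd, hd']⟩
    refine LL_le m0 (fun x hx => half_mem h2 ?_) (fun x hx => half_mem h2 ?_)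
    · convert S.sub_mem (m1 x hx) (m2 x hx) using 1
      noncomm_ring
    · convert S.sub_mem (S.add_mem (m0 x hx) (m0 x hx)) (S.add_mem (m1 x hx) (m2 x hx)) using 1
      noncomm_ring
  obtain ⟨g, hg⟩ := three h2 (MonoidHom.mrange ρ) (sq _) (sq _) (sq _) (mem _) (mem _) (mem _)
    (nr _ _) (nr _ _) (nr _ _) (nr _ _) (nr _ _) (nr _ _) (hle hz) (hsq z hz z hz)
  exact ⟨g, hg⟩

theorem main [Finite R] [Finite G] [Group.IsNilpotent G] (h2 : (2 : F) ≠ 0)
    (Fl : ℕ → Submodule F R) (N : ℕ) (h0 : Fl 0 = ⊤) (hN : Fl N = ⊥)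
    (hanti : ∀ k, Fl (k + 1) ≤ Fl k)
    (hl : ∀ g k, ∀ r ∈ Fl k, (ρ g - 1) * r ∈ Fl (k + 1))
    (hr : ∀ g k, ∀ r ∈ Fl k, r * (ρ g - 1) ∈ Fl (k + 1)) {a b : ℕ} {A₀ : Submodule F R}
    (hA₀ : Good ρ a b A₀) :
    ∃ (A : Submodule F R) (hA : Good ρ a b A), ∀ g, ∀ x ∈ grp ρ A hA.sq,
      g * x * g⁻¹ ∈ Subgroup.normalizer (grp ρ A hA.sq : Set G) := by
  have : Finite (Submodule F R) := Finite.of_injective _ SetLike.coe_injective
  obtain ⟨A, hA, hmax⟩ := Set.exists_max_image {A : Submodule F R | Good ρ a b A}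
    (fun A => ∑ k ∈ Finset.range (N + 1), finrank F (A ⊓ Fl k : Submodule F R))
    (Set.toFinite _) ⟨A₀, hA₀⟩
  refine ⟨A, hA, chain _ ?_⟩
  rintro d ⟨g, x, hx, hdx⟩ hn
  have hy : (ρ d - 1) * (ρ d - 1) = 0 := by
    rw [hdx, ← cj_rho (F := F), cj_mul, hA.sq _ hx _ hx, map_zero]
  have hd : ρ d = 1 + (ρ d - 1) := by simp
  have hL := good_LL ρ h2 hA hy hd hn
  have hst := stable hy A Fl N h0 hN hanti (hl d) (hr d) (hmax _ hL)
  refine Subgroup.mem_normalizer_fintype fun c hc => ?_
  have hc' : ρ c - 1 ∈ A := hc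
  show ρ (d * c * d⁻¹) - 1 ∈ A
  rw [← cj_rho (F := F), cj_apply, rho_inv ρ hy hd]
  obtain ⟨h3, h4⟩ := hst _ hc'
  generalize ρ c - 1 = s at *
  rw [hd]
  generalize ρ d - 1 = y at *
  convert A.sub_mem (A.add_mem hc' h3) h4 using 1
  noncomm_ring

end Grp

section Mod

variable {W : Type*} [AddCommGroup W] [Module F W]

/-- common kernel -/
def kk (A : Submodule F (End F W)) : Submodule F W where
  carrier := {w | ∀ x ∈ A, x w = 0}
  add_mem' := fun {a b} ha hb x hx => by rw [map_add, ha x hx, hb x hx, add_zero]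
  zero_mem' := fun x _ => map_zero x
  smul_mem' := fun c a ha x hx => by rw [map_smul, ha x hx, smul_zero]

theorem finrank_ann [FiniteDimensional F W] (A : Submodule F (End F W)) :
    finrank F (ann A) = finrank F W * finrank F (kk A) := by
  let Ψ : (W →ₗ[F] kk A) →ₗ[F] End F W := LinearMap.llcomp F W (kk A) W (kk A).subtype
  have hΨ : ∀ f w, Ψ f w = (f w : W) := fun _ _ => rfl
  have hinj : Function.Injective Ψ := by
    intro f g h
    ext w
    rw [← hΨ, ← hΨ, h]
  have hr : LinearMap.range Ψ = ann A := by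
    ext r
    constructor
    · rintro ⟨f, rfl⟩ x hx
      ext w
      exact (f w).2 x hx
    · intro hr
      refine ⟨LinearMap.codRestrict (kk A) r fun w x hx => ?_, ?_⟩
      · exact LinearMap.congr_fun (hr x hx) w
      · ext w; rfl
  rw [← hr, LinearMap.finrank_range_of_inj hinj, finrank_linearMap]

/-- the filtration of the endomorphism ring -/
def fil (U : ℕ → Submodule F W) (m k : ℕ) : Submodule F (End F W) where
  carrier := {r | ∀ i j, i + m ≤ j + k → ∀ w ∈ U i, r w ∈ U j}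
  add_mem' := fun {a b} ha hb i j h w hw => (U j).add_mem (ha i j h w hw) (hb i j h w hw)
  zero_mem' := fun _ j _ _ _ => (U j).zero_mem
  smul_mem' := fun c _ ha i j h w hw => (U j).smul_mem c (ha i j h w hw)

theorem main_mod {G : Type*} [Group G] [Finite G] [Group.IsNilpotent G] [Finite W]
    (ρ : G →* End F W) (h2 : (2 : F) ≠ 0) (U : ℕ → Submodule F W) (m : ℕ) (h0 : U 0 = ⊥)
    (hm : ∀ j, m ≤ j → U j = ⊤) (hU : ∀ g i, ∀ w ∈ U (i + 1), ρ g w - w ∈ U i)
    (A₀ : Submodule F (End F W)) (hsq : Sq A₀) (hmem : ∀ x ∈ A₀, ∃ g, ρ g = 1 + x) :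
    ∃ (A : Submodule F (End F W)) (hA : Sq A), (∀ x ∈ A, ∃ g, ρ g = 1 + x) ∧
      finrank F A₀ ≤ finrank F A ∧
      finrank F W * finrank F (kk A₀) ≤ finrank F W * finrank F (kk A) ∧
      ∀ g, ∀ x ∈ grp ρ A hA, g * x * g⁻¹ ∈ Subgroup.normalizer (grp ρ A hA : Set G) := by
  have : Finite (End F W) := Finite.of_injective _ DFunLike.coe_injective
  refine (main ρ h2 (fil U m) (m + m) ?_ ?_ ?_ ?_ ?_
    (⟨hsq, hmem, le_rfl, le_rfl⟩ : Good ρ _ _ A₀)).elim ?_
  rotate_right
  · rintro A ⟨hA, h⟩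
    refine ⟨A, hA.sq, hA.mem, hA.dim, ?_, h⟩
    rw [← finrank_ann, ← finrank_ann]
    exact hA.codim
  · rw [eq_top_iff]
    intro r _ i j hij w _
    rw [hm j (by omega)]
    trivial
  · rw [eq_bot_iff]
    intro r hr
    rw [Submodule.mem_bot]
    ext w
    have := hr m 0 (by omega) w (by rw [hm m le_rfl]; trivial)
    rwa [h0, Submodule.mem_bot] at this
  · intro k r hr i j hij
    exact hr i j (by omega)
  · intro g k r hr i j hij w hw
    exact hU g j _ (hr i (j + 1) (by omega) w hw)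
  · intro g k r hr i j hij w hw
    rcases i with _ | i
    · rw [h0, Submodule.mem_bot] at hw
      rw [hw, map_zero]
      exact (U j).zero_mem
    · exact hr i j (by omega) _ (hU g i w hw)

end Mod

end H35L.Lim
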