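import Mathlib
import Cfsg.Agent.Base
import Cfsg.Agent.Lib.H81.Yoshida

/-! Tate's transfer theorem for groups (proof of Gagola and Isaacs). -/

set_option autoImplicit false

namespace H35L

open Subgroup Cfsg H81
open scoped IsMulCommutative

/-- **Tate's theorem**: control of the focal subgroup gives control of the largest `p`-quotient. -/
theorem tate_group {G : Type*} [Group G] [Finite G] {p : ℕ} [hp : Fact p.Prime]
    (S : Sylow p G) {H : Subgroup G} (hSH : (S : Subgroup G) ≤ H)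
    (hfoc : (S : Subgroup G) ⊓ commutator G ≤ ⁅H, H⁆) :
    pResidualOf p H = pResidual p G ⊓ H := by
  classical
  by_contra hne
  have := H4.pResidual_normal p G
  have := H4.pResidual_normal p H
  have := Fintype.ofFinite (G ⧸ H)
  obtain ⟨r, hr, hr0⟩ := exists_section (H := H) (G0 := pResidual p G)
    (H4.exists_pResidual_mul (H4.coprime_index_of_sylow_le S hSH))
  have hX : IsPGroup p (H ⧸ pResidual p H) := H4.isPGroup_quotient_pResidual
  let N : Subgroup (H ⧸ pResidual p H) :=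
    ((pResidual p G).subgroupOf H).map (QuotientGroup.mk' _)
  have hNn : N.Normal := Normal.map inferInstance _ (QuotientGroup.mk'_surjective _)
  have hN : ⊥ < N := by
    rw [bot_lt_iff_ne_bot]
    intro h
    apply hne
    refine le_antisymm (le_inf (H4.map_subtype_pResidual_le H) (map_subtype_le _)) ?_
    intro x hx
    have : QuotientGroup.mk' _ (⟨x, hx.2⟩ : H) ∈ N := ⟨_, hx.1, rfl⟩
    rw [h, mem_bot] at this
    exact ⟨_, (QuotientGroup.eq_one_iff _).1 this, rfl⟩
  obtain ⟨M, hM1, -, hM2, hM3, hM4⟩ := H5.exists_normal_cocover hX hN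
  let φ : H →* (H ⧸ pResidual p H) ⧸ M := (QuotientGroup.mk' M).comp (QuotientGroup.mk' _)
  let Z := N.map (QuotientGroup.mk' M)
  have hZc : ∀ a ∈ Z, ∀ g, g * a * g⁻¹ = a := by
    rintro _ ⟨a, ha, rfl⟩ g
    obtain ⟨g, rfl⟩ := QuotientGroup.mk_surjective g
    have := (QuotientGroup.eq_one_iff _).2 (hM4 (commutator_mem_commutator ha (mem_top g)))
    simp only [commutatorElement_def, QuotientGroup.mk_mul, QuotientGroup.mk_inv] at this
    rw [mul_inv_eq_one, mul_inv_eq_iff_eq_mul] at this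
    rw [QuotientGroup.mk'_apply, ← this, mul_inv_cancel_right]
  have hZcomm : IsMulCommutative Z :=
    ⟨⟨fun a b => Subtype.ext (mul_inv_eq_iff_eq_mul.1 (hZc _ b.2 a))⟩⟩
  have hZcard : Nat.card Z = p := by
    have h1 := H1.card_map_mk'_mul M N
    rw [inf_eq_left.2 hM2, hM3, mul_comm] at h1
    exact Nat.eq_of_mul_eq_mul_left Nat.card_pos h1
  have hE : ∀ e : Z, e ^ p = 1 := fun e => by
    have := pow_card_eq_one' (x := e)
    rwa [hZcard] at this
  let l : G → Z := fun g => if h : g ∈ H ∧ g ∈ pResidual p G then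
    ⟨φ ⟨g, h.1⟩, ⟨_, ⟨_, h.2, rfl⟩, rfl⟩⟩ else 1
  have hl : ∀ (g : H), (g : G) ∈ pResidual p G → (l g : (H ⧸ pResidual p H) ⧸ M) = φ g :=
    fun g hg => by simp only [l, dif_pos (And.intro g.2 hg)]
  have hmul : ∀ a ∈ H, a ∈ pResidual p G → ∀ b ∈ H, b ∈ pResidual p G →
      l (a * b) = l a * l b := by
    intro a ha ha0 b hb hb0
    apply Subtype.ext
    rw [coe_mul, hl ⟨a, ha⟩ ha0, hl ⟨b, hb⟩ hb0, ← map_mul]
    exact hl (⟨a, ha⟩ * ⟨b, hb⟩) (mul_mem ha0 hb0)
  have hinv : ∀ h ∈ H, ∀ a ∈ H, a ∈ pResidual p G → l (h * a * h⁻¹) = l a := by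
    intro h hh a ha ha0
    apply Subtype.ext
    rw [← hZc _ (l a).2 (φ ⟨h, hh⟩), hl ⟨a, ha⟩ ha0, ← map_inv, ← map_mul, ← map_mul]
    exact hl (⟨h, hh⟩ * ⟨a, ha⟩ * ⟨h, hh⟩⁻¹) (Normal.conj_mem inferInstance a ha0 h)
  obtain ⟨u, huS, hu0, hlu⟩ : ∃ u ∈ (S : Subgroup G), u ∈ pResidual p G ∧ l u ≠ 1 := by
    obtain ⟨a, ha, haM⟩ : ∃ a ∈ N, a ∉ M := by
      by_contra hcon
      push Not at hcon
      have h1 := card_le_of_le (show N ≤ M from hcon)
      have h2 : 0 < Nat.card M := Nat.card_pos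
      have := hp.out.one_lt
      rw [hM3] at h1
      nlinarith
    obtain ⟨x, hx, rfl⟩ := ha
    have h1 : φ (H35.pPart p x) ≠ 1 := by
      intro h
      apply haM
      rw [← QuotientGroup.eq_one_iff]
      change φ x = 1
      have h2 : φ (H35.pReg p x) = 1 := by
        have : H35.pReg p x ∈ pResidual p H := H4.mem_pResidual_of_coprime
          ((hp.out.coprime_iff_not_dvd.2 (H35.not_dvd_orderOf_pReg p x)).symm)
        change QuotientGroup.mk' M ((H35.pReg p x : H) : H ⧸ pResidual p H) = 1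
        rw [(QuotientGroup.eq_one_iff _).2 this, map_one]
      rw [← H35.pPart_mul_pReg p x, map_mul, h, h2, one_mul]
    have h2 : ((H35.pPart p x : H) : G) ∈ pResidual p G := H35.pPart_mem p hx
    obtain ⟨k, hk, h3⟩ := H4.exists_conj_le_sylow_of_le S hSH (H35.isPElt_iff_zpowers.1
      ((H35.isPElt_coe _).2 (H35.isPElt_pPart p x))) (zpowers_le.2 (H35.pPart p x).2)
    refine ⟨_, h3 _ (mem_zpowers _), Normal.conj_mem inferInstance _ h2 k, ?_⟩
    rw [hinv k hk _ (H35.pPart p x).2 h2]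
    intro h
    apply h1
    rw [← hl _ h2, h]
    rfl
  have htr : ∏ q, trCoc H r l u q = 1 := by
    have hc := coc_trCoc hr hr0 hmul
    have h1 := H4.pResidual_le_ker (n := p) (fun e : Z => ⟨1, by simpa using hE e⟩) hc.hom
    rw [H4.pResidual_pResidual] at h1
    exact h1 (mem_top ⟨u, hu0⟩)
  have hK : ∀ (x : G) (q : G ⧸ H), (r (x • q))⁻¹ * x * r q * x⁻¹ ∈ pResidual p G := fun x q => by
    have := mul_mem (inv_mem (hr0 (x • q))) (Normal.conj_mem inferInstance _ (hr0 q) x)
    simpa only [mul_assoc] using this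
  have hH : ∀ x ∈ H, ∀ q : G ⧸ H, (r (x • q))⁻¹ * x * r q * x⁻¹ ∈ H := fun x hx q =>
    mul_mem (trCoc_mem hr x q) (inv_mem hx)
  let θ : H →* Z := MonoidHom.mk' (fun x => ∏ q, l ((r ((x : G) • q))⁻¹ * x * r q * (x : G)⁻¹))
    fun x y => by
      rw [← Equiv.prod_comp (MulAction.toPerm (y : G))
        (fun q => l ((r ((x : G) • q))⁻¹ * x * r q * (x : G)⁻¹)), ← Finset.prod_mul_distrib]
      refine Finset.prod_congr rfl fun q _ => ?_
      rw [← hinv x x.2 _ (hH y y.2 q) (hK y q), ← hmul _ (hH x x.2 _) (hK x _) _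
        (mul_mem (mul_mem x.2 (hH y y.2 q)) (inv_mem x.2))
        (Normal.conj_mem inferInstance _ (hK y q) x), coe_mul, mul_smul, MulAction.toPerm_apply]
      congr 1
      group
  have huc : u ∈ ⁅H, H⁆ := hfoc ⟨huS, commutator_mono le_top le_top
    (H4.pResidual_inf_le_commutator_self S.isPGroup' ⟨hu0, huS⟩)⟩
  have hθ : θ ⟨u, hSH huS⟩ = 1 := by
    have h1 : (⟨u, hSH huS⟩ : H) ∈ commutator H := by
      rw [← map_subtype_commutator] at huc
      obtain ⟨y, hy, he⟩ := huc
      rwa [show (⟨u, hSH huS⟩ : H) = y from Subtype.ext he.symm]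
    exact Abelianization.commutator_subset_ker θ h1
  have h2 : ∀ q, trCoc H r l u q = l ((r (u • q))⁻¹ * u * r q * u⁻¹) * l u := fun q => by
    rw [← hmul _ (hH u (hSH huS) q) (hK u q) u (hSH huS) hu0, trCoc, inv_mul_cancel_right]
  rw [Finset.prod_congr rfl fun q _ => h2 q, Finset.prod_mul_distrib] at htr
  have h3 : l u ^ H.index = 1 := by
    change θ ⟨u, hSH huS⟩ * _ = 1 at htr
    rwa [hθ, one_mul, Finset.prod_const, Finset.card_univ, ← Nat.card_eq_fintype_card] at htr
  exact hlu (by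
    have := pow_gcd_eq_one.mpr ⟨h3, hE (l u)⟩
    rwa [H4.coprime_index_of_sylow_le S hSH, pow_one] at this)

/-- The largest `p`-factor groups agree when the focal subgroup is controlled. -/
theorem tate_equiv {G : Type*} [Group G] [Finite G] {p : ℕ} [hp : Fact p.Prime]
    (S : Sylow p G) {H : Subgroup G} (hSH : (S : Subgroup G) ≤ H)
    (hfoc : (S : Subgroup G) ⊓ commutator G ≤ ⁅H, H⁆) [(pResidual p G).Normal]
    [(pResidual p H).Normal] : Nonempty (G ⧸ pResidual p G ≃* H ⧸ pResidual p H) := by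
  let f : H →* G ⧸ pResidual p G := (QuotientGroup.mk' _).comp H.subtype
  have hf : Function.Surjective f := fun y => by
    obtain ⟨g, rfl⟩ := QuotientGroup.mk_surjective y
    obtain ⟨a, ha, b, hb, rfl⟩ := H4.exists_pResidual_mul (H4.coprime_index_of_sylow_le S hSH) g
    refine ⟨⟨b, hb⟩, ?_⟩
    rw [QuotientGroup.mk_mul, (QuotientGroup.eq_one_iff a).mpr ha, one_mul]
    rfl
  have hk : f.ker = pResidual p H := by
    apply map_injective H.subtype_injective
    have := tate_group S hSH hfoc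
    rw [pResidualOf] at this
    rw [this, ← MonoidHom.comap_ker, QuotientGroup.ker_mk', ← subgroupOf, subgroupOf_map_subtype]
  exact ⟨(QuotientGroup.quotientKerEquivOfSurjective f hf).symm.trans
    (QuotientGroup.quotientMulEquivOfEq hk)⟩

end H35L
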