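import Mathlib
import Cfsg.Agent.Base

/-! Weight spaces and the block lemma used for the bound on the 2-length. -/

set_option autoImplicit false

namespace H35L.TL

open Module

variable {F : Type*} [Field F] {V : Type*} [AddCommGroup V] [Module F V] {H : Type*} [Group H]

/-- Functions on a group, with the conjugation action. -/
def Om (H F : Type*) := H → F

instance : MulAction H (Om H F) where
  smul g χ := fun h => χ (g⁻¹ * h * g)
  one_smul χ := funext fun h => by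
    show χ (1⁻¹ * h * 1) = χ h
    simp
  mul_smul a b χ := funext fun h => by
    show χ ((a * b)⁻¹ * h * (a * b)) = χ (b⁻¹ * (a⁻¹ * h * a) * b)
    congr 1
    group

theorem smul_apply (g : H) (χ : Om H F) (h : H) : (g • χ) h = χ (g⁻¹ * h * g) := rfl

/-- The weight space of `χ` for the set `Y`. -/
def W (ρ : H →* End F V) (Y : Set H) (χ : Om H F) : Submodule F V where
  carrier := {v | (∀ h ∈ Y, ρ h v = χ h • v) ∧ ∀ h, h ∉ Y → χ h • v = 0}
  zero_mem' := ⟨fun h _ => by simp, fun h _ => by simp⟩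
  add_mem' := fun {a b} ha hb => ⟨fun h hh => by rw [map_add, ha.1 h hh, hb.1 h hh, smul_add],
    fun h hh => by rw [smul_add, ha.2 h hh, hb.2 h hh, add_zero]⟩
  smul_mem' := fun c a ha => ⟨fun h hh => by rw [map_smul, ha.1 h hh, smul_comm],
    fun h hh => by rw [smul_comm, ha.2 h hh, smul_zero]⟩

variable {ρ : H →* End F V} {Y : Set H}

theorem mem_W {χ : Om H F} {v : V} :
    v ∈ W ρ Y χ ↔ (∀ h ∈ Y, ρ h v = χ h • v) ∧ ∀ h, h ∉ Y → χ h • v = 0 := Iff.rfl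

theorem exists_mem_W {v : V} (h : ∀ y ∈ Y, ∃ c : F, ρ y v = c • v) :
    ∃ χ : Om H F, v ∈ W ρ Y χ := by
  classical
  choose! c hc using h
  refine ⟨fun y => if y ∈ Y then c y else 0, fun y hy => ?_, fun y hy => ?_⟩
  · simp only [hy, if_true]
    exact hc y hy
  · simp [hy]

theorem map_mem_W {n : H} (hn : ∀ h, n⁻¹ * h * n ∈ Y ↔ h ∈ Y) {χ : Om H F} {v : V}
    (hv : v ∈ W ρ Y χ) : ρ n v ∈ W ρ Y (n • χ) := by
  refine ⟨fun h hh => ?_, fun h hh => ?_⟩
  · rw [smul_apply, ← map_smul, ← hv.1 _ ((hn h).2 hh), ← End.mul_apply, ← End.mul_apply,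
      ← map_mul, ← map_mul]
    congr 2
    group
  · rw [smul_apply, ← map_smul, hv.2 _ (fun h' => hh ((hn h).1 h')), map_zero]

theorem map_mem_W_of_comm {n : H} (hn : ∀ h ∈ Y, n * h = h * n) {χ : Om H F} {v : V}
    (hv : v ∈ W ρ Y χ) : ρ n v ∈ W ρ Y χ := by
  refine ⟨fun h hh => ?_, fun h hh => ?_⟩
  · rw [← map_smul, ← hv.1 _ hh, ← End.mul_apply, ← End.mul_apply, ← map_mul, ← map_mul, hn h hh]
  · rw [← map_smul, hv.2 _ hh, map_zero]

theorem W_indep_aux (χ₀ : Om H F) (s : Finset (Om H F)) :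
    χ₀ ∉ s → ∀ v ∈ W ρ Y χ₀, v ∈ ⨆ χ ∈ s, W ρ Y χ → v = 0 := by
  classical
  induction s using Finset.induction_on with
  | empty => intro _ v _ hv; simpa using hv
  | insert χ₁ s _ ih =>
    intro h0 v hv hs
    rw [Finset.iSup_insert] at hs
    obtain ⟨a, ha, b, hb, rfl⟩ := Submodule.mem_sup.1 hs
    rw [Finset.mem_insert, not_or] at h0
    obtain ⟨h, hh⟩ : ∃ h, χ₀ h ≠ χ₁ h := by
      by_contra hc
      push Not at hc
      exact h0.1 (funext hc)
    let T : End F V := if h ∈ Y then ρ h else 0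
    have hT : ∀ (χ : Om H F), ∀ w ∈ W ρ Y χ, T w = χ h • w := by
      intro χ w hw
      by_cases hY : h ∈ Y
      · simp only [T, hY, if_true]
        exact hw.1 h hY
      · simp only [T, hY, if_false]
        exact (hw.2 h hY).symm
    have hTb : T b ∈ ⨆ χ ∈ s, W ρ Y χ := by
      have : (⨆ χ ∈ s, W ρ Y χ) ≤ (⨆ χ ∈ s, W ρ Y χ).comap T := by
        refine iSup₂_le fun χ hχ w hw => ?_
        rw [Submodule.mem_comap, hT χ w hw]
        exact Submodule.smul_mem _ _ (le_iSup₂_of_le (f := fun χ (_ : χ ∈ s) => W ρ Y χ) χ hχ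
          le_rfl hw)
      exact this hb
    have h1 : (χ₀ h - χ₁ h) • (a + b) = T b - χ₁ h • b := by
      rw [sub_smul, ← hT χ₀ _ hv, map_add, hT χ₁ a ha, smul_add]
      abel
    have h2 := ih h0.2 _ (Submodule.smul_mem _ (χ₀ h - χ₁ h) hv)
      (h1 ▸ Submodule.sub_mem _ hTb (Submodule.smul_mem _ _ hb))
    exact (smul_eq_zero.1 h2).resolve_left (sub_ne_zero.2 hh)

theorem W_indep {χ₀ : Om H F} {v : V} (hv : v ∈ W ρ Y χ₀)
    (h : v ∈ ⨆ (χ : Om H F) (_ : χ ≠ χ₀), W ρ Y χ) : v = 0 := by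
  classical
  rw [iSup_subtype'] at h
  obtain ⟨s, hs⟩ := Submodule.mem_iSup_iff_exists_finset.1 h
  refine W_indep_aux χ₀ (s.image Subtype.val) ?_ v hv ?_
  · intro h0
    obtain ⟨x, -, hx⟩ := Finset.mem_image.1 h0
    exact x.2 hx
  · refine (show (⨆ i ∈ s, W ρ Y i.1) ≤ _ from iSup₂_le fun i hi => ?_) hs
    exact le_iSup₂_of_le (f := fun χ (_ : χ ∈ s.image Subtype.val) => W ρ Y χ) i.1
      (Finset.mem_image_of_mem _ hi) le_rfl

/-- A commuting family has a common eigenvector in a nonzero invariant subspace. -/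
theorem exists_common_eig [IsAlgClosed F] [FiniteDimensional F V] (A : Set (End F V))
    (hA : ∀ a ∈ A, ∀ b ∈ A, a * b = b * a) (n : ℕ) :
    ∀ V₀ : Submodule F V, finrank F V₀ = n → V₀ ≠ ⊥ → (∀ a ∈ A, ∀ v ∈ V₀, a v ∈ V₀) →
      ∃ v ∈ V₀, v ≠ 0 ∧ ∀ a ∈ A, ∃ c : F, a v = c • v := by
  induction n using Nat.strong_induction_on with
  | _ n ih =>
    intro V₀ hn h0 hinv
    by_cases hc : ∀ a ∈ A, ∃ c : F, ∀ v ∈ V₀, a v = c • v
    · obtain ⟨v, hv, hv0⟩ := Submodule.exists_mem_ne_zero_of_ne_bot h0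
      exact ⟨v, hv, hv0, fun a ha => (hc a ha).imp fun c h => h v hv⟩
    push Not at hc
    obtain ⟨a, ha, hc⟩ := hc
    have : Nontrivial V₀ := Submodule.nontrivial_iff_ne_bot.2 h0
    obtain ⟨c, hc'⟩ := End.exists_eigenvalue (a.restrict (hinv a ha))
    obtain ⟨w, hw⟩ := hc'.exists_hasEigenvector
    let V₁ : Submodule F V := V₀ ⊓ End.eigenspace a c
    have hlt : V₁ < V₀ := by
      refine lt_of_le_of_ne inf_le_left fun e => ?_
      obtain ⟨v, hv, hv'⟩ := hc c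
      exact hv' (End.mem_eigenspace_iff.1 ((e ▸ hv : v ∈ V₁).2))
    obtain ⟨v, hv, hv'⟩ := ih _ (hn ▸ Submodule.finrank_lt_finrank_of_lt hlt) V₁ rfl
      (by
        refine (Submodule.ne_bot_iff _).2 ⟨w, ⟨w.2, ?_⟩, fun h => hw.2 (Subtype.ext h)⟩
        exact End.mem_eigenspace_iff.2 (congrArg Subtype.val hw.apply_eq_smul))
      (fun b hb v hv => ⟨hinv b hb v hv.1, by
        have h1 := End.mem_eigenspace_iff.1 hv.2
        refine End.mem_eigenspace_iff.2 ?_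
        rw [← End.mul_apply, hA a ha b hb, End.mul_apply, h1, map_smul]⟩)
    exact ⟨v, hv.1, hv'⟩

theorem eq_zero_of_fixed [CharP F 2] {u : End F V} {m : ℕ} (hm : Odd m) (hu : u ^ m = 1)
    {w : V} (h : u (u w - w) = u w - w) : u w - w = 0 := by
  have h1 : ∀ i : ℕ, (u ^ i) (u w - w) = u w - w := by
    intro i
    induction i with
    | zero => simp
    | succ i ih => rw [pow_succ', End.mul_apply, ih, h]
  have h2 : (∑ i ∈ Finset.range m, u ^ i) (u w - w) = 0 := by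
    have : u w - w = (u - 1) w := rfl
    rw [this, ← End.mul_apply, geom_sum_mul, hu, sub_self, LinearMap.zero_apply]
  rw [LinearMap.sum_apply, Finset.sum_congr rfl fun i _ => h1 i, Finset.sum_const,
    Finset.card_range, ← Nat.cast_smul_eq_nsmul F] at h2
  refine (smul_eq_zero.1 h2).resolve_left fun h3 => ?_
  rw [CharP.cast_eq_zero_iff F 2] at h3
  exact (Nat.not_even_iff_odd.2 hm) (even_iff_two_dvd.2 h3)

/-- A common eigenvector moved by an element of odd order. -/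
theorem exists_eig_ne [IsAlgClosed F] [CharP F 2] [FiniteDimensional F V]
    (hY : ∀ a ∈ Y, ∀ b ∈ Y, a * b = b * a) (V₀ : Submodule F V)
    (hinv : ∀ a ∈ Y, ∀ v ∈ V₀, ρ a v ∈ V₀) {u : H} (hu : Odd (orderOf u))
    (huY : ∀ a ∈ Y, u * a = a * u) (huV : ∀ v ∈ V₀, ρ u v ∈ V₀) {w : V} (hw : w ∈ V₀)
    (hw' : ρ u w ≠ w) :
    ∃ v ∈ V₀, v ≠ 0 ∧ (∀ a ∈ Y, ∃ c : F, ρ a v = c • v) ∧ ρ u v ≠ v := by
  obtain ⟨v, hv, hv0, hv'⟩ := exists_common_eig (ρ '' Y)
    (by
      rintro _ ⟨a, ha, rfl⟩ _ ⟨b, hb, rfl⟩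
      rw [← map_mul, hY a ha b hb, map_mul]) _ (V₀.map (ρ u - 1)) rfl
    ((Submodule.ne_bot_iff _).2 ⟨_, Submodule.mem_map_of_mem hw, sub_ne_zero.2 hw'⟩)
    (by
      rintro _ ⟨a, ha, rfl⟩ _ ⟨x, hx, rfl⟩
      refine ⟨ρ a x, hinv a ha x hx, ?_⟩
      simp only [LinearMap.sub_apply, End.one_apply, map_sub]
      rw [← End.mul_apply, ← map_mul, huY a ha, map_mul, End.mul_apply])
  obtain ⟨x, hx, rfl⟩ := hv
  refine ⟨_, Submodule.sub_mem _ (huV x hx) hx, hv0, fun a ha => hv' _ ⟨a, ha, rfl⟩, fun e => ?_⟩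
  exact hv0 (eq_zero_of_fixed hu (by rw [← map_pow, pow_orderOf_eq_one, map_one]) e)

/-- The block lemma. -/
theorem gbl {Ω : Type*} [MulAction H Ω] (Wt : Ω → Submodule F V) (L : ℕ → Subgroup H)
    (U : ℕ → Submodule F V) (x₀ : Ω) (r : ℕ) (hL : ∀ i < r, L (i + 1) ≤ L i)
    (hW : ∀ n ∈ L 0, ∀ x, ∀ w ∈ Wt x, ρ n w ∈ Wt (n • x))
    (hU : ∀ i < r, ∀ n ∈ L i, ∀ u ∈ U i, ρ n u - u ∈ U (i + 1))
    (hmove : ∀ i < r, ∃ n ∈ L i, ∀ m ∈ L (i + 1), n • x₀ ≠ m • x₀)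
    (h0 : ∀ x, Wt x ≤ U 0) : Wt x₀ ≤ U r ⊔ ⨆ (y : Ω) (_ : y ≠ x₀), Wt y := by
  have hL0 : ∀ i ≤ r, L i ≤ L 0 := by
    intro i hi
    induction i with
    | zero => exact le_rfl
    | succ i ih => exact (hL i hi).trans (ih (by omega))
  have key : ∀ i ≤ r, ∀ l ∈ L i,
      Wt (l • x₀) ≤ U i ⊔ ⨆ (y : Ω) (_ : ∀ m ∈ L i, y ≠ m • x₀), Wt y := by
    intro i hi
    induction i with
    | zero => exact fun l _ => (h0 _).trans le_sup_left
    | succ i ih =>
      intro l hl w hw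
      obtain ⟨a, ha, b, hb, hab⟩ := Submodule.mem_sup.1 (ih (by omega) l (hL i hi hl) hw)
      obtain ⟨n', hn', hmv⟩ := hmove i hi
      have hn : n' * l⁻¹ ∈ L i := mul_mem hn' (inv_mem (hL i hi hl))
      set n := n' * l⁻¹ with hndef
      have hn0 := hL0 i (by omega) hn
      have hle : (⨆ (y : Ω) (_ : ∀ m ∈ L i, y ≠ m • x₀), Wt y) ≤
          ⨆ (y : Ω) (_ : ∀ m ∈ L (i + 1), y ≠ m • x₀), Wt y :=
        iSup₂_le fun y hy => le_iSup₂_of_le (f := fun y (_ : ∀ m ∈ L (i + 1), y ≠ m • x₀) => Wt y)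
          y (fun m hm => hy m (hL i hi hm)) le_rfl
      have h1 : ρ n w ∈ ⨆ (y : Ω) (_ : ∀ m ∈ L (i + 1), y ≠ m • x₀), Wt y := by
        refine le_iSup₂_of_le (f := fun y (_ : ∀ m ∈ L (i + 1), y ≠ m • x₀) => Wt y) (n' • x₀)
          hmv le_rfl ?_
        have := hW n hn0 _ w hw
        rwa [hndef, ← mul_smul, inv_mul_cancel_right] at this
      have h2 : ρ n b ∈ ⨆ (y : Ω) (_ : ∀ m ∈ L i, y ≠ m • x₀), Wt y := by
        have : (⨆ (y : Ω) (_ : ∀ m ∈ L i, y ≠ m • x₀), Wt y) ≤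
            (⨆ (y : Ω) (_ : ∀ m ∈ L i, y ≠ m • x₀), Wt y).comap (ρ n) := by
          refine iSup₂_le fun y hy v hv => ?_
          refine le_iSup₂_of_le (f := fun y (_ : ∀ m ∈ L i, y ≠ m • x₀) => Wt y) (n • y)
            (fun m hm e => hy (n⁻¹ * m) (mul_mem (inv_mem hn) hm) ?_) le_rfl (hW n hn0 _ v hv)
          rw [mul_smul, ← e, inv_smul_smul]
        exact this hb
      have h3 : w = -(ρ n a - a) + (ρ n w - (ρ n b - b)) := by
        rw [← hab, map_add]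
        abel
      rw [h3]
      exact Submodule.add_mem_sup (Submodule.neg_mem _ (hU i hi n hn a ha))
        (Submodule.sub_mem _ h1 (hle (Submodule.sub_mem _ h2 hb)))
  have := key r le_rfl 1 (one_mem _)
  rw [one_smul] at this
  refine this.trans (sup_le_sup_left (iSup₂_le fun y hy => ?_) _)
  exact le_iSup₂_of_le (f := fun y (_ : y ≠ x₀) => Wt y) y (by simpa using hy 1 (one_mem _)) le_rfl

/-- The elements moving the whole space into a subspace. -/
def movers (ρ : H →* End F V) (U : Submodule F V) : Subgroup H where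
  carrier := {n | ∀ v, ρ n v - v ∈ U}
  one_mem' := fun v => by simp
  mul_mem' := fun {a b} ha hb v => by
    have : ρ (a * b) v - v = (ρ a (ρ b v) - ρ b v) + (ρ b v - v) := by
      rw [map_mul, End.mul_apply]
      abel
    rw [this]
    exact U.add_mem (ha _) (hb _)
  inv_mem' := fun {a} ha v => by
    have : ρ a⁻¹ v - v = -(ρ a (ρ a⁻¹ v) - ρ a⁻¹ v) := by
      rw [← End.mul_apply, ← map_mul, mul_inv_cancel, map_one, End.one_apply]
      abel
    rw [this]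
    exact U.neg_mem (ha _)

open scoped commutatorElement in
theorem commutator_le_movers {N : Subgroup H} {U U' : Submodule F V} (h : N ≤ movers ρ U)
    (h' : ∀ n ∈ N, ∀ u ∈ U, ρ n u - u ∈ U') : ⁅N, N⁆ ≤ movers ρ U' := by
  rw [Subgroup.commutator_le]
  intro a ha b hb v
  set x := ρ (a⁻¹ * b⁻¹) v with hx
  have h1 : ρ ⁅a, b⁆ v = ρ a (ρ b x) := by
    rw [hx, ← End.mul_apply, ← End.mul_apply, ← map_mul, ← map_mul, commutatorElement_def]
    congr 2
    group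
  have h2 : v = ρ b (ρ a x) := by
    rw [hx, ← End.mul_apply, ← End.mul_apply, ← map_mul, ← map_mul]
    simp
  have h3 : ρ ⁅a, b⁆ v - v = (ρ a (ρ b x - x) - (ρ b x - x)) - (ρ b (ρ a x - x) - (ρ a x - x)) := by
    rw [h1, map_sub, map_sub, ← h2]
    abel
  rw [h3]
  exact U'.sub_mem (h' a ha _ (h hb x)) (h' b hb _ (h ha x))

end H35L.TL
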