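import Mathlib
import Cfsg.Agent.Base
import Cfsg.Agent.Lib.Core.CoprimeAbelian
import Cfsg.Agent.Lib.Core.Frattini
import Cfsg.Agent.Lib.Lin35.TwoLenA

/-! Group-theoretic lemmas for the bound on the 2-length, and free action on weights. -/

set_option autoImplicit false

namespace H35L.TL

open Module Subgroup
open scoped commutatorElement

variable {H : Type*} [Group H]

theorem le_of_commutator_mul [Finite H] {L K : Subgroup H} (hL : IsPGroup 2 L)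
    (h : ∀ n ∈ L, ∃ m ∈ ⁅L, L⁆, m⁻¹ * n ∈ K) : L ≤ K := by
  have h1 := ((H1.map_subtype_frattini_le_iff hL).1 le_rfl).1
  have : L ⊓ K = L := H2.eq_of_sup_frattini inf_le_left fun n hn => by
    obtain ⟨m, hm, hk⟩ := h n hn
    rw [← mul_inv_cancel_left m n]
    exact mul_mem_sup (h1 hm) ⟨L.mul_mem (L.inv_mem (map_subtype_le _ (h1 hm))) hn, hk⟩
  exact this.ge.trans inf_le_right

theorem move_commutator [Finite H] {Ω : Type*} [MulAction H Ω] {L : Subgroup H}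
    (hL : IsPGroup 2 L) {x : Ω} (h : ∃ n ∈ L, n • x ≠ x) :
    ∃ n ∈ L, ∀ m ∈ ⁅L, L⁆, n • x ≠ m • x := by
  by_contra hc
  push Not at hc
  obtain ⟨n, hn, hx⟩ := h
  refine hx (le_of_commutator_mul (K := MulAction.stabilizer H x) hL (fun n hn => ?_) hn)
  obtain ⟨m, hm, e⟩ := hc n hn
  exact ⟨m, hm, by rw [MulAction.mem_stabilizer_iff, mul_smul, e, inv_smul_smul]⟩

theorem le_normalizer_of_comm {B T X : Subgroup H} (hB : ∀ a ∈ B, ∀ b ∈ B, a * b = b * a)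
    (hT : T ≤ B) (hX : X ≤ B) : X ≤ normalizer (T : Set H) := fun x hx =>
  centralizer_le_normalizer _ fun t ht => hB t (hT ht) x (hX hx)

theorem le_of_le_commutator_sup [Finite H] {S B N K X : Subgroup H} (hS : IsPGroup 2 S)
    (hB : B ≤ S) (hN : N ≤ S) (hBn : S ≤ normalizer (B : Set H))
    (hBc : ∀ a ∈ B, ∀ b ∈ B, a * b = b * a) (hK : K ≤ B) (hKN : N ≤ normalizer (K : Set H))
    (hX : X ≤ B) (h : X ≤ ⁅X, N⁆ ⊔ K) : X ≤ K := by
  have key : ∀ k, X ≤ (S.lowerCentralSeries k ⊓ B) ⊔ K := by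
    intro k
    induction k with
    | zero => exact (le_inf (hX.trans hB) hX).trans le_sup_left
    | succ k ih =>
      have hT : (S.lowerCentralSeries (k + 1) ⊓ B) ⊔ K ≤ B := sup_le inf_le_right hK
      refine h.trans (sup_le ((commutator_mono ih le_rfl).trans ?_) le_sup_right)
      refine H2.commutator_sup_le (le_normalizer_of_comm hBc hT inf_le_right)
        (le_normalizer_of_comm hBc hT hK) (le_trans (le_inf ?_ ?_) le_sup_left)
        (le_trans ?_ le_sup_right)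
      · exact commutator_mono inf_le_left hN
      · exact (commutator_mono inf_le_right le_rfl).trans
          (le_normalizer_iff_commutator_le_left.1 (hN.trans hBn))
      · exact le_normalizer_iff_commutator_le_left.1 hKN
  obtain ⟨k, hk⟩ := (isNilpotent_iff_lowerCentralSeries S).1 hS.isNilpotent
  simpa [hk] using key k

/-- The elements fixing or inverting `y`. -/
def ext (y : H) : Subgroup H where
  carrier := {b | b * y * b⁻¹ = y ∨ b * y * b⁻¹ = y⁻¹}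
  one_mem' := Or.inl (by simp)
  mul_mem' := fun {a b} ha hb => by
    have e : a * b * y * (a * b)⁻¹ = a * (b * y * b⁻¹) * a⁻¹ := by group
    have e' : a * y⁻¹ * a⁻¹ = (a * y * a⁻¹)⁻¹ := by group
    rcases hb with hb | hb
    · show _ ∨ _
      rw [e, hb]
      exact ha
    · show _ ∨ _
      rw [e, hb, e']
      rcases ha with ha | ha
      · exact Or.inr (by rw [ha])
      · exact Or.inl (by rw [ha, inv_inv])
  inv_mem' := fun {a} ha => by
    rcases ha with ha | ha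
    · refine Or.inl ?_
      calc a⁻¹ * y * a⁻¹⁻¹ = a⁻¹ * (a * y * a⁻¹) * a⁻¹⁻¹ := by rw [ha]
        _ = y := by group
    · refine Or.inr ?_
      calc a⁻¹ * y * a⁻¹⁻¹ = a⁻¹ * (a * y * a⁻¹)⁻¹ * a⁻¹⁻¹ := by rw [ha, inv_inv y]
        _ = y⁻¹ := by group

theorem mem_ext {y b : H} : b ∈ ext y ↔ b * y * b⁻¹ = y ∨ b * y * b⁻¹ = y⁻¹ := Iff.rfl

theorem ext_inv (y : H) : ext y⁻¹ = ext y := by
  ext b
  have e' : b * y⁻¹ * b⁻¹ = (b * y * b⁻¹)⁻¹ := by group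
  rw [mem_ext, mem_ext, e', inv_inj, inv_inv, inv_eq_iff_eq_inv]

/-- The elements of `C` fixed or inverted by each element of `E`. -/
def wt (E C : Subgroup H) : Set H := {y | y ∈ C ∧ E ≤ ext y}

theorem odd_orderOf [Finite H] {C : Subgroup H} (hC : Odd (Nat.card C)) {x : H} (hx : x ∈ C) :
    Odd (orderOf x) := Odd.of_dvd_nat hC (orderOf_dvd_natCard C hx)

theorem eq_one_of_sq [Finite H] {x : H} (hx : Odd (orderOf x)) (h : x * x = 1) : x = 1 := by
  have h1 : orderOf x ∣ 2 := orderOf_dvd_of_pow_eq_one (by rw [sq, h])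
  rcases (Nat.dvd_prime Nat.prime_two).1 h1 with h2 | h2
  · exact orderOf_eq_one_iff.1 h2
  · rw [h2] at hx
    exact absurd hx (by decide)

theorem le_closure_wt [Finite H] {E C : Subgroup H} (hE : ∀ a ∈ E, ∀ b ∈ E, a * b = b * a)
    (hE2 : ∀ a ∈ E, a * a = 1) (hEC : E ≤ normalizer (C : Set H)) (hC : Odd (Nat.card C)) :
    C ≤ closure (wt E C) := by
  have hp : IsPGroup 2 E := fun a => ⟨1, Subtype.ext (by simpa [sq] using hE2 a a.2)⟩
  refine H2.le_of_forall_cocyclic ⟨⟨fun a b => Subtype.ext (hE a a.2 b b.2)⟩⟩ hEC ?_ ?_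
  · obtain ⟨k, hk⟩ := IsPGroup.iff_card.1 hp
    rw [hk]
    exact Nat.Coprime.pow_left _ (Nat.coprime_two_left.2 hC)
  rintro B hB ⟨a, ha, hBa⟩ x ⟨hxC, hxB⟩
  have hxB' : ∀ b ∈ B, b * x = x * b := hxB
  have hwt : ∀ y ∈ C, (∀ b ∈ B, b * y = y * b) → a ∈ ext y → y ∈ closure (wt E C) := by
    intro y hy h1 h2
    refine subset_closure ⟨hy, ?_⟩
    rw [← hBa]
    exact sup_le (fun b hb => Or.inl (by rw [h1 b hb, mul_inv_cancel_right])) (zpowers_le.2 h2)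
  set z := x⁻¹ * (a * x * a⁻¹) with hz
  have hzC : z ∈ C := mul_mem (inv_mem hxC) ((mem_normalizer_iff.1 (hEC ha) x).1 hxC)
  have haa : a⁻¹ = a := inv_eq_of_mul_eq_one_right (hE2 a ha)
  have hza : a * z * a⁻¹ = z⁻¹ := by
    have : a * z * a⁻¹ = a * x⁻¹ * (a * a) * a⁻¹ * x * (a * a)⁻¹ := by
      rw [hz]
      group
    rw [this, hE2 a ha, hz]
    group
  have hzB : ∀ b ∈ B, Commute b z := fun b hb => by
    have h1 : Commute b x := hxB' b hb
    have h2 : Commute b a := hE b (hB hb) a ha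
    exact h1.inv_right.mul_right ((h2.mul_right h1).mul_right h2.inv_right)
  obtain ⟨k, hk⟩ := odd_orderOf hC hzC
  set s := z ^ (k + 1) with hs
  have hss : s * s = z := by
    rw [hs, ← pow_add, show k + 1 + (k + 1) = (2 * k + 1) + 1 by ring, ← hk, pow_succ,
      pow_orderOf_eq_one, one_mul]
  have hsa : a * s * a⁻¹ = s⁻¹ := by rw [hs, ← conj_pow, hza, inv_pow]
  have hsB : ∀ b ∈ B, b * s = s * b := fun b hb => (hzB b hb).pow_right _
  have hsC : s ∈ C := pow_mem hzC _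
  have h1 : x * s ∈ closure (wt E C) := by
    refine hwt _ (mul_mem hxC hsC)
      (fun b hb => by rw [← mul_assoc, hxB' b hb, mul_assoc, hsB b hb, mul_assoc]) (Or.inl ?_)
    calc a * (x * s) * a⁻¹ = x * z * (a * s * a⁻¹) := by rw [hz]; group
      _ = x * s := by rw [hsa, ← hss]; group
  rw [← mul_inv_cancel_right x s]
  exact mul_mem h1 (inv_mem (hwt s hsC hsB (Or.inr hsa)))

/-- The centre of `C` as a subgroup of the ambient group. -/
abbrev cz (C : Subgroup H) : Subgroup H := C ⊓ centralizer (C : Set H)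

theorem commutator_mem_cz {C : Subgroup H}
    (hcl : ∀ a ∈ C, ∀ b ∈ C, ∀ c ∈ C, ⁅a, b⁆ * c = c * ⁅a, b⁆) {a b : H} (ha : a ∈ C)
    (hb : b ∈ C) : ⁅a, b⁆ ∈ cz C :=
  ⟨C.mul_mem (C.mul_mem (C.mul_mem ha hb) (C.inv_mem ha)) (C.inv_mem hb),
    fun c hc => (hcl a ha b hb c hc).symm⟩

theorem comm_of_inv_of_fix [Finite H] {C : Subgroup H} (hC : Odd (Nat.card C))
    (hcl : ∀ a ∈ C, ∀ b ∈ C, ∀ c ∈ C, ⁅a, b⁆ * c = c * ⁅a, b⁆) {b a a' : H}
    (hb : ∀ z ∈ cz C, b * z = z * b) (ha : a ∈ C) (ha' : a' ∈ C) (h1 : b * a * b⁻¹ = a⁻¹)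
    (h2 : b * a' * b⁻¹ = a') : a * a' = a' * a := by
  have hz := commutator_mem_cz hcl ha ha'
  rw [← commutatorElement_eq_one_iff_mul_comm]
  refine eq_one_of_sq (odd_orderOf hC hz.1) ?_
  have e1 : ⁅a, a'⁆ = ⁅a⁻¹, a'⁆ := by
    calc ⁅a, a'⁆ = b * ⁅a, a'⁆ * b⁻¹ := by rw [hb _ hz, mul_inv_cancel_right]
      _ = ⁅b * a * b⁻¹, b * a' * b⁻¹⁆ := by simp only [commutatorElement_def]; group
      _ = _ := by rw [h1, h2]
  have e2 : ⁅a⁻¹, a'⁆ * ⁅a, a'⁆ = a⁻¹ * (⁅a', a⁆ * (a * ⁅a, a'⁆)) := by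
    simp only [commutatorElement_def]; group
  calc ⁅a, a'⁆ * ⁅a, a'⁆ = ⁅a⁻¹, a'⁆ * ⁅a, a'⁆ := by rw [← e1]
    _ = 1 := by
      rw [e2, ← hcl a ha a' ha' a ha]
      simp only [commutatorElement_def]
      group

variable {F : Type*} [Field F] {V : Type*} [AddCommGroup V] [Module F V] {ρ : H →* End F V}

/-- The weight elements which do not act as scalars modulo the central character. -/
def wtl (E C : Subgroup H) (lam : Om H F) : Set H :=
  {y | y ∈ wt E C ∧ ∃ y' ∈ wt E C, lam ⁅y, y'⁆ ≠ 1}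

theorem rho_ne_zero {g : H} {v : V} (hv : v ≠ 0) : ρ g v ≠ 0 := fun h => hv (by
  rw [← End.one_apply (R := F) v, ← map_one ρ, ← inv_mul_cancel g, map_mul, End.mul_apply, h,
    map_zero])

theorem exists_free_weight [IsAlgClosed F] [CharP F 2] [FiniteDimensional F V] [Finite H]
    {C E : Subgroup H} (hC : Odd (Nat.card C))
    (hcl : ∀ a ∈ C, ∀ b ∈ C, ∀ c ∈ C, ⁅a, b⁆ * c = c * ⁅a, b⁆)
    (hEZ : ∀ b ∈ E, ∀ z ∈ cz C, b * z = z * b) {lam : Om H F} (hlam : W ρ (cz C) lam ≠ ⊥) :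
    ∃ (Y : Set H) (χ : Om H F), (∀ n ∈ E, ∀ h, n⁻¹ * h * n ∈ Y ↔ h ∈ Y) ∧
      W ρ Y χ ⊓ W ρ (cz C) lam ≠ ⊥ ∧
      ∀ b ∈ E, b • χ = χ → ∀ y ∈ wtl E C lam, b * y = y * b := by
  let P : Set H → Prop := fun Y => Y ⊆ wt E C ∧ (∀ a ∈ Y, ∀ b ∈ Y, a * b = b * a) ∧
    ∃ v ∈ W ρ (cz C) lam, v ≠ 0 ∧ ∀ y ∈ Y, ∃ c : F, c ≠ 1 ∧ ρ y v = c • v
  obtain ⟨Y₀, hY₀⟩ := (Set.toFinite {Y | P Y}).exists_maximal ⟨∅, by
    obtain ⟨v, hv, hv0⟩ := Submodule.exists_mem_ne_zero_of_ne_bot hlam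
    exact ⟨Set.empty_subset _, by simp, v, hv, hv0, by simp⟩⟩
  obtain ⟨hwt, hcomm, v, hv, hv0, heig⟩ := hY₀.prop
  let Y : Set H := {h | h ∈ Y₀ ∨ h⁻¹ ∈ Y₀}
  have hYinv : ∀ h ∈ Y, h⁻¹ ∈ Y := fun h hh => by
    rcases hh with hh | hh
    · exact Or.inr (by rwa [inv_inv])
    · exact Or.inl hh
  have hYconj : ∀ n ∈ E, ∀ h ∈ Y, n * h * n⁻¹ ∈ Y := fun n hn h hh => by
    have : n ∈ ext h := by
      rcases hh with hh | hh
      · exact (hwt hh).2 hn
      · rw [← ext_inv]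
        exact (hwt hh).2 hn
    rcases this with e | e
    · rwa [e]
    · rw [e]
      exact hYinv h hh
  obtain ⟨χ, hχ⟩ : ∃ χ : Om H F, v ∈ W ρ Y χ := by
    refine exists_mem_W fun y hy => ?_
    rcases hy with hy | hy
    · obtain ⟨c, -, hc⟩ := heig y hy
      exact ⟨c, hc⟩
    · obtain ⟨c, -, hc⟩ := heig _ hy
      have hc0 : c ≠ 0 := fun h => rho_ne_zero (ρ := ρ) (g := y⁻¹) hv0 (by rw [hc, h, zero_smul])
      refine ⟨c⁻¹, ?_⟩
      rw [eq_inv_smul_iff₀ hc0, ← map_smul, ← hc, ← End.mul_apply, ← map_mul, mul_inv_cancel,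
        map_one, End.one_apply]
  refine ⟨Y, χ, fun n hn h => ⟨fun hh => ?_, fun hh => ?_⟩,
    (Submodule.ne_bot_iff _).2 ⟨v, ⟨hχ, hv⟩, hv0⟩, fun b hb hbχ y hy => ?_⟩
  · simpa [mul_assoc] using hYconj n hn _ hh
  · simpa using hYconj n⁻¹ (inv_mem hn) _ hh
  have hχ1 : ∀ y ∈ Y₀, χ y ≠ 1 := fun y hy e => by
    obtain ⟨c, hc1, hc⟩ := heig y hy
    rw [hχ.1 y (Or.inl hy), e] at hc
    exact hc1 (smul_left_injective F hv0 hc).symm
  have hbY : ∀ y ∈ Y₀, b * y * b⁻¹ = y := fun y hy => by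
    rcases (hwt hy).2 hb with e | e
    · exact e
    exfalso
    have e1 : χ y⁻¹ = χ y := by
      conv_lhs => rw [← hbχ, smul_apply, ← e]
      congr 1
      group
    have e2 : v = (χ y * χ y) • v := by
      calc v = ρ y (ρ y⁻¹ v) := by
            rw [← End.mul_apply, ← map_mul, mul_inv_cancel, map_one, End.one_apply]
        _ = _ := by
            rw [hχ.1 _ (hYinv y (Or.inl hy)), e1, map_smul, hχ.1 y (Or.inl hy), smul_smul]
    have e3 : χ y * χ y = 1 :=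
      (smul_left_injective F hv0 (show (1 : F) • v = _ by rw [one_smul]; exact e2)).symm
    rcases mul_self_eq_one_iff.1 e3 with e4 | e4
    · exact hχ1 y hy e4
    · exact hχ1 y hy (by rw [e4, CharTwo.neg_eq])
  by_contra hby
  obtain ⟨hyw, y', hyw', hyy⟩ := hy
  have hinv : b * y * b⁻¹ = y⁻¹ :=
    (hyw.2 hb).resolve_left fun e => hby (by rwa [mul_inv_eq_iff_eq_mul] at e)
  have hinv' : b * y' * b⁻¹ = y'⁻¹ := (hyw'.2 hb).resolve_left fun e => hyy (by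
    have h1 := comm_of_inv_of_fix hC hcl (hEZ b hb) hyw.1 hyw'.1 hinv e
    have h2 := hv.1 _ (commutator_mem_cz hcl hyw.1 hyw'.1)
    rw [commutatorElement_eq_one_iff_mul_comm.2 h1] at h2 ⊢
    rw [map_one, End.one_apply] at h2
    exact (smul_left_injective F hv0 (show (1 : F) • v = _ by rw [one_smul]; exact h2)).symm)
  have hpres : ∀ a ∈ C, b * a * b⁻¹ = a⁻¹ → (∀ h ∈ Y₀, a * h = h * a) ∧
      ∀ w ∈ W ρ Y χ ⊓ W ρ (cz C) lam, ρ a w ∈ W ρ Y χ ⊓ W ρ (cz C) lam := fun a ha hab => by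
    have h1 : ∀ h ∈ Y₀, a * h = h * a := fun h hh =>
      comm_of_inv_of_fix hC hcl (hEZ b hb) ha (hwt hh).1 hab (hbY h hh)
    refine ⟨h1, fun w hw => ⟨map_mem_W_of_comm (fun h hh => ?_) hw.1,
      map_mem_W_of_comm (fun h hh => hh.2 a ha) hw.2⟩⟩
    rcases hh with hh | hh
    · exact h1 h hh
    · have : Commute a h⁻¹ := h1 _ hh
      simpa using this.inv_right.eq
  obtain ⟨w, hw, hw'⟩ : ∃ w ∈ W ρ Y χ ⊓ W ρ (cz C) lam, ρ y w ≠ w := by
    by_contra hc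
    push Not at hc
    have h1 := (hpres y' hyw'.1 hinv').2 v ⟨hχ, hv⟩
    have h2 := h1.2.1 _ (commutator_mem_cz hcl hyw.1 hyw'.1)
    have h3 : ρ ⁅y, y'⁆ (ρ y' (ρ y v)) = ρ y (ρ y' v) := by
      rw [← End.mul_apply, ← End.mul_apply, ← End.mul_apply, ← map_mul, ← map_mul, ← map_mul,
        commutatorElement_def]
      congr 2
      group
    rw [hc v ⟨hχ, hv⟩, hc _ h1, h2] at h3
    exact hyy (smul_left_injective F (rho_ne_zero hv0) (h3.trans (one_smul _ _).symm))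
  obtain ⟨v', hv', hv0', he, hne⟩ := exists_eig_ne (ρ := ρ) (Y := {y})
    (by rintro _ rfl _ rfl; rfl) _ (by rintro _ rfl; exact (hpres _ hyw.1 hinv).2)
    (odd_orderOf hC hyw.1) (by rintro _ rfl; rfl) (hpres _ hyw.1 hinv).2 hw hw'
  have hP : P (insert y Y₀) := by
    refine ⟨Set.insert_subset hyw hwt, ?_, v', hv'.2, hv0', ?_⟩
    · rintro a (rfl | ha) c (rfl | hc)
      · rfl
      · exact (hpres _ hyw.1 hinv).1 c hc
      · exact ((hpres _ hyw.1 hinv).1 a ha).symm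
      · exact hcomm a ha c hc
    · rintro a (rfl | ha)
      · obtain ⟨c, hc⟩ := he a rfl
        exact ⟨c, fun e => hne (by rw [hc, e, one_smul]), hc⟩
      · exact ⟨χ a, hχ1 a ha, hv'.1.1 a (Or.inl ha)⟩
  have := hY₀.le_of_ge hP (Set.subset_insert _ _) (Set.mem_insert _ _)
  exact hby (by rw [← mul_inv_eq_iff_eq_mul]; exact hbY y this)

/-- No chain acting freely enough on the weights can stabilize a series ending outside the weight
space. -/
theorem free [IsAlgClosed F] [CharP F 2] [FiniteDimensional F V] [Finite H]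
    {C E : Subgroup H} (hC : Odd (Nat.card C))
    (hcl : ∀ a ∈ C, ∀ b ∈ C, ∀ c ∈ C, ⁅a, b⁆ * c = c * ⁅a, b⁆)
    (hEZ : ∀ b ∈ E, ∀ z ∈ cz C, b * z = z * b) {lam : Om H F} (hlam : W ρ (cz C) lam ≠ ⊥)
    (L : ℕ → Subgroup H) (U : ℕ → Submodule F V) (r : ℕ) (hL0 : L 0 ≤ E)
    (hL : ∀ i < r, L (i + 1) ≤ L i) (hU : ∀ i < r, ∀ n ∈ L i, ∀ u ∈ U i, ρ n u - u ∈ U (i + 1))
    (hmove : ∀ i < r, ∃ n ∈ L i, ∀ m ∈ L (i + 1),
      m⁻¹ * n ∉ centralizer (wtl E C lam))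
    (h0 : W ρ (cz C) lam ≤ U 0) (hr : Disjoint (U r) (W ρ (cz C) lam)) : False := by
  obtain ⟨Y, χ, hY, hne, hst⟩ := exists_free_weight hC hcl hEZ hlam
  have hLE : ∀ i ≤ r, L i ≤ E := by
    intro i hi
    induction i with
    | zero => exact hL0
    | succ i ih => exact (hL i hi).trans (ih (by omega))
  have key := gbl (ρ := ρ) (fun x : Om H F => W ρ Y x ⊓ W ρ (cz C) lam) L U χ r hL
    (fun n hn x w hw => ⟨map_mem_W (hY n (hL0 hn)) hw.1,
      map_mem_W_of_comm (hEZ n (hL0 hn)) hw.2⟩) hU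
    (fun i hi => by
      obtain ⟨n, hn, hm⟩ := hmove i hi
      refine ⟨n, hn, fun m hm' e => hm m hm' fun y hy => ?_⟩
      exact (hst _ (mul_mem (inv_mem (hLE (i + 1) hi hm')) (hLE i hi.le hn))
        (by rw [mul_smul, e, inv_smul_smul]) y hy).symm)
    (fun x => inf_le_right.trans h0)
  obtain ⟨v, hv, hv0⟩ := Submodule.exists_mem_ne_zero_of_ne_bot hne
  obtain ⟨a, ha, b, hb, hab⟩ := Submodule.mem_sup.1 (key hv)
  have hb1 : b ∈ W ρ (cz C) lam :=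
    (show (⨆ (y : Om H F) (_ : y ≠ χ), W ρ Y y ⊓ W ρ (cz C) lam) ≤ _ from
      iSup₂_le fun _ _ => inf_le_right) hb
  have ha0 : a = 0 := (Submodule.disjoint_def.1 hr) a ha (by
    rw [eq_sub_of_add_eq hab]
    exact Submodule.sub_mem _ hv.2 hb1)
  rw [ha0, zero_add] at hab
  refine hv0 (W_indep hv.1 ?_)
  rw [← hab]
  exact (show (⨆ (y : Om H F) (_ : y ≠ χ), W ρ Y y ⊓ W ρ (cz C) lam) ≤ _ from
      iSup₂_mono fun _ _ => inf_le_left) hb

end H35L.TL
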