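import Mathlib
import Cfsg.Agent.Base
import Cfsg.Agent.Lib.Core.Fitting
import Cfsg.Agent.Lib.FGS.HHGross
import Cfsg.Agent.Lib.Lin35.TwoLenB

/-! The three key properties of a faithful module with a short series. -/

set_option autoImplicit false

namespace H35L.TL

open Module Subgroup Cfsg
open scoped commutatorElement

variable {H : Type*} [Group H]

/-- The derived series of a subgroup. -/
def dN (S : Subgroup H) : ℕ → Subgroup H
  | 0 => S
  | i + 1 => ⁅dN S i, dN S i⁆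

/-- The series of `P` given by commutation with the derived series of `S`. -/
def gc (S P : Subgroup H) : ℕ → Subgroup H
  | 0 => P
  | i + 1 => ⁅gc S P i, dN S i⁆

variable {S P : Subgroup H}

theorem dN_succ_le (i : ℕ) : dN S (i + 1) ≤ dN S i :=
  (commutator_le_sup _ _).trans (sup_idem _).le

theorem dN_anti : Antitone (dN S) := antitone_nat_of_succ_le dN_succ_le

theorem dN_le (i : ℕ) : dN S i ≤ S := dN_anti (Nat.zero_le i)

theorem le_normalizer_dN (i : ℕ) : S ≤ normalizer (dN S i : Set H) := by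
  induction i with
  | zero => exact le_normalizer
  | succ i ih => exact H2.le_normalizer_commutator ih ih

theorem map_dN {H' : Type*} [Group H'] (f : H →* H') (i : ℕ) :
    (dN S i).map f = dN (S.map f) i := by
  induction i with
  | zero => rfl
  | succ i ih => rw [dN, dN, map_commutator, ih]

theorem map_gc {H' : Type*} [Group H'] (f : H →* H') (i : ℕ) :
    (gc S P i).map f = gc (S.map f) (P.map f) i := by
  induction i with
  | zero => rfl
  | succ i ih => rw [gc, gc, map_commutator, ih, map_dN]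

theorem gc_le_dN (h : P ≤ S) (i : ℕ) : gc S P i ≤ dN S i := by
  induction i with
  | zero => exact h
  | succ i ih => exact commutator_mono ih le_rfl

theorem le_normalizer_gc (h : S ≤ normalizer (P : Set H)) (i : ℕ) :
    S ≤ normalizer (gc S P i : Set H) := by
  induction i with
  | zero => exact h
  | succ i ih => exact H2.le_normalizer_commutator ih (le_normalizer_dN i)

theorem gc_anti (h : S ≤ normalizer (P : Set H)) : Antitone (gc S P) :=
  antitone_nat_of_succ_le fun i =>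
    le_normalizer_iff_commutator_le_left.1 ((dN_le i).trans (le_normalizer_gc h i))

theorem gc_le (h : S ≤ normalizer (P : Set H)) (i : ℕ) : gc S P i ≤ P := gc_anti h (Nat.zero_le i)

theorem dN_top (i : ℕ) : dN (⊤ : Subgroup H) i = derivedSeries H i := by
  induction i with
  | zero => rfl
  | succ i ih => rw [dN, ih, derivedSeries_succ]

theorem dN_eq_map (i : ℕ) : dN S i = (derivedSeries S i).map S.subtype := by
  rw [← dN_top, map_dN, ← MonoidHom.range_eq_map, range_subtype]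

/-- The centralizer of all normal abelian subgroups of odd order. -/
def cAb (H : Type*) [Group H] : Subgroup H :=
  ⨅ (Z : Subgroup H) (_ : Z.Normal) (_ : Odd (Nat.card Z)) (_ : ∀ a ∈ Z, ∀ b ∈ Z, a * b = b * a),
    centralizer (Z : Set H)

theorem mem_cAb {x : H} : x ∈ cAb H ↔ ∀ Z : Subgroup H, Z.Normal → Odd (Nat.card Z) →
    (∀ a ∈ Z, ∀ b ∈ Z, a * b = b * a) → ∀ z ∈ Z, z * x = x * z := by
  simp only [cAb, mem_iInf]
  rfl

instance : (cAb H).Normal := ⟨fun x hx g => mem_cAb.2 fun Z hZ h1 h2 z hz => by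
  have := mem_cAb.1 hx Z hZ h1 h2 _ (hZ.conj_mem' z hz g)
  calc z * (g * x * g⁻¹) = g * (g⁻¹ * z * g * x) * g⁻¹ := by group
    _ = g * x * g⁻¹ * z := by rw [this]; group⟩

theorem cAb_cz [Finite H] {C : Subgroup H} [C.Normal] (hC : Odd (Nat.card C)) {b : H}
    (hb : b ∈ cAb H) : ∀ z ∈ cz C, b * z = z * b := fun z hz =>
  (mem_cAb.1 hb (cz C) inferInstance (Odd.of_dvd_nat hC (card_dvd_of_le inf_le_left))
    (fun a ha c hc => hc.2 a ha.1) z hz).symm

theorem eq_one_of_odd_of_mem [Finite H] (hS : IsPGroup 2 S) {w : H} (hw : w ∈ S)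
    (h : Odd (orderOf w)) : w = 1 := by
  obtain ⟨k, hk⟩ := hS ⟨w, hw⟩
  have h1 : orderOf w ∣ 2 ^ k := orderOf_dvd_of_pow_eq_one (congrArg Subtype.val hk)
  exact orderOf_eq_one_iff.1 (Nat.Coprime.eq_one_of_dvd
    ((Nat.coprime_two_right.2 h).pow_right k) h1)

theorem exists_critical_moved [Finite H] [Group.IsSolvable H] (hO : pCore 2 H = ⊥)
    (hS : IsPGroup 2 S) {w : H} (hw : w ∈ S) (hw1 : w ≠ 1) :
    ∃ C : Subgroup H, C.Normal ∧ Odd (Nat.card C) ∧
      (∀ a ∈ C, ∀ b ∈ C, ∀ c ∈ C, ⁅a, b⁆ * c = c * ⁅a, b⁆) ∧ w ∉ centralizer (C : Set H) := by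
  obtain ⟨q, hq⟩ : ∃ q : Nat.Primes, w ∉ centralizer (pCore (q : ℕ) H : Set H) := by
    by_contra hc
    push Not at hc
    have h1 : w ∈ centralizer (fittingSubgroup H : Set H) := by
      rw [← zpowers_le, le_centralizer_iff, H1.fitting_eq_iSup_pCore, iSup_le_iff]
      intro q
      rw [le_centralizer_iff, zpowers_le]
      exact hc q
    have h2 := H1.fitting_le_pCore_sup_pPrimeCore 2 (H1.centralizer_fitting_le h1)
    rw [hO, bot_sup_eq] at h2
    exact hw1 (eq_one_of_odd_of_mem hS hw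
      (Nat.coprime_two_right.1 (H1.coprime_orderOf_of_mem_pPrimeCore h2)))
  have := Fact.mk q.2
  have hq2 : (q : ℕ) ≠ 2 := fun e => hq (by
    rw [e, hO]
    intro x hx
    rw [mem_bot.1 hx, one_mul, mul_one])
  obtain ⟨k, hk⟩ := IsPGroup.iff_card.1 (H1.isPGroup_pCore (p := (q : ℕ)) (G := H))
  have hodd : Odd (Nat.card (pCore (q : ℕ) H)) := hk ▸ (q.2.odd_of_ne_two hq2).pow
  obtain ⟨C, hCP, hcl, hN, -, -, hC⟩ := H76.exists_critical (H1.isPGroup_pCore (p := (q : ℕ)) (G := H))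
  rw [normalizer_eq_top] at hN hC
  refine ⟨C, normalizer_eq_top_iff.1 (top_le_iff.1 hN), Odd.of_dvd_nat hodd (card_dvd_of_le hCP),
    fun a ha b hb c hc => congrArg Subtype.val (hcl.comm ⟨a, ha⟩ ⟨b, hb⟩ ⟨c, hc⟩),
    fun h => hq (hC w (mem_top _) ?_ h)⟩
  obtain ⟨j, hj⟩ := hS ⟨w, hw⟩
  exact Nat.Coprime.coprime_dvd_left (orderOf_dvd_of_pow_eq_one (congrArg Subtype.val hj))
    ((Nat.coprime_two_left.2 hodd).pow_left j)

variable {F : Type*} [Field F] {V : Type*} [AddCommGroup V] [Module F V] {ρ : H →* End F V}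

theorem conj_mem_wtl {E C : Subgroup H} [hC : C.Normal] {lam : Om H F} {n : H}
    (hn : n ∈ normalizer (E : Set H)) (hlam : n • lam = lam) {y : H} (hy : y ∈ wtl E C lam) :
    n * y * n⁻¹ ∈ wtl E C lam := by
  have key : ∀ y ∈ wt E C, n * y * n⁻¹ ∈ wt E C := fun y hy => by
    refine ⟨hC.conj_mem _ hy.1 n, fun b hb => ?_⟩
    have e : b * (n * y * n⁻¹) * b⁻¹ = n * ((n⁻¹ * b * n) * y * (n⁻¹ * b * n)⁻¹) * n⁻¹ := by group
    rcases hy.2 ((mem_normalizer_iff''.1 hn b).1 hb) with h | h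
    · exact Or.inl (by rw [e, h])
    · exact Or.inr (by rw [e, h]; group)
  obtain ⟨hy, y', hy', h⟩ := hy
  refine ⟨key y hy, _, key y' hy', ?_⟩
  rw [← hlam, smul_apply, ← conjugate_commutatorElement]
  convert h using 2
  group

theorem smul_eq_of_comm {Z : Subgroup H} [hZ : Z.Normal] {lam : Om H F} (hlam : W ρ Z lam ≠ ⊥)
    {n : H} (hn : ∀ z ∈ Z, n * z = z * n) : n • lam = lam := by
  obtain ⟨v, hv, hv0⟩ := Submodule.exists_mem_ne_zero_of_ne_bot hlam
  funext h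
  rw [smul_apply]
  by_cases hh : h ∈ Z
  · rw [mul_assoc, ← hn h hh, inv_mul_cancel_left]
  · have h1 : n⁻¹ * h * n ∉ Z := fun h' => hh (by simpa [mul_assoc] using hZ.conj_mem _ h' n)
    rw [(smul_eq_zero.1 (hv.2 _ hh)).resolve_right hv0,
      (smul_eq_zero.1 (hv.2 _ h1)).resolve_right hv0]

theorem exists_ne_of_ne_one (hρ : Function.Injective ρ) {u : H} (hu : u ≠ 1) : ∃ w, ρ u w ≠ w := by
  by_contra hc
  push Not at hc
  exact hu (hρ (by rw [map_one]; exact LinearMap.ext hc))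

theorem exists_wtl_moved [IsAlgClosed F] [CharP F 2] [FiniteDimensional F V] [Finite H]
    (hρ : Function.Injective ρ) {C E : Subgroup H} [C.Normal] (hC : Odd (Nat.card C))
    (hcl : ∀ a ∈ C, ∀ b ∈ C, ∀ c ∈ C, ⁅a, b⁆ * c = c * ⁅a, b⁆)
    (hE : ∀ a ∈ E, ∀ b ∈ E, a * b = b * a) (hE2 : ∀ a ∈ E, a * a = 1) {w : H}
    (hwZ : ∀ z ∈ cz C, w * z = z * w) (hw : w ∉ centralizer (C : Set H)) :
    ∃ lam : Om H F, W ρ (cz C) lam ≠ ⊥ ∧ ∃ y ∈ wtl E C lam, y * w ≠ w * y := by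
  have hcl' := le_closure_wt hE hE2 (by rw [normalizer_eq_top]; exact le_top) hC
  have key : ∀ x, x ∉ centralizer (C : Set H) → ∃ y ∈ wt E C, y * x ≠ x * y := fun x hx => by
    by_contra hc
    push Not at hc
    refine hx (centralizer_le hcl' ?_)
    rw [centralizer_closure]
    exact hc
  obtain ⟨y, hy, hyw⟩ := key w hw
  obtain ⟨y', hy', hyy⟩ := key y fun h => hyw (hwZ y ⟨hy.1, h⟩).symm
  have hu := commutator_mem_cz hcl hy.1 hy'.1
  obtain ⟨x, hx⟩ := exists_ne_of_ne_one hρ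
    (show ⁅y, y'⁆ ≠ 1 from fun h => hyy (commutatorElement_eq_one_iff_mul_comm.1 h).symm)
  obtain ⟨v, -, hv0, he, hne⟩ := exists_eig_ne (ρ := ρ) (Y := cz C)
    (fun a ha c hc => hc.2 a ha.1) ⊤ (fun _ _ _ _ => Submodule.mem_top) (odd_orderOf hC hu.1)
    (fun a ha => ha.2 _ hu.1) (fun _ _ => Submodule.mem_top) Submodule.mem_top hx
  obtain ⟨lam, hlam⟩ := exists_mem_W he
  exact ⟨lam, (Submodule.ne_bot_iff _).2 ⟨v, hlam, hv0⟩, y,
    ⟨hy, y', hy', fun e => hne (by rw [hlam.1 _ hu, e, one_smul])⟩, hyw⟩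

/-- A series of the module stabilized by the derived series of `S`. -/
def Ch (ρ : H →* End F V) (S : Subgroup H) (U : ℕ → Submodule F V) : Prop :=
  U 0 = ⊤ ∧ ∀ i, ∀ n ∈ dN S i, ∀ u ∈ U i, ρ n u - u ∈ U (i + 1)

variable {U : ℕ → Submodule F V}

theorem Ch.le_movers (hU : Ch ρ S U) (i : ℕ) : dN S i ≤ movers ρ (U i) := by
  induction i with
  | zero => exact fun n _ v => hU.1 ▸ Submodule.mem_top
  | succ i ih => exact commutator_le_movers ih (hU.2 i)

theorem Ch.quad (hU : Ch ρ S U) {l : ℕ} (hl : U (l + 1) = ⊥) {a b : H} (ha : a ∈ dN S l)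
    (hb : b ∈ dN S l) (v : V) : ρ (a * b) v = ρ a v + ρ b v - v := by
  have := hU.2 l a ha _ (hU.le_movers l hb v)
  rw [hl, Submodule.mem_bot, map_sub, sub_eq_zero, sub_eq_iff_eq_add] at this
  rw [map_mul, End.mul_apply, this]
  abel

theorem Ch.comm (hρ : Function.Injective ρ) (hU : Ch ρ S U) {l : ℕ} (hl : U (l + 1) = ⊥) :
    ∀ a ∈ dN S l, ∀ b ∈ dN S l, a * b = b * a := fun a ha b hb =>
  hρ (LinearMap.ext fun v => by rw [hU.quad hl ha hb, hU.quad hl hb ha, add_comm])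

theorem Ch.sq [CharP F 2] (hρ : Function.Injective ρ) (hU : Ch ρ S U) {l : ℕ}
    (hl : U (l + 1) = ⊥) : ∀ a ∈ dN S l, a * a = 1 := fun a ha =>
  hρ (LinearMap.ext fun v => by
    have h2 : ∀ x : V, x + x = 0 := fun x => by
      rw [← two_smul F x, CharTwo.two_eq_zero, zero_smul]
    rw [hU.quad hl ha ha, h2, map_one, End.one_apply, zero_sub, neg_eq_iff_add_eq_zero, h2])

theorem Ch.W_le [Finite H] (hS : IsPGroup 2 S) (hU : Ch ρ S U) {Z : Subgroup H} [hZ : Z.Normal]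
    (χ : Om H F) (j : ℕ) (hj : ∀ i < j, ∃ n ∈ dN S i, n • χ ≠ χ) :
    W ρ Z χ ≤ U j ⊔ ⨆ (μ : Om H F) (_ : μ ≠ χ), W ρ Z μ :=
  gbl (ρ := ρ) (fun μ : Om H F => W ρ Z μ) (dN S) U χ j (fun i _ => dN_succ_le i)
    (fun n _ _ _ hw => map_mem_W (fun h => ⟨fun h' => by
      simpa [mul_assoc] using hZ.conj_mem _ h' n, fun h' => hZ.conj_mem' _ h' n⟩) hw)
    (fun i _ => hU.2 i) (fun i hi => move_commutator (hS.to_le (dN_le i)) (hj i hi))
    (fun _ => hU.1 ▸ le_top)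

variable [IsAlgClosed F] [CharP F 2] [FiniteDimensional F V] [Finite H]

theorem Ch.le_cAb (hS : IsPGroup 2 S) (hρ : Function.Injective ρ) (hU : Ch ρ S U) {l : ℕ}
    (hl : U (l + 1) = ⊥) : dN S l ≤ cAb H := by
  intro d hd
  refine mem_cAb.2 fun Z hZ hodd hc y hy => ?_
  by_contra hne
  have hy' : d⁻¹ * y * d ∈ Z := hZ.conj_mem' y hy d
  have hu : y⁻¹ * (d⁻¹ * y * d) ∈ Z := mul_mem (inv_mem hy) hy'
  obtain ⟨x, hx⟩ := exists_ne_of_ne_one hρ (show y⁻¹ * (d⁻¹ * y * d) ≠ 1 from fun h => hne (by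
    calc y * d = d * y * (y⁻¹ * (d⁻¹ * y * d)) := by group
      _ = d * y := by rw [h, mul_one]))
  obtain ⟨v, -, hv0, he, hv⟩ := exists_eig_ne (ρ := ρ) (Y := Z) hc ⊤
    (fun _ _ _ _ => Submodule.mem_top) (odd_orderOf hodd hu) (fun a ha => hc _ hu a ha)
    (fun _ _ => Submodule.mem_top) Submodule.mem_top hx
  obtain ⟨χ, hχ⟩ := exists_mem_W he
  have hm : d • χ ≠ χ := fun e => hv (by
    rw [map_mul, End.mul_apply, hχ.1 _ hy', ← smul_apply d χ y, e, ← hχ.1 _ hy, ← End.mul_apply,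
      ← map_mul, inv_mul_cancel, map_one, End.one_apply])
  have := hU.W_le hS (Z := Z) χ (l + 1) (fun i hi => ⟨d, dN_anti (Nat.lt_succ_iff.1 hi) hd, hm⟩) hχ
  rw [hl, bot_sup_eq] at this
  exact hv0 (W_indep hχ this)

theorem Ch.propN [Group.IsSolvable H] (hO : pCore 2 H = ⊥) (hS : IsPGroup 2 S)
    (hρ : Function.Injective ρ) (hU : Ch ρ S U) {l : ℕ} (hl : U (l + 1) = ⊥) {d m : H}
    (hd : d ∈ dN S l) (hm : m ∈ S) (hmc : m ∈ cAb H) : d * m = m * d := by
  by_contra hne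
  set D := dN S l with hD
  have hDn : m ∈ normalizer (D : Set H) := le_normalizer_dN l hm
  have hd' : m * d⁻¹ * m⁻¹ ∈ D := (mem_normalizer_iff.1 hDn _).1 (inv_mem hd)
  have hw : d * (m * d⁻¹ * m⁻¹) ∈ D := mul_mem hd hd'
  have hDc := hU.le_cAb hS hρ hl
  obtain ⟨C, hCn, hC, hcl, hwC⟩ := exists_critical_moved hO hS (dN_le l hw) fun h => hne (by
    calc d * m = d * (m * d⁻¹ * m⁻¹) * (m * d) := by group
      _ = m * d := by rw [h, one_mul])
  obtain ⟨lam, hlam, y, hy, hyw⟩ := exists_wtl_moved hρ hC hcl (hU.comm hρ hl) (hU.sq hρ hl)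
    (cAb_cz hC (hDc hw)) hwC
  have hy2 : m⁻¹ * y * m⁻¹⁻¹ ∈ wtl D C lam := conj_mem_wtl (inv_mem hDn)
    (smul_eq_of_comm hlam (cAb_cz hC (inv_mem hmc))) hy
  have main : ∀ y₁ ∈ wtl D C lam, ∀ y₂ ∈ wtl D C lam, (∃ e ∈ D, y₁ * e ≠ e * y₁) →
      y₁ * d = d * y₁ → y₂ * d = d * y₂ := by
    intro y₁ hy₁ y₂ hy₂ ⟨e, he, he'⟩ h1
    by_contra h2
    refine free (ρ := ρ) hC hcl (fun b hb => cAb_cz hC (hDc hb)) hlam
      (fun i => if i = 0 then D else if i = 1 then D ⊓ centralizer {y₁} else ⊥)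
      (fun i => if i = 0 then ⊤ else if i = 1 then U l else ⊥) 2 le_rfl ?_ ?_ ?_ le_top
      disjoint_bot_left
    · intro i hi
      interval_cases i
      · exact inf_le_left
      · exact bot_le
    · intro i hi
      interval_cases i
      · exact fun n hn u _ => hU.le_movers l hn u
      · exact fun n hn u hu => hl ▸ hU.2 l n hn.1 u hu
    · intro i hi
      interval_cases i
      · refine ⟨e, he, fun k hk hke => he' ?_⟩
        have h3 : k * (k⁻¹ * e) ∈ centralizer ({y₁} : Set H) :=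
          mul_mem hk.2 (centralizer_le (Set.singleton_subset_iff.2 hy₁) hke)
        rw [mul_inv_cancel_left] at h3
        exact h3 y₁ rfl
      · refine ⟨d, ⟨hd, by rintro _ rfl; exact h1⟩, fun k hk hke => h2 ?_⟩
        rw [mem_bot.1 hk, inv_one, one_mul] at hke
        exact hke y₂ hy₂
  have hiff : (m⁻¹ * y * m⁻¹⁻¹) * d = d * (m⁻¹ * y * m⁻¹⁻¹) ↔
      m * d⁻¹ * m⁻¹ ∈ centralizer ({y} : Set H) := by
    rw [mem_centralizer_singleton_iff]
    constructor
    · intro h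
      calc m * d⁻¹ * m⁻¹ * y = m * d⁻¹ * (m⁻¹ * y * m⁻¹⁻¹ * d) * d⁻¹ * m⁻¹ := by group
        _ = _ := by rw [h]; group
    · intro h
      calc m⁻¹ * y * m⁻¹⁻¹ * d = d * m⁻¹ * (m * d⁻¹ * m⁻¹ * y) * m * d := by group
        _ = _ := by rw [h]; group
  by_cases h1 : y * d = d * y
  · have h2 := hiff.1 (main y hy _ hy2 ⟨_, hw, hyw⟩ h1)
    exact hyw (mul_mem (mem_centralizer_singleton_iff.2 h1.symm) h2 y rfl)
  · refine h1 (main _ hy2 y hy ⟨m⁻¹ * (d * (m * d⁻¹ * m⁻¹)) * m,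
      (mem_normalizer_iff''.1 hDn _).1 hw, fun h => hyw ?_⟩ (hiff.2 ?_))
    · calc y * (d * (m * d⁻¹ * m⁻¹))
          = m * (m⁻¹ * y * m⁻¹⁻¹ * (m⁻¹ * (d * (m * d⁻¹ * m⁻¹)) * m)) * m⁻¹ := by group
        _ = _ := by rw [h]; group
    · have h3 : d * y * d⁻¹ = y⁻¹ := (hy.1.2 hd).resolve_left fun e => h1 (by
        rw [mul_inv_eq_iff_eq_mul] at e; exact e.symm)
      have h4 : d * (m * d⁻¹ * m⁻¹) * y * (d * (m * d⁻¹ * m⁻¹))⁻¹ = y⁻¹ :=
        (hy.1.2 hw).resolve_left fun e => hyw (by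
          rw [mul_inv_eq_iff_eq_mul] at e; exact e.symm)
      rw [mem_centralizer_singleton_iff]
      calc m * d⁻¹ * m⁻¹ * y = d⁻¹ * (d * (m * d⁻¹ * m⁻¹) * y * (d * (m * d⁻¹ * m⁻¹))⁻¹) * d *
            (m * d⁻¹ * m⁻¹) := by group
        _ = _ := by rw [h4, ← h3]; group

theorem Ch.propE [Group.IsSolvable H] (hO : pCore 2 H = ⊥) (hS : IsPGroup 2 S)
    (hρ : Function.Injective ρ) (hU : Ch ρ S U) {l : ℕ} (hl : U (l + 1) = ⊥) {B : Subgroup H}
    (hBS : B ≤ S) (hBn : S ≤ normalizer (B : Set H)) (hBc : ∀ a ∈ B, ∀ b ∈ B, a * b = b * a)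
    (hB2 : ∀ a ∈ B, a * a = 1) (hBZ : B ≤ cAb H) : gc S B l = ⊥ := by
  classical
  rw [eq_bot_iff]
  intro w hw
  by_contra hw1
  have hwB := gc_le hBn l hw
  obtain ⟨C, hCn, hC, hcl, hwC⟩ := exists_critical_moved hO hS (hBS hwB) hw1
  obtain ⟨lam, hlam, y, hy, hyw⟩ := exists_wtl_moved hρ hC hcl hBc hB2 (cAb_cz hC (hBZ hwB)) hwC
  have hex : ∃ j, ∀ n ∈ dN S j, n • lam = lam :=
    ⟨l, fun n hn => smul_eq_of_comm hlam (cAb_cz hC (hU.le_cAb hS hρ hl hn))⟩
  set j := Nat.find hex with hj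
  have hjl : j ≤ l := Nat.find_min' hex
    fun n hn => smul_eq_of_comm hlam (cAb_cz hC (hU.le_cAb hS hρ hl hn))
  have hjs : ∀ n ∈ dN S j, n • lam = lam := Nat.find_spec hex
  have h0 := hU.W_le hS (Z := cz C) lam j fun i hi => by
    have := Nat.find_min hex hi
    push Not at this
    exact this
  set O := ⨆ (μ : Om H F) (_ : μ ≠ lam), W ρ (cz C) μ with hOdef
  refine free (ρ := ρ) hC hcl (fun b hb => cAb_cz hC (hBZ hb)) hlam (fun i => gc S B (j + i))
    (fun i => U (j + i) ⊔ O) (l + 1 - j) (gc_le hBn _) (fun i _ => gc_anti hBn (by omega))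
    ?_ ?_ h0 ?_
  · intro i _ n hn u hu
    obtain ⟨a, ha, b, hb, rfl⟩ := Submodule.mem_sup.1 hu
    have h1 : ρ n b ∈ O := by
      have : O ≤ O.comap (ρ n) := iSup₂_le fun μ hμ v hv =>
        le_iSup₂_of_le (f := fun μ (_ : μ ≠ lam) => W ρ (cz C) μ) μ hμ le_rfl
          (map_mem_W_of_comm (cAb_cz hC (hBZ (gc_le hBn _ hn))) hv)
      exact this hb
    have h2 : ρ n (a + b) - (a + b) = (ρ n a - a) + (ρ n b - b) := by
      rw [map_add]
      abel
    rw [h2]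
    exact Submodule.add_mem_sup (hU.2 (j + i) n (gc_le_dN hBS _ hn) a ha) (O.sub_mem h1 hb)
  · intro i hi
    by_contra hc
    push Not at hc
    have hK : dN S (j + i) ≤ normalizer ((B ⊓ centralizer (wtl B C lam) : Subgroup H) : Set H) := by
      refine H2.le_normalizer_inf ((dN_le _).trans hBn) (le_normalizer_iff.2 fun n hn c hc z hz => ?_)
      have hn' : n⁻¹ ∈ dN S j := dN_anti (Nat.le_add_right j i) (inv_mem hn)
      have := hc _ (conj_mem_wtl (hBn (dN_le _ hn')) (hjs _ hn') hz)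
      calc z * (n * c * n⁻¹) = n * (n⁻¹ * z * n⁻¹⁻¹ * c) * n⁻¹ := by group
        _ = _ := by rw [this]; group
    have := le_of_le_commutator_sup hS hBS (dN_le (j + i)) hBn hBc inf_le_left hK
      (gc_le hBn (j + i)) fun n hn => by
        obtain ⟨m, hm, hmn⟩ := hc n hn
        rw [← mul_inv_cancel_left m n]
        exact mul_mem_sup hm ⟨B.mul_mem (B.inv_mem (gc_le hBn _ hm)) (gc_le hBn _ hn), hmn⟩
    exact hyw ((this (gc_anti hBn (by omega) hw)).2 y hy)
  · rw [show j + (l + 1 - j) = l + 1 by omega, hl, bot_sup_eq, Submodule.disjoint_def]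
    exact fun v h1 h2 => W_indep h2 h1

end H35L.TL
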