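import Mathlib
import Cfsg.Agent.Base
import Cfsg.Agent.Lib.FGS.Reduced
import Cfsg.Agent.Lib.Perm.PermModule
import Cfsg.Agent.Lib.Lin35.TwoLenC

/-! The 2-length of a solvable group is at most the derived length of a Sylow 2-subgroup. -/

set_option autoImplicit false

namespace H35L.TL

open Module Subgroup Cfsg H46 TensorProduct
open scoped commutatorElement

universe u

/-- The algebraic closure of the field with two elements. -/
abbrev F2 : Type := AlgebraicClosure (ZMod 2)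

/-- The statement for faithful modules. -/
def Core (l : ℕ) : Prop :=
  ∀ (H : Type u) [Group H] [Finite H] [Group.IsSolvable H] (S : Sylow 2 H) (V : Type u)
    [AddCommGroup V] [Module F2 V] [FiniteDimensional F2 V] (ρ : H →* End F2 V)
    (U : ℕ → Submodule F2 V), pCore 2 H = ⊥ → Function.Injective ρ → Ch ρ (S : Subgroup H) U →
    U (l + 1) = ⊥ → PLengthLE 2 l H

/-- A quotient of small length whose kernel is under control. -/
def Out (l : ℕ) (H : Type u) [Group H] (Q : H → Prop) : Prop :=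
  ∃ (Y : Type u) (_ : Group Y) (_ : Finite Y) (f : H →* Y), PLengthLE 2 l Y ∧
    ∀ x, f x = 1 → Odd (orderOf x) → Q x

theorem Out.and {l : ℕ} {H : Type u} [Group H] {Q Q' : H → Prop} (h : Out l H Q)
    (h' : Out l H Q') : Out l H fun x => Q x ∧ Q' x := by
  obtain ⟨Y, _, _, f, h1, h2⟩ := h
  obtain ⟨Y', _, _, f', h1', h2'⟩ := h'
  refine ⟨Y × Y', inferInstance, inferInstance, f.prod f', ?_, fun x hx ho => ?_⟩
  · refine H76.pLengthLE_of_inf_ker (MonoidHom.fst Y Y') (MonoidHom.snd Y Y') ?_ h1 h1'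
    rw [eq_bot_iff]
    exact fun x hx => Prod.ext hx.1 hx.2
  · exact ⟨h2 x (congrArg Prod.fst hx) ho, h2' x (congrArg Prod.snd hx) ho⟩

theorem Out.mono {l : ℕ} {H : Type u} [Group H] {Q Q' : H → Prop} (h : Out l H Q)
    (h' : ∀ x, Odd (orderOf x) → Q x → Q' x) : Out l H Q' := by
  obtain ⟨Y, _, _, f, h1, h2⟩ := h
  exact ⟨Y, _, inferInstance, f, h1, fun x hx ho => h' x ho (h2 x hx ho)⟩

theorem Out.comp {l : ℕ} {H H' : Type u} [Group H] [Group H'] {Q : H' → Prop} (h : Out l H' Q)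
    (g : H →* H') : Out l H fun x => Q (g x) := by
  obtain ⟨Y, _, _, f, h1, h2⟩ := h
  exact ⟨Y, _, inferInstance, f.comp g, h1, fun x hx ho =>
    h2 _ hx (Odd.of_dvd_nat ho (orderOf_map_dvd g x))⟩

theorem isPGroup_of_odd {H : Type*} [Group H] [Finite H] {K : Subgroup H}
    (h : ∀ x ∈ K, Odd (orderOf x) → x = 1) : IsPGroup 2 K := fun x => by
  obtain ⟨k, m, hm, e⟩ := Nat.exists_eq_two_pow_mul_odd (orderOf_pos (x : H)).ne'
  refine ⟨k, Subtype.ext (h _ (pow_mem x.2 _) (Odd.of_dvd_nat hm (orderOf_dvd_of_pow_eq_one ?_)))⟩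
  rw [Subgroup.coe_pow, ← pow_mul, ← e, pow_orderOf_eq_one]

theorem Out.length {l : ℕ} {H : Type u} [Group H] [Finite H] (h : Out l H fun x => x = 1) :
    PLengthLE 2 (l + 1) H := by
  obtain ⟨Y, _, _, f, h1, h2⟩ := h
  exact H76.pLengthLE_succ_of_ker_le f
    ((H1.le_pCore (isPGroup_of_odd h2)).trans H23.pCore_le_pPrimePCore) h1

theorem gen {l : ℕ} (hc : Core.{u} l) {H : Type u} [Group H] [Finite H] [Group.IsSolvable H]
    (S : Sylow 2 H) (n : ℕ) : ∀ (V : Type u) [AddCommGroup V] [Module F2 V]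
      [FiniteDimensional F2 V] (ρ : H →* End F2 V) (U : ℕ → Submodule F2 V),
      finrank F2 V = n → Ch ρ (S : Subgroup H) U → U (l + 1) = ⊥ → Out l H fun x => ρ x = 1 := by
  induction n using Nat.strong_induction_on with
  | _ n ih =>
  intro V _ _ _ ρ U hn hU hl
  by_cases hred : ∃ V₁ : Submodule F2 V, V₁ ≠ ⊥ ∧ V₁ ≠ ⊤ ∧ ∀ g, V₁ ≤ V₁.comap (ρ g)
  · obtain ⟨V₁, h0, h1, hinv⟩ := hred
    have e1 := ih _ (hn ▸ Submodule.finrank_lt h1) V₁ (Representation.subrepresentation ρ V₁ hinv)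
      (fun i => (U i).comap V₁.subtype) rfl
      ⟨by beta_reduce; rw [hU.1, Submodule.comap_top], fun i g hg u hu => hU.2 i g hg u hu⟩
      (by rw [hl, Submodule.comap_bot, Submodule.ker_subtype])
    have e2 := ih _ (hn ▸ (show finrank F2 (V ⧸ V₁) < finrank F2 V by
        have := V₁.finrank_quotient_add_finrank
        have h2 : finrank F2 V₁ ≠ 0 := fun h => h0 (Submodule.finrank_eq_zero.1 h)
        omega)) (V ⧸ V₁) (Representation.quotient ρ V₁ hinv)
      (fun i => (U i).map V₁.mkQ) rfl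
      ⟨by beta_reduce; rw [hU.1, Submodule.map_top, Submodule.range_mkQ], by
        rintro i g hg _ ⟨u, hu, rfl⟩
        exact ⟨_, hU.2 i g hg u hu, rfl⟩⟩
      (by rw [hl, Submodule.map_bot])
    refine (e1.and e2).mono fun x hx h => LinearMap.ext fun w => ?_
    have h2 : ρ x w - w ∈ V₁ := by
      rw [← Submodule.Quotient.eq]
      exact LinearMap.congr_fun h.2 (V₁.mkQ w)
    rw [End.one_apply, ← sub_eq_zero]
    exact eq_zero_of_fixed hx (by rw [← map_pow, pow_orderOf_eq_one, map_one])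
      (congrArg Subtype.val (LinearMap.congr_fun h.1 ⟨_, h2⟩))
  push Not at hred
  let ρ' : H ⧸ ρ.toHomUnits.ker →* End F2 V :=
    (Units.coeHom _).comp (QuotientGroup.kerLift ρ.toHomUnits)
  have hρ' : Function.Injective ρ' := Units.val_injective.comp (QuotientGroup.kerLift_injective _)
  have hsur := QuotientGroup.mk'_surjective ρ.toHomUnits.ker
  have hρρ : ∀ x : H, ρ' (QuotientGroup.mk' _ x) = ρ x := fun x => rfl
  refine ⟨H ⧸ ρ.toHomUnits.ker, inferInstance, inferInstance, QuotientGroup.mk' _,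
    hc _ (S.mapSurjective hsur) V ρ' U ?_ hρ' ⟨hU.1, ?_⟩ hl,
    fun x hx _ => by beta_reduce; rw [← hρρ, hx, map_one]⟩
  · rw [eq_bot_iff]
    intro a ha
    refine mem_bot.2 (hρ' ?_)
    rw [map_one]
    rcases subsingleton_or_nontrivial V with hV | hV
    · exact Subsingleton.elim _ _
    let V₁ : Submodule F2 V := ⨅ b : pCore 2 (H ⧸ ρ.toHomUnits.ker), LinearMap.ker (ρ' b - 1)
    have hmem : ∀ v, v ∈ V₁ ↔ ∀ b ∈ pCore 2 (H ⧸ ρ.toHomUnits.ker), ρ' b v = v := fun v => by
      simp only [V₁, Submodule.mem_iInf, LinearMap.mem_ker, LinearMap.sub_apply, End.one_apply,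
        sub_eq_zero, Subtype.forall]
    obtain ⟨w, -, hw0, hw⟩ := H26.exists_fixed_vector_of_isPGroup H1.isPGroup_pCore
      (ρ'.comp (pCore 2 (H ⧸ ρ.toHomUnits.ker)).subtype) ⊤ (fun _ _ _ => Submodule.mem_top)
      top_ne_bot
    have hV₁ : V₁ = ⊤ := by
      by_contra h
      obtain ⟨g, hg⟩ := hred V₁
        ((Submodule.ne_bot_iff _).2 ⟨w, (hmem w).2 fun b hb => hw ⟨b, hb⟩, hw0⟩) h
      refine hg fun v hv => (hmem _).2 fun b hb => ?_
      have := (hmem v).1 hv _ (Normal.conj_mem' inferInstance b hb (QuotientGroup.mk' _ g))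
      rw [← hρρ]
      conv_rhs => rw [← this]
      rw [← End.mul_apply, ← End.mul_apply, ← map_mul, ← map_mul]
      congr 2
      group
    exact LinearMap.ext fun v => (hmem v).1 (hV₁ ▸ Submodule.mem_top) a ha
  · intro i g hg
    rw [Sylow.coe_mapSurjective, ← map_dN] at hg
    obtain ⟨g, hg, rfl⟩ := hg
    exact hU.2 i g hg

theorem grp {l : ℕ} (hc : Core.{u} l) {H : Type u} [Group H] [Finite H] [Group.IsSolvable H]
    (S : Sylow 2 H) (P : Subgroup H) [P.Normal] (hP : ∀ a ∈ P, ∀ b ∈ P, a * b = b * a)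
    (hP2 : ∀ a ∈ P, a * a = 1) (hl : gc (S : Subgroup H) P (l + 1) = ⊥) :
    Out l H fun x => x ∈ centralizer (P : Set H) := by
  have hV : IsMulCommutative P ∧ ∀ x : P, x ^ 2 = 1 :=
    ⟨⟨⟨fun a b => Subtype.ext (hP a a.2 b b.2)⟩⟩, fun a => Subtype.ext (by
      rw [sq]; exact hP2 a a.2)⟩
  let ρ : H →* End F2 (F2 ⊗[ZMod 2] EA 2 P hV) :=
    (End.baseChangeHom (ZMod 2) F2 (EA 2 P hV) : _ →* _).comp (H76.conjRep P hV)
  have hρ : ∀ g, ρ g = (H76.conjRep P hV g).baseChange F2 := fun g => rfl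
  refine (gen hc S _ _ ρ (fun i => (EA.subgroupEquiv hV
    ((gc (S : Subgroup H) P i).subgroupOf P)).baseChange F2) rfl ⟨?_, ?_⟩ ?_).mono fun x _ hx => ?_
  · show (EA.subgroupEquiv hV (P.subgroupOf P)).baseChange F2 = ⊤
    rw [subgroupOf_self, map_top, Submodule.baseChange_top]
  · intro i g hg u hu
    have : (EA.subgroupEquiv hV ((gc (S : Subgroup H) P i).subgroupOf P)).baseChange F2 ≤
        ((EA.subgroupEquiv hV ((gc (S : Subgroup H) P (i + 1)).subgroupOf P)).baseChange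
          F2).comap (ρ g - 1) := by
      rw [Submodule.baseChange_eq_span, Submodule.span_le]
      rintro _ ⟨v, hv, rfl⟩
      obtain ⟨v, rfl⟩ := (EA.of hV).surjective v
      have h1 : (ρ g - 1) (1 ⊗ₜ EA.of hV v) = 1 ⊗ₜ ((H76.conjRep P hV g - 1) (EA.of hV v)) := by
        rw [LinearMap.sub_apply, LinearMap.sub_apply, hρ, LinearMap.baseChange_tmul, tmul_sub]
        rfl
      refine Submodule.mem_comap.2 ?_
      show (ρ g - 1) (1 ⊗ₜ EA.of hV v) ∈ _
      rw [h1, H76.conjRep_sub_one_of]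
      refine Submodule.tmul_mem_baseChange_of_mem _ ((EA.mem_subgroupEquiv hV _ _).2 ?_)
      rw [mem_subgroupOf, gc, commutator_comm]
      exact commutator_mem_commutator hg hv
    exact this hu
  · rw [hl, bot_subgroupOf, OrderIso.map_bot, Submodule.baseChange_bot]
  · rw [← H76.conjRep_eq_one_iff P hV]
    refine LinearMap.baseChangeHom_injective (R := ZMod 2) (S := F2) (M := EA 2 P hV)
      (N := EA 2 P hV) ?_
    rw [LinearMap.baseChangeHom_apply, LinearMap.baseChangeHom_apply, ← hρ, hx,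
      LinearMap.baseChange_one]

theorem coprime_of_sylow_eq_bot {H : Type*} [Group H] [Finite H] (S : Sylow 2 H)
    (h : (S : Subgroup H) = ⊥) : (Nat.card H).Coprime 2 := by
  have := S.not_dvd_index
  rw [h, index_bot] at this
  exact ((Nat.Prime.coprime_iff_not_dvd Nat.prime_two).2 this).symm

theorem core_zero : Core.{u} 0 := by
  intro H _ _ _ S V _ _ _ ρ U _ hρ hU hl
  refine H76.pLengthLE_zero_iff.2 (coprime_of_sylow_eq_bot S (eq_bot_iff.2 fun s hs => ?_))
  refine mem_bot.2 (hρ (LinearMap.ext fun v => ?_))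
  have := hU.2 0 s hs v (hU.1 ▸ Submodule.mem_top)
  rw [hl, Submodule.mem_bot, sub_eq_zero] at this
  rw [this, map_one, End.one_apply]

theorem core_succ {l : ℕ} (hc : Core.{u} l) : Core.{u} (l + 1) := by
  intro H _ _ _ S V _ _ _ ρ U hO hρ hU hl
  have hS := S.isPGroup'
  let π := QuotientGroup.mk' (pPrimeCore 2 H)
  have hπ : Function.Surjective π := QuotientGroup.mk'_surjective _
  refine H76.pLengthLE_of_ker_coprime π
    (by rw [QuotientGroup.ker_mk']; exact H1.coprime_card_pPrimeCore) (Out.length ?_)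
  have hinj : ∀ a ∈ (S : Subgroup H), π a = 1 → a = 1 := fun a ha h =>
    eq_one_of_odd_of_mem hS ha (Nat.coprime_two_right.1
      (H1.coprime_orderOf_of_mem_pPrimeCore ((QuotientGroup.eq_one_iff a).1 h)))
  set S₁ := S.mapSurjective hπ with hS₁
  have hS₁' : (S₁ : Subgroup _) = (S : Subgroup H).map π := rfl
  set M := pCore 2 (H ⧸ pPrimeCore 2 H) with hM
  have hMS : M ≤ S₁ := H1.pCore_le_sylow S₁
  set X := normalClosure ((dN (S₁ : Subgroup _) (l + 1) ⊓ M : Subgroup _) :
    Set (H ⧸ pPrimeCore 2 H)) with hX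
  have hXM : X ≤ M := normalClosure_le_normal fun x hx => hx.2
  set B := X.comap π ⊓ (S : Subgroup H) with hB
  have hBX : B.map π = X := by
    refine le_antisymm (map_le_iff_le_comap.2 inf_le_left) fun x hx => ?_
    obtain ⟨s, hs, rfl⟩ := hMS (hXM hx)
    exact ⟨s, ⟨hx, hs⟩, rfl⟩
  have hD : ∀ x ∈ dN (S₁ : Subgroup _) (l + 1), ∃ d ∈ dN (S : Subgroup H) (l + 1), π d = x :=
    fun x hx => by
      rw [hS₁', ← map_dN] at hx
      exact hx
  have hBZ : B ≤ cAb H := by
    have := (inferInstance : (cAb H).Normal).map π hπ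
    have h1 : X ≤ (cAb H).map π := normalClosure_le_normal fun x hx => by
      obtain ⟨d, hd, rfl⟩ := hD x hx.1
      exact mem_map_of_mem π (hU.le_cAb hS hρ hl hd)
    intro b hb
    obtain ⟨c, hc', e⟩ := h1 hb.1
    have ho : c⁻¹ * b ∈ pPrimeCore 2 H := QuotientGroup.eq.1 e
    obtain ⟨k, hk⟩ := hS ⟨b, hb.2⟩
    refine H76.mem_of_pow_mem_of_coprime
      ((H1.coprime_orderOf_of_mem_pPrimeCore ho).pow_right k) ?_ ?_
    · rw [← QuotientGroup.eq_one_iff, QuotientGroup.mk_pow,
        show ((b : H) : H ⧸ cAb H) = ((c⁻¹ * b : H) : H ⧸ cAb H) by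
          rw [QuotientGroup.mk_mul, (QuotientGroup.eq_one_iff c⁻¹).2 (inv_mem hc'), one_mul],
        ← QuotientGroup.mk_pow, pow_orderOf_eq_one, QuotientGroup.mk_one]
    · rw [show b ^ 2 ^ k = 1 from congrArg Subtype.val hk]
      exact one_mem _
  have hXc : ∀ a ∈ X, ∀ b ∈ X, a * b = b * a := by
    have : X ≤ centralizer (X : Set (H ⧸ pPrimeCore 2 H)) := normalClosure_le_normal fun x hx => by
      obtain ⟨d, hd, rfl⟩ := hD x hx.1
      intro y hy
      obtain ⟨b, hb, rfl⟩ := hBX.ge hy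
      rw [← map_mul, ← map_mul, hU.propN hO hS hρ hl hd hb.2 (hBZ hb)]
    exact fun a ha b hb => this hb a ha
  have hX2 : ∀ a ∈ X, a * a = 1 := by
    intro a ha
    induction ha using closure_induction with
    | mem x hx =>
      obtain ⟨y, hy, hxy⟩ := Group.mem_conjugatesOfSet_iff.1 hx
      obtain ⟨c, rfl⟩ := isConj_iff.1 hxy
      obtain ⟨d, hd, rfl⟩ := hD y hy.1
      rw [conj_mul, ← map_mul, hU.sq hρ hl d hd, map_one, mul_one, mul_inv_cancel]
    | one => exact one_mul 1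
    | mul x y hx hy h1 h2 =>
      rw [mul_assoc, ← mul_assoc y, hXc y hy x hx, mul_assoc, h2, mul_one, h1]
    | inv x _ h => rw [← mul_inv_rev, h, inv_one]
  have hE := hU.propE hO hS hρ hl (B := B) inf_le_right
    (H2.le_normalizer_inf (by rw [normalizer_eq_top]; exact le_top) le_normalizer)
    (fun a ha b hb => by
      rw [← commutatorElement_eq_one_iff_mul_comm]
      refine hinj _ (mul_mem (mul_mem (mul_mem ha.2 hb.2) (inv_mem ha.2)) (inv_mem hb.2)) ?_
      rw [map_commutatorElement, commutatorElement_eq_one_iff_mul_comm]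
      exact hXc _ ha.1 _ hb.1)
    (fun a ha => hinj _ (mul_mem ha.2 ha.2) (by rw [map_mul]; exact hX2 _ ha.1)) hBZ
  have e1 := grp hc S₁ X hXc hX2 (by rw [hS₁', ← hBX, ← map_gc, hE, Subgroup.map_bot])
  set Φ := (frattini M).map M.subtype with hΦ
  obtain ⟨hΦ1, hΦ2⟩ := (H1.map_subtype_frattini_le_iff (N := Φ) H1.isPGroup_pCore).1 le_rfl
  let σ := QuotientGroup.mk' (X ⊔ Φ)
  have hσ : Function.Surjective σ := QuotientGroup.mk'_surjective _
  have hMn := (inferInstance : M.Normal).map σ hσ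
  have e2 := grp hc (S₁.mapSurjective hσ) (M.map σ)
    (by
      rintro _ ⟨a, ha, rfl⟩ _ ⟨b, hb, rfl⟩
      rw [← commutatorElement_eq_one_iff_mul_comm, ← map_commutatorElement]
      exact (QuotientGroup.eq_one_iff _).2
        (mem_sup_right (hΦ1 (commutator_mem_commutator ha hb))))
    (by
      rintro _ ⟨a, ha, rfl⟩
      rw [← map_mul, ← sq]
      exact (QuotientGroup.eq_one_iff _).2 (mem_sup_right (hΦ2 a ha)))
    (by
      rw [Sylow.coe_mapSurjective hσ S₁, ← map_gc, Subgroup.map_eq_bot_iff, QuotientGroup.ker_mk']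
      refine le_trans (fun x hx => ?_) le_sup_left
      exact subset_normalClosure ⟨gc_le_dN hMS _ hx,
        gc_le (by rw [normalizer_eq_top]; exact le_top) _ hx⟩)
  refine (e1.and (e2.comp σ)).mono fun x hx h => ?_
  have hcop : (Nat.card (zpowers x)).Coprime (Nat.card M) := by
    obtain ⟨k, hk⟩ := IsPGroup.iff_card.1 (H1.isPGroup_pCore (p := 2) (G := H ⧸ pPrimeCore 2 H))
    rw [Nat.card_zpowers, hk]
    exact (Nat.coprime_two_right.2 hx).pow_right k
  have hN : ∀ (A K : Subgroup (H ⧸ pPrimeCore 2 H)) [K.Normal],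
      A ≤ normalizer (K : Set (H ⧸ pPrimeCore 2 H)) := fun A K _ => by
    rw [normalizer_eq_top]; exact le_top
  have h1 : ⁅M, zpowers x⁆ ≤ X ⊔ Φ := by
    rw [← QuotientGroup.ker_mk' (X ⊔ Φ), ← Subgroup.map_eq_bot_iff, map_commutator,
      commutator_eq_bot_iff_le_centralizer, le_centralizer_iff, MonoidHom.map_zpowers, zpowers_le]
    exact h.2
  have h2 : ⁅M, zpowers x⁆ ≤ Φ := by
    rw [← H2.commutator_commutator_eq (hN _ _) hcop]
    refine (commutator_mono h1 le_rfl).trans (H2.commutator_sup_le (hN _ _) (hN _ _) ?_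
      (commutator_le_left _ _))
    refine le_trans (le_of_eq ?_) bot_le
    rw [commutator_eq_bot_iff_le_centralizer, le_centralizer_iff, zpowers_le]
    exact h.1
  have h3 := H2.le_centralizer_of_commutator_le_frattini (hN _ _)
    (hcop.coprime_dvd_right (card_subgroup_dvd_card _)) h2 (mem_zpowers x)
  exact eq_one_of_odd_of_mem H1.isPGroup_pCore
    (H1.centralizer_pCore_le_of_isSolvable H1.pPrimeCore_quotient_pPrimeCore h3) hx

theorem core (l : ℕ) : Core.{u} l := by
  induction l with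
  | zero => exact core_zero
  | succ l ih => exact core_succ ih

theorem pLengthLE_of_derived {G : Type u} [Group G] [Finite G] [Group.IsSolvable G]
    (P : Sylow 2 G) (d : ℕ) (hd : derivedSeries (P : Subgroup G) d = ⊥) : PLengthLE 2 d G := by
  have hd' : dN (P : Subgroup G) d = ⊥ := by rw [dN_eq_map, hd, Subgroup.map_bot]
  rcases d with _ | l
  · exact H76.pLengthLE_zero_iff.2 (coprime_of_sylow_eq_bot P hd')
  obtain ⟨H, _, _, f, hf, h1, h2, h3, h4⟩ :=
    H76.exists_reduced (H76.isPSolvable_of_isSolvable (p := 2) (G := G))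
  have := Group.isSolvable_of_surjective hf
  have e := grp (core l) (P.mapSurjective hf) (pCore 2 H)
    (fun a ha b hb => congrArg Subtype.val (h2.is_comm.comm (⟨a, ha⟩ : pCore 2 H) ⟨b, hb⟩))
    (fun a ha => by rw [← sq]; exact h3 a ha)
    (by
      rw [eq_bot_iff]
      refine (gc_le_dN (H1.pCore_le_sylow _) _).trans ?_
      rw [Sylow.coe_mapSurjective, ← map_dN, hd', Subgroup.map_bot])
  obtain ⟨Y, _, _, g, hY, hg⟩ := e
  refine H76.pLengthLE_succ_of_ker_le (g.comp f) ?_ hY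
  rw [← MonoidHom.comap_ker, ← h1]
  exact comap_mono (H1.le_pCore (isPGroup_of_odd fun x hx ho =>
    eq_one_of_odd_of_mem H1.isPGroup_pCore (h4 (hg x hx ho)) ho))

end H35L.TL
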